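import Cfsg.Agent.H80.Alt.Frame

/-! A fused class of the core gives an element of order three cycling its four group. -/

set_option autoImplicit false
set_option maxHeartbeats 1000000

namespace Cfsg.Agent.H80.Alt

open Cfsg.Agent.H16

/-- The element of order three together with its action. -/
structure Amalgam {G : Type*} [Group G] {s : G} (F : Frame s) (k i : Nat) (y : G) : Prop where
  k_lt : k < 3
  i_lt : i < 16
  y_cube : y ^ 3 = 1
  y_s : y * s * y⁻¹ = F.ι (eK k)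
  y_e : y * F.ι (eK k) * y⁻¹ = F.ι (esK k)
  y_T : ∀ a, a < 192 → inT k a = true → y * F.ι a * y⁻¹ = F.ι (phi k i a)
  y_hh : y * F.ι (hhK k) * y * F.ι (hhK k) = F.ι (tK k i)

theorem phi_facts {k i a : Nat} (hk : k < 3) (hi : i < 16) (ha : a < 192) (hT : inT k a = true) :
    phi k i a < 192 ∧ inT k (phi k i a) = true ∧ (inE k a = true → inE k (phi k i a) = true) ∧
      tK k i < 192 ∧ inT k (tK k i) = true := by
  have h := allT_spec (allFrom_spec (allFrom_spec caseTab_chk k (Nat.zero_le k) (by omega)) i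
    (Nat.zero_le i) (by omega)) ha hT
  simp only [Bool.and_eq_true] at h
  exact ⟨Nat.le_of_ble_eq_true h.1.1.1.2, h.1.1.1.1.2, imp_spec h.2, Nat.le_of_ble_eq_true h.1.2,
    h.1.1.2⟩

theorem comm_conj {G : Type*} [Group G] (g : G) {u v : G} (h : u * v = v * u) :
    g * u * g⁻¹ * (g * v * g⁻¹) = g * v * g⁻¹ * (g * u * g⁻¹) := by
  rw [conj_mul, conj_mul, h]

namespace Frame

variable {G : Type*} [Group G] {s : G} (F : Frame s)

include F in
theorem s_sq : s * s = 1 := by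
  have := F.sq_one sI_lt (by decide +kernel)
  rwa [F.map_s] at this

theorem map_es {k : Nat} (hk : k < 3) : F.ι (esK k) = F.ι (eK k) * s := by
  obtain ⟨he, -, hm, -⟩ := k_facts hk
  rw [← hm, F.map_mul _ _ he sI_lt, F.map_s]

theorem card_centralizer_pair {b : Nat} (hb : b < 192) :
    Nat.card ↥(Subgroup.centralizer ({s} : Set G) ⊓ Subgroup.centralizer ({F.ι b} : Set G)) =
      countFrom (fun a => commB a b) 192 0 := by
  classical
  rw [countFrom_spec, ← Nat.card_eq_finsetCard]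
  refine (Nat.card_congr (Equiv.ofBijective
    (fun a => ⟨F.ι a.1, (by
      obtain ⟨h1, h2⟩ := Finset.mem_filter.mp a.2
      have hlt := (Finset.mem_Ico.mp h1).2
      refine Subgroup.mem_inf.mpr ⟨F.mem_centralizer.mpr ⟨a.1, hlt, rfl⟩, ?_⟩
      rw [Subgroup.mem_centralizer_singleton_iff]
      have := (F.commB_iff hlt hb).mp h2
      first
        | exact this
        | exact this.symm)⟩) ⟨?_, ?_⟩)).symm
  · intro x y he
    exact Subtype.ext (F.inj _ _ (Finset.mem_Ico.mp (Finset.mem_filter.mp x.2).1).2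
      (Finset.mem_Ico.mp (Finset.mem_filter.mp y.2).1).2 (congrArg Subtype.val he))
  · rintro ⟨x, hx⟩
    obtain ⟨h1, h2⟩ := Subgroup.mem_inf.mp hx
    obtain ⟨a, ha, rfl⟩ := F.mem_centralizer.mp h1
    rw [Subgroup.mem_centralizer_singleton_iff] at h2
    refine ⟨⟨a, Finset.mem_filter.mpr ⟨Finset.mem_Ico.mpr ⟨Nat.zero_le a, ha⟩,
      (F.commB_iff ha hb).mpr ?_⟩⟩, rfl⟩
    first
      | exact h2
      | exact h2.symm

/-- A fused class is fused by an element exchanging the two involutions. -/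
theorem exists_swap [Finite G] {k : Nat} (hk : k < 3) (hc : IsConj s (F.ι (eK k))) :
    ∃ u : G, u * s * u⁻¹ = F.ι (eK k) ∧ u * F.ι (eK k) * u⁻¹ = s := by
  obtain ⟨he, hcls, -, -⟩ := k_facts hk
  obtain ⟨h, h1⟩ := isConj_iff.mp hc.symm
  have hse : s * F.ι (eK k) = F.ι (eK k) * s := (F.comm_s he).symm
  have hbs : h * s * h⁻¹ * s = s * (h * s * h⁻¹) := by
    have := comm_conj h hse
    rwa [h1] at this
  obtain ⟨b, hb, hbe⟩ := F.surj _ hbs
  have hb0 : cls b ≠ 0 := (F.orderOf_two hb).mp (by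
    rw [hbe]; exact ((MulAut.conj h).orderOf_eq s).trans F.orderOf_s)
  have hb1 : cls b ≠ 1 := fun e => by
    rw [Frame.eq_sI hb e, F.map_s] at hbe
    have h2 : h * F.ι (eK k) * h⁻¹ = h * s * h⁻¹ := h1.trans hbe
    have h3 := F.inj _ _ he sI_lt (by rw [F.map_s]; exact mul_left_cancel (mul_right_cancel h2))
    rw [h3] at hcls
    rw [show cls sI = 1 by decide +kernel] at hcls
    omega
  -- the centralizers correspond
  have hcard : countFrom (fun a => commB a (eK k)) 192 0 = countFrom (fun a => commB a b) 192 0 := by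
    rw [← F.card_centralizer_pair he, ← F.card_centralizer_pair hb]
    refine Nat.card_congr ((MulAut.conj h).toEquiv.subtypeEquiv fun x => ?_)
    simp only [Subgroup.mem_inf, Subgroup.mem_centralizer_singleton_iff, MulEquiv.toEquiv_eq_coe,
      EquivLike.coe_coe, MulAut.conj_apply]
    constructor
    · rintro ⟨x1, x2⟩
      have a1 := comm_conj h x1
      have a2 := comm_conj h x2
      rw [h1] at a2
      rw [← hbe] at a1
      exact ⟨a2, a1⟩
    · rintro ⟨x1, x2⟩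
      rw [hbe] at x2
      have a1 := comm_conj h⁻¹ x1
      have a2 := comm_conj h⁻¹ x2
      nth_rewrite 1 [← h1] at a1
      nth_rewrite 2 [← h1] at a1
      simp only [inv_inv, mul_assoc, inv_mul_cancel_left, inv_mul_cancel, mul_one] at a1 a2
      exact ⟨a2, a1⟩
  have hb234 : cls b = 2 ∨ cls b = 3 ∨ cls b = 4 := by
    have h32 : countFrom (fun a => commB a (eK k)) 192 0 = 32 := by
      interval_cases k <;> decide +kernel
    have hle := Frame.cls_le hb
    by_contra hne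
    have h56 : (Nat.beq (cls b) 5 || Nat.beq (cls b) 6) = true := by
      rcases (show cls b = 5 ∨ cls b = 6 by omega) with e | e <;> rw [e] <;> rfl
    have := allL_spec cent_size hb
    rw [Bool.and_eq_true] at this
    have h16 := Nat.eq_of_beq_eq_true (imp_spec this.2 h56)
    omega
  -- an element exchanging `b` and `s`
  have hts := imp_spec (allL_spec times_s_chk hb)
    (by rcases hb234 with e | e | e <;> rw [e] <;> rfl)
  rw [Bool.and_eq_true] at hts
  obtain ⟨-, -, -, -, hhh, hh2, hhe, hhes⟩ := k_facts hk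
  set τ := F.ι (hhK k) with hτ
  have τinv : τ⁻¹ = τ := inv_eq_of_mul_eq_one_left (by
    rw [hτ, ← F.map_mul _ _ hhh hhh, hh2, F.map_zero])
  have τe : τ * F.ι (eK k) * τ⁻¹ = F.ι (esK k) := by rw [hτ, ← F.map_conj hhh he, hhe]
  have τs : τ * s * τ⁻¹ = s := by rw [hτ, F.comm_s hhh]; group
  set b' := mul b sI with hb'
  have hb'lt : b' < 192 := mul_lt hb sI_lt
  have eb' : F.ι b' = F.ι b * s := by rw [hb', F.map_mul _ _ hb sI_lt, F.map_s]
  have hes : h * F.ι (esK k) * h⁻¹ = F.ι b' := by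
    rw [eb', F.map_es hk, ← conj_mul, h1, hbe, ← hbs]
  have hes' : h * F.ι (esK k) * h⁻¹ = s * F.ι b := by
    rw [hes, eb', hbe, hbs]
  -- `m` exchanges `s` and `b'`
  set m := h * (h * τ)⁻¹ with hm
  have k1 : h * τ * F.ι (esK k) * (h * τ)⁻¹ = s := by
    calc _ = h * (τ * F.ι (esK k) * τ⁻¹) * h⁻¹ := by group
      _ = h * F.ι (eK k) * h⁻¹ := by
        rw [show τ * F.ι (esK k) * τ⁻¹ = F.ι (eK k) by
          rw [hτ, ← F.map_conj hhh (by obtain ⟨-, -, -, h4, -⟩ := k_facts hk; exact h4), hhes]]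
      _ = s := h1
  have m1 : m * s * m⁻¹ = F.ι b' := by
    calc _ = h * ((h * τ)⁻¹ * (h * τ * F.ι (esK k) * (h * τ)⁻¹) * (h * τ)) * h⁻¹ := by
          rw [k1, hm]; group
      _ = h * F.ι (esK k) * h⁻¹ := by group
      _ = _ := hes
  have m2 : m * F.ι b' * m⁻¹ = s := by
    have k2 : h * τ * F.ι (eK k) * (h * τ)⁻¹ = F.ι b' := by
      calc _ = h * (τ * F.ι (eK k) * τ⁻¹) * h⁻¹ := by group
        _ = _ := by rw [τe, hes]
    calc _ = h * ((h * τ)⁻¹ * (h * τ * F.ι (eK k) * (h * τ)⁻¹) * (h * τ)) * h⁻¹ := by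
          rw [k2, hm]; group
      _ = h * F.ι (eK k) * h⁻¹ := by group
      _ = s := h1
  -- transfer to `b`
  obtain ⟨l, hl⟩ := isConj_iff.mp (F.isConj_of_cls_eq hb'lt hb (Nat.eq_of_beq_eq_true hts.1)
    (by rw [Nat.eq_of_beq_eq_true hts.1]; exact hb0))
  obtain ⟨j, -, hje, -⟩ := F.isConj_rep hb'lt (by rw [Nat.eq_of_beq_eq_true hts.1]; exact hb0)
  obtain ⟨j', -, hje', -⟩ := F.isConj_rep hb hb0
  rw [Nat.eq_of_beq_eq_true hts.1] at hje
  have hcb : ∃ d : G, d * s * d⁻¹ = s ∧ d * F.ι b' * d⁻¹ = F.ι b := by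
    obtain ⟨j, hj, hje, -⟩ := F.isConj_rep hb'lt (by rw [Nat.eq_of_beq_eq_true hts.1]; exact hb0)
    obtain ⟨j', hj', hje', -⟩ := F.isConj_rep hb hb0
    rw [Nat.eq_of_beq_eq_true hts.1] at hje
    have hr : repC (cls b) < 192 := by
      have hr := allFrom_spec rep_chk (cls b) (Nat.zero_le _) (by have := Frame.cls_le hb; omega)
      simp only [Bool.and_eq_true] at hr
      exact Nat.le_of_ble_eq_true hr.1.1
    refine ⟨F.ι j' * (F.ι j)⁻¹, ?_, ?_⟩
    · rw [← F.map_inv hj, ← F.map_mul _ _ hj' (inv_lt hj), F.comm_s (mul_lt hj' (inv_lt hj))]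
      group
    · rw [← hje', ← hje, F.map_conj hj' hr, F.map_conj hj hr]
      group
  obtain ⟨d, d1, d2⟩ := hcb
  set m' := d * m * d⁻¹ with hm'
  have n1 : m' * s * m'⁻¹ = F.ι b := by
    calc _ = d * (m * (d⁻¹ * (d * s * d⁻¹) * d) * m⁻¹) * d⁻¹ := by rw [d1, hm']; group
      _ = d * (m * s * m⁻¹) * d⁻¹ := by group
      _ = _ := by rw [m1, d2]
  have n2 : m' * F.ι b * m'⁻¹ = s := by
    calc _ = d * (m * (d⁻¹ * (d * F.ι b' * d⁻¹) * d) * m⁻¹) * d⁻¹ := by rw [d2, hm']; group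
      _ = d * (m * F.ι b' * m⁻¹) * d⁻¹ := by group
      _ = _ := by rw [m2, d1]
  have e_ms : m' * h * s * (m' * h)⁻¹ = s := by
    calc _ = m' * (h * s * h⁻¹) * m'⁻¹ := by group
      _ = s := by rw [← hbe, n2]
  have e_me : m' * h * F.ι (eK k) * (m' * h)⁻¹ = F.ι b := by
    calc _ = m' * (h * F.ι (eK k) * h⁻¹) * m'⁻¹ := by group
      _ = _ := by rw [h1, n1]
  obtain ⟨p, hp, hpe⟩ := F.surj _ (mul_inv_eq_iff_eq_mul.mp e_ms)
  refine ⟨(F.ι p)⁻¹ * h, ?_, ?_⟩
  · rw [hpe]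
    calc _ = (m' * h)⁻¹ * (h * s * h⁻¹) * (m' * h) := by group
      _ = (m' * h)⁻¹ * (m' * h * F.ι (eK k) * (m' * h)⁻¹) * (m' * h) := by rw [← hbe, e_me]
      _ = _ := by group
  · rw [hpe]
    calc _ = (m' * h)⁻¹ * (h * F.ι (eK k) * h⁻¹) * (m' * h) := by group
      _ = (m' * h)⁻¹ * (m' * h * s * (m' * h)⁻¹) * (m' * h) := by rw [h1, e_ms]
      _ = _ := by group

/-- The centralizer of the four group. -/
theorem inT_iff {k a : Nat} (hk : k < 3) (ha : a < 192) :
    inT k a = true ↔ F.ι a * F.ι (eK k) = F.ι (eK k) * F.ι a :=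
  F.commB_iff ha (k_facts hk).1

/-- The element of order three cycling the four group. -/
theorem exists_cycle [Finite G] {k : Nat} (hk : k < 3) (hc : IsConj s (F.ι (eK k))) :
    ∃ y : G, y ^ 3 = 1 ∧ y * s * y⁻¹ = F.ι (eK k) ∧ y * F.ι (eK k) * y⁻¹ = F.ι (esK k) := by
  obtain ⟨u, us, ue⟩ := F.exists_swap hk hc
  obtain ⟨he, -, -, -, hhh, hh2, hhe, -⟩ := k_facts hk
  set τ := F.ι (hhK k) with hτ
  set y0 := u * τ with hy0
  have b1 : y0 * s * y0⁻¹ = F.ι (eK k) := by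
    calc _ = u * (τ * s * τ⁻¹) * u⁻¹ := by rw [hy0]; group
      _ = u * s * u⁻¹ := by rw [hτ, F.comm_s hhh]; group
      _ = _ := us
  have hse : s * F.ι (eK k) = F.ι (eK k) * s := (F.comm_s he).symm
  have b2 : y0 * F.ι (eK k) * y0⁻¹ = F.ι (esK k) := by
    calc _ = u * (τ * F.ι (eK k) * τ⁻¹) * u⁻¹ := by rw [hy0]; group
      _ = u * (F.ι (eK k) * s) * u⁻¹ := by rw [hτ, ← F.map_conj hhh he, hhe, F.map_es hk]
      _ = _ := by rw [← conj_mul, ue, us, hse, F.map_es hk]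
  have b3 : y0 * F.ι (esK k) * y0⁻¹ = s := by
    rw [F.map_es hk, ← conj_mul, b2, b1, F.map_es hk, mul_assoc, hse, ← mul_assoc,
      F.sq_one he (by rw [(k_facts hk).2.1]; omega), one_mul]
  have c1 : y0 ^ 3 * s * (y0 ^ 3)⁻¹ = s := by
    calc _ = y0 * (y0 * (y0 * s * y0⁻¹) * y0⁻¹) * y0⁻¹ := by rw [pow_succ, pow_two]; group
      _ = s := by rw [b1, b2, b3]
  have c2 : y0 ^ 3 * F.ι (eK k) * (y0 ^ 3)⁻¹ = F.ι (eK k) := by
    calc _ = y0 * (y0 * (y0 * F.ι (eK k) * y0⁻¹) * y0⁻¹) * y0⁻¹ := by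
          rw [pow_succ, pow_two]; group
      _ = _ := by rw [b2, b3, b1]
  obtain ⟨x, hx, hxe⟩ := F.surj _ (mul_inv_eq_iff_eq_mul.mp c1)
  have hxT : inT k x = true := by
    rw [F.inT_iff hk hx, hxe]; exact mul_inv_eq_iff_eq_mul.mp c2
  have h12 : (y0 ^ 3) ^ 4 = 1 := by
    rw [← hxe, show (4 : ℕ) = 2 * 2 by norm_num, pow_mul, pow_two, pow_two, ← F.map_mul x x hx hx,
      ← F.map_mul _ _ (mul_lt hx hx) (mul_lt hx hx), ((T_facts hk).2.2.2.2.2 x hx hxT).2.1,
      F.map_zero]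
  refine ⟨y0 ^ 4, ?_, ?_, ?_⟩
  · rw [← pow_mul]; rw [← pow_mul] at h12; exact h12
  · calc _ = y0 * (y0 ^ 3 * s * (y0 ^ 3)⁻¹) * y0⁻¹ := by rw [pow_succ' y0 3]; group
      _ = _ := by rw [c1, b1]
  · calc _ = y0 * (y0 ^ 3 * F.ι (eK k) * (y0 ^ 3)⁻¹) * y0⁻¹ := by rw [pow_succ' y0 3]; group
      _ = _ := by rw [c2, b2]

/-- The element of order three acts as one of the listed cases. -/
theorem exists_amalgam {k : Nat} (hk : k < 3) {y : G} (h3 : y ^ 3 = 1)
    (hs : y * s * y⁻¹ = F.ι (eK k)) (he : y * F.ι (eK k) * y⁻¹ = F.ι (esK k)) :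
    ∃ i, Amalgam F k i y := by
  obtain ⟨helt, hecls, -, heslt, hhh, hh2, hhe, hhes⟩ := k_facts hk
  obtain ⟨hXT, hYT, hZT, hsT, heT, hTall⟩ := T_facts hk
  obtain ⟨hXlt, hYlt, hZlt⟩ := gens_lt hk
  have hy3 : y * y * y = 1 := by rw [← h3, pow_succ, pow_two]
  have hes : y * F.ι (esK k) * y⁻¹ = s := by
    calc y * F.ι (esK k) * y⁻¹ = (y * y * y) * s * (y * y * y)⁻¹ := by rw [← he, ← hs]; group
      _ = s := by rw [hy3]; group
  have hN : ∀ a, a < 192 → inT k a = true →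
      ∃ b, b < 192 ∧ inT k b = true ∧ F.ι b = y * F.ι a * y⁻¹ := by
    intro a ha haT
    have c1 := F.comm_s ha
    have c2 := (F.inT_iff hk ha).mp haT
    have c3 : F.ι a * F.ι (esK k) = F.ι (esK k) * F.ι a := by
      rw [F.map_es hk, ← mul_assoc, c2, mul_assoc, c1, mul_assoc]
    have d1 := comm_conj y c3
    rw [hes] at d1
    obtain ⟨b, hb, hbe⟩ := F.surj _ d1
    have d2 := comm_conj y c1
    rw [hs, ← hbe] at d2
    exact ⟨b, hb, (F.inT_iff hk hb).mpr d2, hbe⟩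
  choose f hf hfT hfe using hN
  let φ : Nat → Nat := fun a => if h : a < 192 ∧ inT k a = true then f a h.1 h.2 else 0
  have φlt : ∀ a, a < 192 → inT k a = true → φ a < 192 ∧ inT k (φ a) = true ∧
      F.ι (φ a) = y * F.ι a * y⁻¹ := by
    intro a ha hT
    simp only [φ, dif_pos (And.intro ha hT)]
    exact ⟨hf a ha hT, hfT a ha hT, hfe a ha hT⟩
  have Tmul : ∀ u v, u < 192 → inT k u = true → v < 192 → inT k v = true →
      inT k (mul u v) = true := fun u v hu huT hv hvT => (hTall u hu huT).2.2.2.2.2 v hv hvT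
  have φmul : ∀ u v, u < 192 → inT k u = true → v < 192 → inT k v = true →
      φ (mul u v) = mul (φ u) (φ v) := by
    intro u v hu huT hv hvT
    obtain ⟨a1, a2, a3⟩ := φlt _ (mul_lt hu hv) (Tmul u v hu huT hv hvT)
    obtain ⟨b1, -, b3⟩ := φlt u hu huT
    obtain ⟨c1, -, c3⟩ := φlt v hv hvT
    refine F.inj _ _ a1 (mul_lt b1 c1) ?_
    rw [a3, F.map_mul _ _ b1 c1, b3, c3, F.map_mul u v hu hv, conj_mul]
  have h0T : inT k 0 = true := by
    rw [F.inT_iff hk (by norm_num), F.map_zero, one_mul, mul_one]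
  have φ0 : φ 0 = 0 := by
    obtain ⟨a1, -, a3⟩ := φlt 0 (by norm_num) h0T
    exact F.inj _ _ a1 (by norm_num) (by rw [a3, F.map_zero]; group)
  have hext : ∀ x, x < 192 → inT k x = true →
      extT k (φ (gXK k)) (φ (gYK k)) (φ (gZK k)) x = φ x := by
    intro x hx hxT
    have key : ∀ (w : List Nat) (acc : Nat), acc < 192 → inT k acc = true →
        (List.rec (motive := fun _ => Nat → Nat) (fun acc => acc)
          (fun l _ ih acc => ih (mul acc (Bool.rec (Bool.rec (φ (gZK k)) (φ (gYK k)) (Nat.beq l 1))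
            (φ (gXK k)) (Nat.beq l 0)))) w (φ acc)) =
        φ (List.rec (motive := fun _ => Nat → Nat) (fun acc => acc)
          (fun l _ ih acc => ih (mul acc (Bool.rec (Bool.rec (gZK k) (gYK k) (Nat.beq l 1))
            (gXK k) (Nat.beq l 0)))) w acc) := by
      intro w
      induction w with
      | nil => intro acc _ _; rfl
      | cons l w ih =>
        intro acc hacc haccT
        have step : ∀ g, g < 192 → inT k g = true →
            mul (φ acc) (φ g) = φ (mul acc g) ∧ mul acc g < 192 ∧ inT k (mul acc g) = true :=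
          fun g hg hgT => ⟨(φmul acc g hacc haccT hg hgT).symm, mul_lt hacc hg,
            Tmul acc g hacc haccT hg hgT⟩
        cases h0' : Nat.beq l 0 with
        | true =>
          obtain ⟨e1, e2, e3⟩ := step (gXK k) hXlt hXT
          simp only [h0', e1]
          exact ih _ e2 e3
        | false =>
          cases h1 : Nat.beq l 1 with
          | true =>
            obtain ⟨e1, e2, e3⟩ := step (gYK k) hYlt hYT
            simp only [h0', h1, e1]
            exact ih _ e2 e3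
          | false =>
            obtain ⟨e1, e2, e3⟩ := step (gZK k) hZlt hZT
            simp only [h0', h1, e1]
            exact ih _ e2 e3
    have := key ((tWords k).get x) 0 (by norm_num) h0T
    rw [φ0] at this
    exact this.trans (congrArg φ (hTall x hx hxT).1)
  have o4 : ∀ g, g < 192 → inT k g = true → ord4 g = true → ord4 (φ g) = true := by
    intro g hg hgT h
    simp only [ord4, Bool.and_eq_true, Bool.not_eq_true'] at h ⊢
    have hgg := Tmul g g hg hgT hg hgT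
    refine ⟨beq_false fun e => ?_, beq_true ?_⟩
    · rw [← φmul g g hg hgT hg hgT, ← φ0] at e
      obtain ⟨a1, -, a3⟩ := φlt _ (mul_lt hg hg) hgg
      obtain ⟨b1, -, b3⟩ := φlt 0 (by norm_num) h0T
      have := congrArg F.ι e
      rw [a3, b3] at this
      have := F.inj _ _ (mul_lt hg hg) (by norm_num) (mul_left_cancel (mul_right_cancel this))
      simp [this] at h
    · rw [← φmul g g hg hgT hg hgT, ← φmul _ _ (mul_lt hg hg) hgg (mul_lt hg hg) hgg,
        Nat.eq_of_beq_eq_true h.2, φ0]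
  have φ3 : ∀ x, x < 192 → inT k x = true → φ (φ (φ x)) = x := by
    intro x hx hT
    obtain ⟨a1, a2, a3⟩ := φlt x hx hT
    obtain ⟨b1, b2, b3⟩ := φlt _ a1 a2
    obtain ⟨c1, -, c3⟩ := φlt _ b1 b2
    refine F.inj _ _ c1 hx ?_
    rw [c3, b3, a3]
    calc _ = (y * y * y) * F.ι x * (y * y * y)⁻¹ := by group
      _ = F.ι x := by rw [hy3]; group
  have hφs : φ sI = eK k := by
    obtain ⟨a1, -, a3⟩ := φlt sI sI_lt hsT
    exact F.inj _ _ a1 helt (by rw [a3, F.map_s, hs])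
  have hφe : φ (eK k) = esK k := by
    obtain ⟨a1, -, a3⟩ := φlt (eK k) helt heT
    exact F.inj _ _ a1 heslt (by rw [a3, he])
  have hphi : phiCond k (φ (gXK k)) (φ (gYK k)) (φ (gZK k)) = true := by
    simp only [phiCond, Bool.and_eq_true]
    refine ⟨⟨⟨beq_true (by rw [hext _ sI_lt hsT, hφs]),
      beq_true (by rw [hext _ helt heT, hφe])⟩, allT_intro fun x hx hT => ?_⟩,
      allT_intro fun x hx hT => ?_⟩
    · simp only [Bool.and_eq_true]
      refine ⟨⟨beq_true ?_, beq_true ?_⟩, beq_true ?_⟩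
      · rw [hext _ (mul_lt hx hXlt) (Tmul _ _ hx hT hXlt hXT), hext x hx hT,
          φmul _ _ hx hT hXlt hXT]
      · rw [hext _ (mul_lt hx hYlt) (Tmul _ _ hx hT hYlt hYT), hext x hx hT,
          φmul _ _ hx hT hYlt hYT]
      · rw [hext _ (mul_lt hx hZlt) (Tmul _ _ hx hT hZlt hZT), hext x hx hT,
          φmul _ _ hx hT hZlt hZT]
    · obtain ⟨a1, a2, -⟩ := φlt x hx hT
      obtain ⟨b1, b2, -⟩ := φlt _ a1 a2
      exact beq_true (by rw [hext x hx hT, hext _ a1 a2, hext _ b1 b2, φ3 x hx hT])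
  set τ := F.ι (hhK k) with hτ
  have hττ : τ * τ = 1 := by rw [hτ, ← F.map_mul _ _ hhh hhh, hh2, F.map_zero]
  have τs : τ * s * τ⁻¹ = s := by rw [hτ, F.comm_s hhh]; group
  have τe : τ * F.ι (eK k) * τ⁻¹ = F.ι (esK k) := by rw [hτ, ← F.map_conj hhh helt, hhe]
  have τes : τ * F.ι (esK k) * τ⁻¹ = F.ι (eK k) := by rw [hτ, ← F.map_conj hhh heslt, hhes]
  have w1 : y * τ * y * τ * s * (y * τ * y * τ)⁻¹ = s := by
    calc _ = y * (τ * (y * (τ * s * τ⁻¹) * y⁻¹) * τ⁻¹) * y⁻¹ := by group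
      _ = s := by rw [τs, hs, τe, hes]
  have w2 : y * τ * y * τ * F.ι (eK k) * (y * τ * y * τ)⁻¹ = F.ι (eK k) := by
    calc _ = y * (τ * (y * (τ * F.ι (eK k) * τ⁻¹) * y⁻¹) * τ⁻¹) * y⁻¹ := by group
      _ = F.ι (eK k) := by rw [τe, hes, τs, hs]
  obtain ⟨t, ht, hte⟩ := F.surj _ (mul_inv_eq_iff_eq_mul.mp w1)
  have htT : inT k t = true := by
    rw [F.inT_iff hk ht, hte]; exact mul_inv_eq_iff_eq_mul.mp w2
  have τinv : τ⁻¹ = τ := inv_eq_of_mul_eq_one_left hττ
  have cT : ∀ x, x < 192 → inT k x = true → inT k (conj (hhK k) x) = true :=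
    fun x hx hT => (hTall x hx hT).2.2.1
  have hyinv : y⁻¹ = y * y := inv_eq_of_mul_eq_one_left hy3
  have htc : tCond k (φ (gXK k)) (φ (gYK k)) (φ (gZK k)) t = true := by
    simp only [tCond, Bool.and_eq_true]
    refine ⟨⟨beq_true ?_, beq_true ?_⟩, allT_intro fun x hx hT => beq_true ?_⟩
    · rw [hext _ (conj_lt hhh ht) (cT t ht htT)]
      obtain ⟨a1, -, a3⟩ := φlt _ (conj_lt hhh ht) (cT t ht htT)
      refine F.inj _ _ a1 ht ?_
      rw [a3, F.map_conj hhh ht, ← hτ, hte, τinv]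
      calc _ = y * τ * y * τ * y * (τ * τ) * y⁻¹ := by group
        _ = _ := by rw [hττ]; group
    · obtain ⟨a1, a2, a3⟩ := φlt t ht htT
      obtain ⟨b1, -, b3⟩ := φlt _ a1 a2
      rw [hext t ht htT, hext _ a1 a2]
      refine F.inj _ _ (mul_lt (mul_lt ht b1) a1) (by norm_num) ?_
      rw [F.map_mul _ _ (mul_lt ht b1) a1, F.map_mul _ _ ht b1, b3, a3, hte, F.map_zero]
      have r1 : ∀ z, y * (y * (y * z)) = z := fun z => by
        rw [← mul_assoc, ← mul_assoc, hy3, one_mul]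
      have r2 : ∀ z, τ * (τ * z) = z := fun z => by rw [← mul_assoc, hττ, one_mul]
      simp only [hyinv, mul_assoc, r1, r2]
      rw [← mul_assoc, hy3]
    · obtain ⟨a1, a2, a3⟩ := φlt _ (conj_lt hhh hx) (cT x hx hT)
      obtain ⟨b1, -, b3⟩ := φlt _ (conj_lt hhh a1) (cT _ a1 a2)
      rw [hext _ (conj_lt hhh hx) (cT x hx hT), hext _ (conj_lt hhh a1) (cT _ a1 a2)]
      refine F.inj _ _ b1 (conj_lt ht hx) ?_
      rw [b3, F.map_conj hhh a1, a3, F.map_conj hhh hx, F.map_conj ht hx, hte, ← hτ]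
      group
  obtain ⟨hX, hY, hZ⟩ := And.intro (φlt _ hXlt hXT) (And.intro (φlt _ hYlt hYT) (φlt _ hZlt hZT))
  have g4 := allFrom_spec gens_chk k (Nat.zero_le k) (by omega)
  simp only [Bool.and_eq_true] at g4
  have hE := imp_spec (allT_spec (allFrom_spec enum_chk k (Nat.zero_le k) (by omega)) hX.1 hX.2.1)
    (o4 _ hXlt hXT g4.1.1)
  have hE2 := imp_spec (allT_spec hE hY.1 hY.2.1) (o4 _ hYlt hYT g4.1.2)
  have hE3 := allT_spec (imp_spec (imp_spec (allT_spec hE2 hZ.1 hZ.2.1) (o4 _ hZlt hZT g4.2)) hphi)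
    ht htT
  obtain ⟨i, hi, him⟩ := anyB_spec (imp_spec hE3 htc)
  simp only [caseMatch, Bool.and_eq_true] at him
  obtain ⟨⟨⟨m1, m2⟩, m3⟩, m4⟩ := him
  refine ⟨i, hk, hi, h3, hs, he, fun a ha hT => ?_, ?_⟩
  · have hc := allT_spec (allFrom_spec (allFrom_spec caseTab_chk k (Nat.zero_le k) (by omega)) i
      (Nat.zero_le i) (by omega)) ha hT
    simp only [Bool.and_eq_true] at hc
    rw [← Nat.eq_of_beq_eq_true hc.1.1.1.1.1, Nat.eq_of_beq_eq_true m1, Nat.eq_of_beq_eq_true m2,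
      Nat.eq_of_beq_eq_true m3, hext a ha hT, (φlt a ha hT).2.2]
  · rw [← hτ, Nat.eq_of_beq_eq_true m4, hte]

end Frame

end Cfsg.Agent.H80.Alt
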