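import Cfsg.Agent.H80.Alt.Checks

/-! The possible automorphisms of the four group centralizers, and their relations. -/

set_option autoImplicit false

namespace Cfsg.Agent.H80.Alt

open Cfsg.Agent.H16

/-- the conditions on the images of the generators -/
noncomputable def phiCond (k a b c : Nat) : Bool :=
  Nat.beq (extT k a b c sI) (eK k) && Nat.beq (extT k a b c (eK k)) (esK k) &&
  allT k (fun x => Nat.beq (extT k a b c (mul x (gXK k))) (mul (extT k a b c x) a) &&
    Nat.beq (extT k a b c (mul x (gYK k))) (mul (extT k a b c x) b) &&
    Nat.beq (extT k a b c (mul x (gZK k))) (mul (extT k a b c x) c)) &&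
  allT k (fun x => Nat.beq (extT k a b c (extT k a b c (extT k a b c x))) x)

/-- the conditions on the square of the product with the exchanging involution -/
noncomputable def tCond (k a b c t : Nat) : Bool :=
  Nat.beq (extT k a b c (conj (hhK k) t)) t &&
  Nat.beq (mul (mul t (extT k a b c (extT k a b c t))) (extT k a b c t)) 0 &&
  allT k (fun x =>
    Nat.beq (extT k a b c (conj (hhK k) (extT k a b c (conj (hhK k) x)))) (conj t x))

/-- the case matches the images -/
noncomputable def caseMatch (k a b c t i : Nat) : Bool :=
  Nat.beq (phi k i (gXK k)) a && Nat.beq (phi k i (gYK k)) b &&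
  Nat.beq (phi k i (gZK k)) c && Nat.beq (tK k i) t

/-- fourth power is trivial and square is not -/
noncomputable def ord4 (a : Nat) : Bool :=
  !Nat.beq (mul a a) 0 && Nat.beq (mul (mul a a) (mul a a)) 0

theorem enum_chk : allFrom (fun k => allT k (fun a => imp (ord4 a) (allT k fun b => imp (ord4 b)
    (allT k fun c => imp (ord4 c) (imp (phiCond k a b c) (allT k fun t => imp (tCond k a b c t)
      (anyB 16 fun i => caseMatch k a b c t i))))))) 3 0 = true := by
  decide +kernel

theorem gens_chk : allFrom (fun k => ord4 (gXK k) && ord4 (gYK k) && ord4 (gZK k)) 3 0 = true := by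
  decide +kernel

theorem caseTab_chk : allFrom (fun k => allFrom (fun i => allT k fun x =>
    Nat.beq (extT k (phi k i (gXK k)) (phi k i (gYK k)) (phi k i (gZK k)) x) (phi k i x) &&
      inT k (phi k i x) && Nat.ble (Nat.succ (phi k i x)) 192 && inT k (tK k i) &&
      Nat.ble (Nat.succ (tK k i)) 192 && imp (inE k x) (inE k (phi k i x))) 16 0) 3 0 = true := by
  decide +kernel

/-- the involutions outside the core fuse into the other classes -/
theorem fuse_chk : allFrom (fun k => allFrom (fun i => allFrom (fun c => anyL fun x =>
    inT k x && Nat.beq (cls x) c &&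
      (Nat.ble 2 (cls (phi k i x)) && Nat.ble (cls (phi k i x)) 4 &&
        !Nat.beq (cls (phi k i x)) (k + 2))) 2 5) 16 0) 3 0 = true := by
  decide +kernel

end Cfsg.Agent.H80.Alt
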