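import Cfsg.Agent.H80.Alt.Certs

/-! Kernel checks of the certificates. -/

set_option autoImplicit false

namespace Cfsg.Agent.H80.Alt

open Cfsg.Agent.H16 Cfsg.Agent.H68.J1

theorem cert0_f0 : allFrom cert0.checkFact 532 0 = true := by decide +kernel

theorem cert0_rows : allFrom cert0.checkRow 1 0 = true := by decide +kernel

theorem cert0_valid : cert0.Valid :=
  ⟨fun i hi => (allFrom_extend allFrom_nil cert0_f0) i (hi.trans_eq (by rfl)),
    fun i hi => allFrom_spec cert0_rows i (Nat.zero_le i) (lt_of_lt_of_eq hi (by rfl)), by decide +kernel⟩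

theorem cert1_f0 : allFrom cert1.checkFact 404 0 = true := by decide +kernel

theorem cert1_rows : allFrom cert1.checkRow 1 0 = true := by decide +kernel

theorem cert1_valid : cert1.Valid :=
  ⟨fun i hi => (allFrom_extend allFrom_nil cert1_f0) i (hi.trans_eq (by rfl)),
    fun i hi => allFrom_spec cert1_rows i (Nat.zero_le i) (lt_of_lt_of_eq hi (by rfl)), by decide +kernel⟩

theorem cert2_f0 : allFrom cert2.checkFact 1087 0 = true := by decide +kernel

theorem cert2_rows : allFrom cert2.checkRow 105 0 = true := by decide +kernel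

theorem cert2_valid : cert2.Valid :=
  ⟨fun i hi => (allFrom_extend allFrom_nil cert2_f0) i (hi.trans_eq (by rfl)),
    fun i hi => allFrom_spec cert2_rows i (Nat.zero_le i) (lt_of_lt_of_eq hi (by rfl)), by decide +kernel⟩

theorem cert3_f0 : allFrom cert3.checkFact 239 0 = true := by decide +kernel

theorem cert3_rows : allFrom cert3.checkRow 1 0 = true := by decide +kernel

theorem cert3_valid : cert3.Valid :=
  ⟨fun i hi => (allFrom_extend allFrom_nil cert3_f0) i (hi.trans_eq (by rfl)),
    fun i hi => allFrom_spec cert3_rows i (Nat.zero_le i) (lt_of_lt_of_eq hi (by rfl)), by decide +kernel⟩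

theorem cert4_f0 : allFrom cert4.checkFact 400 0 = true := by decide +kernel

theorem cert4_rows : allFrom cert4.checkRow 1 0 = true := by decide +kernel

theorem cert4_valid : cert4.Valid :=
  ⟨fun i hi => (allFrom_extend allFrom_nil cert4_f0) i (hi.trans_eq (by rfl)),
    fun i hi => allFrom_spec cert4_rows i (Nat.zero_le i) (lt_of_lt_of_eq hi (by rfl)), by decide +kernel⟩

theorem cert5_f0 : allFrom cert5.checkFact 414 0 = true := by decide +kernel

theorem cert5_rows : allFrom cert5.checkRow 1 0 = true := by decide +kernel

theorem cert5_valid : cert5.Valid :=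
  ⟨fun i hi => (allFrom_extend allFrom_nil cert5_f0) i (hi.trans_eq (by rfl)),
    fun i hi => allFrom_spec cert5_rows i (Nat.zero_le i) (lt_of_lt_of_eq hi (by rfl)), by decide +kernel⟩

theorem cert6_f0 : allFrom cert6.checkFact 391 0 = true := by decide +kernel

theorem cert6_rows : allFrom cert6.checkRow 1 0 = true := by decide +kernel

theorem cert6_valid : cert6.Valid :=
  ⟨fun i hi => (allFrom_extend allFrom_nil cert6_f0) i (hi.trans_eq (by rfl)),
    fun i hi => allFrom_spec cert6_rows i (Nat.zero_le i) (lt_of_lt_of_eq hi (by rfl)), by decide +kernel⟩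

theorem cert7_f0 : allFrom cert7.checkFact 383 0 = true := by decide +kernel

theorem cert7_rows : allFrom cert7.checkRow 1 0 = true := by decide +kernel

theorem cert7_valid : cert7.Valid :=
  ⟨fun i hi => (allFrom_extend allFrom_nil cert7_f0) i (hi.trans_eq (by rfl)),
    fun i hi => allFrom_spec cert7_rows i (Nat.zero_le i) (lt_of_lt_of_eq hi (by rfl)), by decide +kernel⟩

theorem cert8_f0 : allFrom cert8.checkFact 481 0 = true := by decide +kernel

theorem cert8_rows : allFrom cert8.checkRow 1 0 = true := by decide +kernel

theorem cert8_valid : cert8.Valid :=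
  ⟨fun i hi => (allFrom_extend allFrom_nil cert8_f0) i (hi.trans_eq (by rfl)),
    fun i hi => allFrom_spec cert8_rows i (Nat.zero_le i) (lt_of_lt_of_eq hi (by rfl)), by decide +kernel⟩

theorem cert9_f0 : allFrom cert9.checkFact 412 0 = true := by decide +kernel

theorem cert9_rows : allFrom cert9.checkRow 1 0 = true := by decide +kernel

theorem cert9_valid : cert9.Valid :=
  ⟨fun i hi => (allFrom_extend allFrom_nil cert9_f0) i (hi.trans_eq (by rfl)),
    fun i hi => allFrom_spec cert9_rows i (Nat.zero_le i) (lt_of_lt_of_eq hi (by rfl)), by decide +kernel⟩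

theorem cert10_f0 : allFrom cert10.checkFact 452 0 = true := by decide +kernel

theorem cert10_rows : allFrom cert10.checkRow 1 0 = true := by decide +kernel

theorem cert10_valid : cert10.Valid :=
  ⟨fun i hi => (allFrom_extend allFrom_nil cert10_f0) i (hi.trans_eq (by rfl)),
    fun i hi => allFrom_spec cert10_rows i (Nat.zero_le i) (lt_of_lt_of_eq hi (by rfl)), by decide +kernel⟩

theorem certL_f0 : allFrom certL.checkFact 2000 0 = true := by decide +kernel

theorem certL_f1 : allFrom certL.checkFact 805 2000 = true := by decide +kernel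

theorem certL_rows : allFrom certL.checkRow 192 0 = true := by decide +kernel

theorem certL_valid : certL.Valid :=
  ⟨fun i hi => (allFrom_extend (allFrom_extend allFrom_nil certL_f0) certL_f1) i (hi.trans_eq (by rfl)),
    fun i hi => allFrom_spec certL_rows i (Nat.zero_le i) (lt_of_lt_of_eq hi (by rfl)), by decide +kernel⟩

end Cfsg.Agent.H80.Alt
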