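import Cfsg.Agent.H80.Alt.Defs

/-! Kernel checks on the table group. -/

set_option autoImplicit false

namespace Cfsg.Agent.H80.Alt

open Cfsg.Agent.H16

/-- `p` holds on all elements -/
noncomputable def allL (p : Nat → Bool) : Bool := allFrom p 192 0

/-- `p` holds on all elements of a four group centralizer -/
noncomputable def allT (k : Nat) (p : Nat → Bool) : Bool :=
  allFrom (fun i => Bool.rec true (p i) (inT k i)) 192 0

/-- `p` holds somewhere -/
noncomputable def anyL (p : Nat → Bool) : Bool := !allL fun i => !p i

/-- `p` holds for some number below `n` -/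
noncomputable def anyB (n : Nat) (p : Nat → Bool) : Bool := !allFrom (fun i => !p i) n 0

/-- boolean implication -/
def imp (a b : Bool) : Bool := !a || b

/-- class representative -/
noncomputable def repC (c : Nat) : Nat :=
  [0, sI, eK 0, eK 1, eK 2, pI, rI].getD c 0

theorem group_chk : (allL (fun a => Nat.ble (Nat.succ (inv a)) 192 && Nat.beq (mul a (inv a)) 0 &&
      Nat.beq (mul 0 a) a && Nat.beq (mul a 0) a) &&
    allL (fun a => allL fun b => Nat.ble (Nat.succ (mul a b)) 192)) = true := by
  decide +kernel

theorem letter_assoc_chk : allFrom (fun l => allL fun a => allL fun b =>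
    Nat.beq (mul (letVal l) (mul a b)) (mul (mul (letVal l) a) b)) 4 0 = true := by
  decide +kernel

theorem wordL_chk : allL (fun a => Nat.beq (evL (lWords.get a)) a &&
    List.rec (motive := fun _ => Bool) true (fun l _ ih => Nat.ble (Nat.succ l) 4 && ih)
      (lWords.get a)) = true := by
  decide +kernel

theorem central_chk : allL (fun a => commB a sI) = true := by decide +kernel

theorem cls_chk : allL (fun a => Nat.ble (cls a) 6 && Bool.rec
    (!(Nat.beq (mul a a) 0) || Nat.beq a 0)
    (Nat.beq (mul a a) 0 && !Nat.beq a 0 &&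
      anyL (fun h => Nat.beq (conj h (repC (cls a))) a) &&
      (Nat.beq a sI || !Nat.beq (cls a) 1))
    (!Nat.beq (cls a) 0)) = true := by
  decide +kernel

theorem rep_chk : allFrom (fun c => Nat.ble (Nat.succ (repC c)) 192 && Nat.beq (cls (repC c)) c &&
    allL (fun h => Nat.beq (cls (conj h (repC c))) c)) 7 0 = true := by
  decide +kernel

theorem cent_size : allL (fun x =>
    imp (Nat.beq (cls x) 2 || Nat.beq (cls x) 3 || Nat.beq (cls x) 4)
      (Nat.beq (countFrom (fun a => commB a x) 192 0) 32) &&
    imp (Nat.beq (cls x) 5 || Nat.beq (cls x) 6)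
      (Nat.beq (countFrom (fun a => commB a x) 192 0) 16)) = true := by
  decide +kernel

/-- the products with the centre stay in the class -/
theorem times_s_chk : allL (fun a => imp (Nat.beq (cls a) 2 || Nat.beq (cls a) 3 || Nat.beq (cls a) 4)
    (Nat.beq (cls (mul a sI)) (cls a) && commB a (mul a sI))) = true := by
  decide +kernel

theorem k_chk : allFrom (fun k => Nat.beq (cls (eK k)) (k + 2) && Nat.beq (mul (eK k) sI) (esK k) &&
    Nat.beq (mul (hhK k) (hhK k)) 0 && Nat.beq (conj (hhK k) (eK k)) (esK k) &&
    Nat.beq (conj (hhK k) (esK k)) (eK k) && inT k (gXK k) && inT k (gYK k) && inT k (gZK k) &&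
    inT k sI && inT k (eK k) && Nat.ble (Nat.succ (hhK k)) 192 && !inT k (hhK k) &&
    allT k (fun x => Nat.beq (extT k (gXK k) (gYK k) (gZK k) x) x &&
      Nat.beq (mul (mul x x) (mul x x)) 0 && inT k (conj (hhK k) x) &&
      allT k (fun z => inT k (mul x z)) && inT k (inv x) &&
      Nat.beq (conj x (esK k)) (esK k))) 3 0 = true := by
  decide +kernel

theorem E_chk : allFrom (fun k => allL (fun x => imp (inE k x)
      (Nat.beq (mul x x) 0 && inT k x && allL (fun h => inE k (conj h x)) &&
        allL (fun z => imp (inE k z) (inE k (mul x z) && commB x z)))) &&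
    Nat.beq (countFrom (inE k) 192 0) 8 &&
    allL (fun a => imp (allL fun x => imp (inE k x) (commB a x)) (inE k a)) &&
    allL (fun a => imp (Nat.beq (cls a) 5 || Nat.beq (cls a) 6 ||
        (Nat.ble 2 (cls a) && Nat.ble (cls a) 4 && !Nat.beq (cls a) (k + 2)))
      (allL fun b => imp (commB b a) (Nat.beq (mul (mul b b) (mul b b)) 0 ||
        !Nat.beq (mul b (mul b b)) 0)))) 3 0 = true := by
  decide +kernel

/-- every involution outside is centralized by a two-group -/
theorem cent_two_chk : allL (fun a => imp (Nat.ble 2 (cls a)) (allL fun b => imp (commB b a)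
    (Nat.beq (mul (mul (mul b b) (mul b b)) (mul (mul b b) (mul b b))) 0))) = true := by
  decide +kernel

end Cfsg.Agent.H80.Alt
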