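import Cfsg.Agent.H19.Cores
import Mathlib

/-! Elements of a normal two-subgroup of an involution centralizer. -/

set_option autoImplicit false

namespace Cfsg.Agent.H80.Alt

/-- In a group of order a power of two an element with trivial cube is trivial. -/
theorem eq_one_of_cube {G : Type*} [Group G] {Q : Subgroup G} (hQ : Nat.card Q = 32) {x : G}
    (hx : x ∈ Q) (h3 : x * x * x = 1) : x = 1 := by
  have h32 : x ^ 32 = 1 := by
    have h : (⟨x, hx⟩ : Q) ^ Nat.card Q = 1 := pow_card_eq_one'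
    rw [hQ] at h
    exact congrArg Subtype.val h
  rw [← pow_two, ← pow_succ] at h3
  calc x = x ^ 33 := by rw [pow_succ, h32, one_mul]
    _ = 1 := by rw [show 33 = 3 * 11 by norm_num, pow_mul, h3, one_pow]

/-- The core of a subgroup is normalised by it. -/
theorem conj_mem_core {G : Type*} [Group G] {L Q : Subgroup G}
    (hQ : Q = (Cfsg.pCore 2 L).map L.subtype) {x q : G} (hx : x ∈ L) (hq : q ∈ Q) :
    x * q * x⁻¹ ∈ Q := by
  rw [hQ] at hq ⊢
  obtain ⟨q', hq', rfl⟩ := hq
  exact ⟨⟨x, hx⟩ * q' * (⟨x, hx⟩ : L)⁻¹, (H19.pCore_normal 2 L).conj_mem q' hq' _, rfl⟩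

theorem core_le {G : Type*} [Group G] {L Q : Subgroup G}
    (hQ : Q = (Cfsg.pCore 2 L).map L.subtype) : Q ≤ L := by
  rw [hQ]
  exact Subgroup.map_subtype_le _

end Cfsg.Agent.H80.Alt
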