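import Cfsg.Agent.H80.Alt.Tables
import Mathlib

/-!
The table group of order 192 of a fixed point free involution of eight letters, and its four
group centralizers.
-/

set_option autoImplicit false

namespace Cfsg.Agent.H80.Alt

open Cfsg.Agent.H16

/-- product in the table group -/
noncomputable def mul (a b : Nat) : Nat := bitField (mulRows.get 2048 a) (8 * b) 8

/-- inverse in the table group -/
noncomputable def inv (a : Nat) : Nat := bitField invRow (8 * a) 8

/-- conjugate `h * x * h⁻¹` -/
noncomputable def conj (h x : Nat) : Nat := mul (mul h x) (inv h)

/-- class: 0 no involution, 1 centre, 2 to 4 inside the core, 5 and 6 outside -/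
noncomputable def cls (a : Nat) : Nat := bitField clsRow (4 * a) 4

/-- two elements commute -/
noncomputable def commB (a b : Nat) : Bool := Nat.beq (mul a b) (mul b a)

/-- value of a letter -/
noncomputable def letVal (l : Nat) : Nat :=
  Bool.rec (Bool.rec (Bool.rec (inv gB) gB (Nat.beq l 2)) (inv gA) (Nat.beq l 1)) gA (Nat.beq l 0)

/-- value of a word in the two generators and their inverses -/
noncomputable def evL (w : List Nat) : Nat :=
  List.rec (motive := fun _ => Nat) 0 (fun l _ ih => mul (letVal l) ih) w

/-- representative involution of the class `k + 2` -/
noncomputable def eK (k : Nat) : Nat := eList.getD k 0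

/-- its product with the centre -/
noncomputable def esK (k : Nat) : Nat := esList.getD k 0

/-- an involution exchanging the two -/
noncomputable def hhK (k : Nat) : Nat := hhList.getD k 0

/-- generators of the centralizer of the four group -/
noncomputable def gXK (k : Nat) : Nat := (genList.getD k (0, 0, 0)).1

/-- generators of the centralizer of the four group -/
noncomputable def gYK (k : Nat) : Nat := (genList.getD k (0, 0, 0)).2.1

/-- generators of the centralizer of the four group -/
noncomputable def gZK (k : Nat) : Nat := (genList.getD k (0, 0, 0)).2.2

/-- membership in the centralizer of the four group -/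
noncomputable def inT (k a : Nat) : Bool := commB a (eK k)

/-- membership in the elementary subgroup of order eight -/
noncomputable def inE (k a : Nat) : Bool :=
  Nat.beq a 0 || Nat.beq (cls a) 1 || Nat.beq (cls a) (k + 2)

/-- membership in the elementary subgroup of order sixteen -/
noncomputable def inA (a : Nat) : Bool := Nat.beq (bitField inA16 a 1) 1

/-- words of the elements of the centralizer of the four group -/
def tWords : Nat → WTree
  | 0 => tWords0
  | 1 => tWords1
  | _ => tWords2

/-- image of an element of the four group centralizer under images of its generators -/
noncomputable def extT (k a b c x : Nat) : Nat :=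
  List.rec (motive := fun _ => Nat → Nat) (fun acc => acc)
    (fun l _ ih acc => ih (mul acc (Bool.rec (Bool.rec c b (Nat.beq l 1)) a (Nat.beq l 0))))
    ((tWords k).get x) 0

/-- a map given by a packed table -/
noncomputable def app (tab a : Nat) : Nat := bitField tab (8 * a) 8

/-- the automorphism of case `i` -/
noncomputable def phi (k i a : Nat) : Nat := app (caseTabs.getD (16 * k + i) (0, 0)).1 a

/-- the square of the product with the exchanging involution in case `i` -/
noncomputable def tK (k i : Nat) : Nat := (caseTabs.getD (16 * k + i) (0, 0)).2

/-- relabellings of the table group -/
noncomputable def alpha (j a : Nat) : Nat := app (alphaTabs.getD j 0) a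

/-- inverse relabellings -/
noncomputable def alphaInv (j a : Nat) : Nat := app (alphaInvTabs.getD j 0) a

end Cfsg.Agent.H80.Alt
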