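import Cfsg.Agent.H80.Alt.CaseChecks

/-! Identifications of an involution centralizer with the table group. -/

set_option autoImplicit false

namespace Cfsg.Agent.H80.Alt

open Cfsg.Agent.H16

theorem allL_spec {p : Nat → Bool} (h : allL p = true) {a : Nat} (ha : a < 192) : p a = true :=
  allFrom_spec h a (Nat.zero_le a) (by omega)

theorem allFrom_of_forall {p : Nat → Bool} : ∀ {n lo : Nat},
    (∀ i, lo ≤ i → i < lo + n → p i = true) → allFrom p n lo = true
  | 0, _, _ => rfl
  | n + 1, lo, h => by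
    rw [allFrom_succ, h lo le_rfl (by omega),
      allFrom_of_forall (lo := lo + 1) (fun i h1 h2 => h i (by omega) (by omega))]
    rfl

theorem allT_spec {k : Nat} {p : Nat → Bool} (h : allT k p = true) {a : Nat} (ha : a < 192)
    (hT : inT k a = true) : p a = true := by
  have := allFrom_spec h a (Nat.zero_le a) (by omega)
  simpa [hT] using this

theorem allT_intro {k : Nat} {p : Nat → Bool} (h : ∀ x, x < 192 → inT k x = true → p x = true) :
    allT k p = true := by
  refine allFrom_of_forall fun x _ hx => ?_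
  cases hT : inT k x with
  | true => exact h x (by omega) hT
  | false => rfl

theorem anyL_spec {p : Nat → Bool} (h : anyL p = true) : ∃ a, a < 192 ∧ p a = true := by
  by_contra hc
  push Not at hc
  have : allL (fun i => !p i) = true := allFrom_of_forall fun i _ hi => by
    have h1 := hc i (by omega)
    cases hp : p i <;> simp_all
  rw [anyL, this] at h
  simp at h

theorem anyB_spec {n : Nat} {p : Nat → Bool} (h : anyB n p = true) :
    ∃ a, a < n ∧ p a = true := by
  by_contra hc
  push Not at hc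
  have : allFrom (fun i => !p i) n 0 = true := allFrom_of_forall fun i _ hi => by
    have h1 := hc i (by omega)
    cases hp : p i <;> simp_all
  rw [anyB, this] at h
  simp at h

theorem imp_spec {a b : Bool} (h : imp a b = true) (ha : a = true) : b = true := by
  subst ha; simpa [imp] using h

theorem beq_false {m n : Nat} (h : m ≠ n) : Nat.beq m n = false := by
  cases hb : Nat.beq m n with
  | true => exact absurd (Nat.eq_of_beq_eq_true hb) h
  | false => rfl

theorem beq_true {m n : Nat} (h : m = n) : Nat.beq m n = true := by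
  subst h; exact Nat.beq_refl _

theorem mul_lt {a b : Nat} (ha : a < 192) (hb : b < 192) : mul a b < 192 := by
  have h := group_chk
  rw [Bool.and_eq_true] at h
  exact Nat.le_of_ble_eq_true (allL_spec (allL_spec h.2 ha) hb)

theorem inv_facts {a : Nat} (ha : a < 192) :
    inv a < 192 ∧ mul a (inv a) = 0 ∧ mul 0 a = a ∧ mul a 0 = a := by
  have h := group_chk
  rw [Bool.and_eq_true] at h
  have := allL_spec h.1 ha
  simp only [Bool.and_eq_true] at this
  exact ⟨Nat.le_of_ble_eq_true this.1.1.1, Nat.eq_of_beq_eq_true this.1.1.2,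
    Nat.eq_of_beq_eq_true this.1.2, Nat.eq_of_beq_eq_true this.2⟩

theorem inv_lt {a : Nat} (ha : a < 192) : inv a < 192 := (inv_facts ha).1

theorem conj_lt {a b : Nat} (ha : a < 192) (hb : b < 192) : conj a b < 192 :=
  mul_lt (mul_lt ha hb) (inv_lt ha)

theorem sI_lt : sI < 192 := by decide

/-- facts about the representative data -/
theorem k_facts {k : Nat} (hk : k < 3) :
    eK k < 192 ∧ cls (eK k) = k + 2 ∧ mul (eK k) sI = esK k ∧ esK k < 192 ∧ hhK k < 192 ∧
      mul (hhK k) (hhK k) = 0 ∧ conj (hhK k) (eK k) = esK k ∧ conj (hhK k) (esK k) = eK k := by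
  have h := allFrom_spec k_chk k (Nat.zero_le k) (by omega)
  simp only [Bool.and_eq_true] at h
  have hlt : eK k < 192 := by interval_cases k <;> decide +kernel
  have hes : esK k < 192 := by interval_cases k <;> decide +kernel
  obtain ⟨⟨⟨⟨⟨⟨⟨⟨⟨⟨⟨⟨h1, h2⟩, h3⟩, h4⟩, h5⟩, -⟩, -⟩, -⟩, -⟩, -⟩, hh⟩, -⟩, -⟩ := h
  exact ⟨hlt, Nat.eq_of_beq_eq_true h1, Nat.eq_of_beq_eq_true h2, hes,
    Nat.le_of_ble_eq_true hh, Nat.eq_of_beq_eq_true h3, Nat.eq_of_beq_eq_true h4,
    Nat.eq_of_beq_eq_true h5⟩

/-- membership facts of the four group centralizer -/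
theorem T_facts {k : Nat} (hk : k < 3) :
    inT k (gXK k) = true ∧ inT k (gYK k) = true ∧ inT k (gZK k) = true ∧ inT k sI = true ∧
      inT k (eK k) = true ∧ ∀ x, x < 192 → inT k x = true →
        extT k (gXK k) (gYK k) (gZK k) x = x ∧ mul (mul x x) (mul x x) = 0 ∧
          inT k (conj (hhK k) x) = true ∧ inT k (inv x) = true ∧ conj x (esK k) = esK k ∧
          ∀ z, z < 192 → inT k z = true → inT k (mul x z) = true := by
  have h := allFrom_spec k_chk k (Nat.zero_le k) (by omega)
  simp only [Bool.and_eq_true] at h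
  obtain ⟨⟨⟨⟨⟨⟨⟨⟨-, hX⟩, hY⟩, hZ⟩, hs⟩, he⟩, -⟩, -⟩, hall⟩ := h
  refine ⟨hX, hY, hZ, hs, he, fun x hx hT => ?_⟩
  have h := allT_spec hall hx hT
  simp only [Bool.and_eq_true] at h
  obtain ⟨⟨⟨⟨⟨a, b⟩, c⟩, d⟩, e⟩, f⟩ := h
  exact ⟨Nat.eq_of_beq_eq_true a, Nat.eq_of_beq_eq_true b, c, e, Nat.eq_of_beq_eq_true f,
    fun z hz hzT => allT_spec d hz hzT⟩

theorem gens_lt {k : Nat} (hk : k < 3) : gXK k < 192 ∧ gYK k < 192 ∧ gZK k < 192 := by
  interval_cases k <;> refine ⟨?_, ?_, ?_⟩ <;> decide +kernel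

/-- An identification of the centralizer of `s` with the table group. -/
structure Frame {G : Type*} [Group G] (s : G) where
  /-- the map on the table group -/
  ι : Nat → G
  map_mul : ∀ a b, a < 192 → b < 192 → ι (mul a b) = ι a * ι b
  inj : ∀ a b, a < 192 → b < 192 → ι a = ι b → a = b
  surj : ∀ x, x * s = s * x → ∃ a, a < 192 ∧ ι a = x
  map_s : ι sI = s

namespace Frame

variable {G : Type*} [Group G] {s : G} (F : Frame s)

theorem map_zero : F.ι 0 = 1 := by
  have h := F.map_mul 0 0 (by norm_num) (by norm_num)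
  rw [(inv_facts (a := 0) (by norm_num)).2.2.1] at h
  exact mul_left_cancel (a := F.ι 0) (by rw [mul_one, ← h])

theorem map_inv {a : Nat} (ha : a < 192) : F.ι (inv a) = (F.ι a)⁻¹ := by
  rw [eq_inv_iff_mul_eq_one, mul_eq_one_comm, ← F.map_mul a _ ha (inv_lt ha), (inv_facts ha).2.1,
    F.map_zero]

theorem map_conj {h a : Nat} (hh : h < 192) (ha : a < 192) :
    F.ι (conj h a) = F.ι h * F.ι a * (F.ι h)⁻¹ := by
  rw [conj, F.map_mul _ _ (mul_lt hh ha) (inv_lt hh), F.map_mul h a hh ha, F.map_inv hh]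

theorem commB_iff {a b : Nat} (ha : a < 192) (hb : b < 192) :
    commB a b = true ↔ F.ι a * F.ι b = F.ι b * F.ι a := by
  rw [commB, ← F.map_mul a b ha hb, ← F.map_mul b a hb ha]
  exact ⟨fun h => congrArg F.ι (Nat.eq_of_beq_eq_true h),
    fun h => beq_true (F.inj _ _ (mul_lt ha hb) (mul_lt hb ha) h)⟩

theorem comm_s {a : Nat} (ha : a < 192) : F.ι a * s = s * F.ι a := by
  have h := (F.commB_iff ha sI_lt).mp (allL_spec central_chk ha)
  rwa [F.map_s] at h

theorem mem_centralizer {x : G} :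
    x ∈ Subgroup.centralizer ({s} : Set G) ↔ ∃ a, a < 192 ∧ F.ι a = x := by
  rw [Subgroup.mem_centralizer_singleton_iff]
  constructor
  · intro h
    first
      | exact F.surj x h
      | exact F.surj x h.symm
  · rintro ⟨a, ha, rfl⟩
    first
      | exact F.comm_s ha
      | exact (F.comm_s ha).symm

theorem sq_one {a : Nat} (ha : a < 192) (h : cls a ≠ 0) : F.ι a * F.ι a = 1 := by
  have h1 := allL_spec cls_chk ha
  simp only [beq_false h, Bool.not_false, Bool.and_eq_true] at h1
  rw [← F.map_mul a a ha ha, Nat.eq_of_beq_eq_true h1.2.1.1.1, F.map_zero]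

theorem orderOf_two {a : Nat} (ha : a < 192) : orderOf (F.ι a) = 2 ↔ cls a ≠ 0 := by
  have h := allL_spec cls_chk ha
  rw [orderOf_eq_prime_iff]
  cases hc : Nat.beq (cls a) 0 with
  | true =>
    have hc' : cls a = 0 := Nat.eq_of_beq_eq_true hc
    simp only [hc, Bool.not_true, Bool.and_eq_true, Bool.or_eq_true, Bool.not_eq_true'] at h
    simp only [hc', ne_eq, not_true_eq_false, iff_false, not_and, not_not]
    intro hsq
    rw [pow_two, ← F.map_mul a a ha ha, ← F.map_zero] at hsq
    have h0 := F.inj _ _ (mul_lt ha ha) (by norm_num) hsq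
    rcases h.2 with h | h
    · simp [h0] at h
    · rw [Nat.eq_of_beq_eq_true h, F.map_zero]
  | false =>
    have hc' : cls a ≠ 0 := fun e => by simp [e] at hc
    simp only [hc, Bool.not_false, Bool.and_eq_true, Bool.not_eq_true'] at h
    simp only [ne_eq, hc', not_false_eq_true, iff_true]
    refine ⟨by rw [pow_two]; exact F.sq_one ha hc', fun e => ?_⟩
    rw [← F.map_zero] at e
    simp [F.inj a 0 ha (by norm_num) e] at h

theorem cls_le {a : Nat} (ha : a < 192) : cls a ≤ 6 := by
  have h := allL_spec cls_chk ha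
  rw [Bool.and_eq_true] at h
  exact Nat.le_of_ble_eq_true h.1

theorem eq_sI {a : Nat} (ha : a < 192) (h : cls a = 1) : a = sI := by
  have h1 := allL_spec cls_chk ha
  rw [h, show Nat.beq 1 0 = false from rfl] at h1
  simp only [Bool.not_false, Bool.and_eq_true, Bool.or_eq_true] at h1
  rcases h1.2.2 with h2 | h2
  · exact Nat.eq_of_beq_eq_true h2
  · simp at h2

theorem isConj_rep {a : Nat} (ha : a < 192) (h : cls a ≠ 0) :
    ∃ h', h' < 192 ∧ conj h' (repC (cls a)) = a ∧ IsConj (F.ι (repC (cls a))) (F.ι a) := by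
  have h1 := allL_spec cls_chk ha
  simp only [beq_false h, Bool.not_false, Bool.and_eq_true] at h1
  obtain ⟨k, hk, hke⟩ := anyL_spec h1.2.1.2
  have hr : repC (cls a) < 192 := by
    have hr := allFrom_spec rep_chk (cls a) (Nat.zero_le _) (by have := cls_le ha; omega)
    simp only [Bool.and_eq_true] at hr
    exact Nat.le_of_ble_eq_true hr.1.1
  refine ⟨k, hk, Nat.eq_of_beq_eq_true hke, isConj_iff.mpr ⟨F.ι k, ?_⟩⟩
  rw [← F.map_conj hk hr, Nat.eq_of_beq_eq_true hke]

theorem isConj_of_cls_eq {a b : Nat} (ha : a < 192) (hb : b < 192) (h : cls a = cls b)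
    (h0 : cls a ≠ 0) : IsConj (F.ι a) (F.ι b) := by
  obtain ⟨-, -, -, h1⟩ := F.isConj_rep ha h0
  obtain ⟨-, -, -, h2⟩ := F.isConj_rep hb (h ▸ h0)
  rw [h] at h1
  exact h1.symm.trans h2

include F in
theorem cls_conj {h a : Nat} (hh : h < 192) (ha : a < 192) (h0 : cls a ≠ 0) :
    cls (conj h a) = cls a := by
  obtain ⟨k, hk, hke, -⟩ := F.isConj_rep ha h0
  have hr := allFrom_spec rep_chk (cls a) (Nat.zero_le _) (by have := cls_le ha; omega)
  simp only [Bool.and_eq_true] at hr
  have hlt : repC (cls a) < 192 := Nat.le_of_ble_eq_true hr.1.1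
  have e : conj h a = conj (mul h k) (repC (cls a)) := by
    refine F.inj _ _ (conj_lt hh ha) (conj_lt (mul_lt hh hk) hlt) ?_
    rw [F.map_conj hh ha, F.map_conj (mul_lt hh hk) hlt, F.map_mul h k hh hk]
    nth_rw 1 [← hke]
    rw [F.map_conj hk hlt]
    group
  rw [e]
  exact Nat.eq_of_beq_eq_true (allL_spec hr.2 (mul_lt hh hk))

include F in
theorem orderOf_s : orderOf s = 2 := by
  rw [← F.map_s]
  exact (F.orderOf_two sI_lt).mpr (by decide +kernel)

end Frame

end Cfsg.Agent.H80.Alt
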