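import Cfsg.Agent.H80.Alt.Amalgam
import Cfsg.Agent.H28.ZStar
import Cfsg.Agent.H19.Cores

/-!
When a single class of the core fuses with the centre, its elementary subgroup of order eight is
normal in the whole group.
-/

set_option autoImplicit false
set_option maxHeartbeats 1000000

namespace Cfsg.Agent.H80.Alt

open Cfsg.Agent.H16

theorem E_facts {k a : Nat} (hk : k < 3) (ha : a < 192) (hE : inE k a = true) :
    mul a a = 0 ∧ inT k a = true ∧ (∀ h, h < 192 → inE k (conj h a) = true) ∧
      ∀ z, z < 192 → inE k z = true → inE k (mul a z) = true ∧ commB a z = true := by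
  have h := allFrom_spec E_chk k (Nat.zero_le k) (by omega)
  simp only [Bool.and_eq_true] at h
  have := imp_spec (allL_spec h.1.1.1 ha) hE
  simp only [Bool.and_eq_true] at this
  exact ⟨Nat.eq_of_beq_eq_true this.1.1.1, this.1.1.2, fun h hh => allL_spec this.1.2 hh,
    fun z hz hzE => by
      have := imp_spec (allL_spec this.2 hz) hzE
      rwa [Bool.and_eq_true] at this⟩

/-- the kind of involution whose commutators with the elementary subgroup are central -/
noncomputable def special (k a : Nat) : Bool :=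
  Nat.ble 2 (cls a) && !Nat.beq (cls a) (k + 2) &&
    allL (fun x => imp (inE k x) (Nat.beq (mul x (conj a x)) 0 || Nat.beq (mul x (conj a x)) sI))

theorem special_chk : allFrom (fun k => allL (fun a =>
    imp (Nat.ble 2 (cls a) && !Nat.beq (cls a) (k + 2)) (anyL fun c => inE k c && !Nat.beq c 0 &&
      allL (fun x => imp (inE k x) (Nat.beq (mul x (conj a x)) 0 || Nat.beq (mul x (conj a x)) c))) &&
    imp (special k a) (anyL (fun x => inE k x && Nat.beq (mul x (conj a x)) sI) &&
      anyL (fun u => inE k u && Nat.beq (cls u) (k + 2) && commB u a &&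
        Nat.beq (cls (mul u sI)) (k + 2))))) 3 0 = true := by
  decide +kernel

theorem sI_inE : allFrom (fun k => inE k sI && inE k (eK k)) 3 0 = true := by decide +kernel

namespace Frame

variable {G : Type*} [Group G] {s : G} (F : Frame s)

theorem inE_zero (k : Nat) : inE k 0 = true := by simp [inE]

/-- the elementary subgroup of order eight of a class -/
noncomputable def elemK (k : Nat) (hk : k < 3) : Subgroup G where
  carrier := {x | ∃ a, a < 192 ∧ inE k a = true ∧ F.ι a = x}
  one_mem' := ⟨0, by norm_num, inE_zero k, F.map_zero⟩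
  mul_mem' := by
    rintro _ _ ⟨a, ha, hA, rfl⟩ ⟨b, hb, hB, rfl⟩
    exact ⟨mul a b, mul_lt ha hb, ((E_facts hk ha hA).2.2.2 b hb hB).1, F.map_mul a b ha hb⟩
  inv_mem' := by
    rintro _ ⟨a, ha, hA, rfl⟩
    refine ⟨a, ha, hA, eq_inv_of_mul_eq_one_left ?_⟩
    rw [← F.map_mul a a ha ha, (E_facts hk ha hA).1, F.map_zero]

theorem mem_elemK {k a : Nat} (hk : k < 3) (ha : a < 192) :
    F.ι a ∈ F.elemK k hk ↔ inE k a = true := by
  refine ⟨fun ⟨b, hb, hB, he⟩ => ?_, fun h => ⟨a, ha, h, rfl⟩⟩
  rwa [← F.inj b a hb ha he]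

theorem s_mem_elemK {k : Nat} (hk : k < 3) : s ∈ F.elemK k hk := by
  have h := allFrom_spec sI_inE k (Nat.zero_le k) (by omega)
  rw [Bool.and_eq_true] at h
  exact ⟨sI, sI_lt, h.1, F.map_s⟩

theorem card_elemK {k : Nat} (hk : k < 3) : Nat.card (F.elemK k hk) = 8 := by
  have h8 : ((Finset.Ico 0 (0 + 192)).filter fun a => inE k a = true).card = 8 := by
    rw [← countFrom_spec]
    have h := allFrom_spec E_chk k (Nat.zero_le k) (by omega)
    simp only [Bool.and_eq_true] at h
    exact Nat.eq_of_beq_eq_true h.1.1.2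
  rw [← h8, ← Nat.card_eq_finsetCard]
  refine (Nat.card_congr (Equiv.ofBijective
    (fun a => ⟨F.ι a.1, (by
      obtain ⟨h1, h2⟩ := Finset.mem_filter.mp a.2
      exact ⟨a.1, (Finset.mem_Ico.mp h1).2, h2, rfl⟩)⟩) ⟨?_, ?_⟩)).symm
  · intro a b he
    exact Subtype.ext (F.inj _ _ (Finset.mem_Ico.mp (Finset.mem_filter.mp a.2).1).2
      (Finset.mem_Ico.mp (Finset.mem_filter.mp b.2).1).2 (congrArg Subtype.val he))
  · rintro ⟨_, a, ha, hA, rfl⟩
    exact ⟨⟨a, Finset.mem_filter.mpr ⟨Finset.mem_Ico.mpr ⟨Nat.zero_le a, ha⟩, hA⟩⟩, rfl⟩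

theorem elemK_comm {k : Nat} (hk : k < 3) :
    ∀ a ∈ F.elemK k hk, ∀ b ∈ F.elemK k hk, a * b = b * a := by
  rintro _ ⟨a, ha, hA, rfl⟩ _ ⟨b, hb, hB, rfl⟩
  exact (F.commB_iff ha hb).mp ((E_facts hk ha hA).2.2.2 b hb hB).2

theorem elemK_sq {k : Nat} (hk : k < 3) : ∀ a ∈ F.elemK k hk, a ^ 2 = 1 := by
  rintro _ ⟨a, ha, hA, rfl⟩
  rw [pow_two, ← F.map_mul a a ha ha, (E_facts hk ha hA).1, F.map_zero]

theorem centralizer_le_normalizer {k : Nat} (hk : k < 3) :
    Subgroup.centralizer ({s} : Set G) ≤ Subgroup.normalizer (F.elemK k hk : Set G) := by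
  intro x hx
  obtain ⟨a, ha, rfl⟩ := F.mem_centralizer.mp hx
  have key : ∀ d, d < 192 → ∀ z ∈ F.elemK k hk, F.ι d * z * (F.ι d)⁻¹ ∈ F.elemK k hk := by
    rintro d hd _ ⟨b, hb, hB, rfl⟩
    rw [← F.map_conj hd hb, F.mem_elemK hk (conj_lt hd hb)]
    exact (E_facts hk hb hB).2.2.1 d hd
  refine Subgroup.mem_normalizer_iff.mpr fun z => ⟨key a ha z, fun hz => ?_⟩
  have h2 := key (inv a) (inv_lt ha) _ hz
  rw [F.map_inv ha] at h2
  convert h2 using 1
  group

end Frame

namespace Amalgam

variable {G : Type*} [Group G] {s : G} {F : Frame s} {k i : Nat} {y : G}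

theorem yy (A : Amalgam F k i y) : y * y * y = 1 := by rw [← A.y_cube, pow_succ, pow_two]

theorem mem_normalizer (A : Amalgam F k i y) :
    y ∈ Subgroup.normalizer (F.elemK k A.k_lt : Set G) := by
  have key : ∀ x ∈ F.elemK k A.k_lt, y * x * y⁻¹ ∈ F.elemK k A.k_lt := by
    rintro _ ⟨a, ha, hA, rfl⟩
    have hT := (E_facts A.k_lt ha hA).2.1
    obtain ⟨h1, -, h3, -⟩ := phi_facts A.k_lt A.i_lt ha hT
    rw [A.y_T a ha hT, F.mem_elemK A.k_lt h1]
    exact h3 hA
  refine Subgroup.mem_normalizer_iff.mpr fun x => ⟨key x, fun hx => ?_⟩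
  have h2 := key _ (key _ hx)
  convert h2 using 1
  calc x = (y * y * y) * x * (y * y * y)⁻¹ := by rw [A.yy]; group
    _ = _ := by group

/-- Every involution of the subgroup is a conjugate of `s` under its normaliser. -/
theorem reach (A : Amalgam F k i y) {a : Nat} (ha : a < 192) (hA : inE k a = true) (h0 : a ≠ 0) :
    ∃ n ∈ Subgroup.normalizer (F.elemK k A.k_lt : Set G), n * s * n⁻¹ = F.ι a := by
  simp only [inE, Bool.or_eq_true] at hA
  rcases hA with (h | h) | h
  · exact absurd (Nat.eq_of_beq_eq_true h) h0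
  · exact ⟨1, one_mem _, by rw [Frame.eq_sI ha (Nat.eq_of_beq_eq_true h), F.map_s]; group⟩
  · have hc : cls a = k + 2 := Nat.eq_of_beq_eq_true h
    obtain ⟨he, hce, -⟩ := k_facts A.k_lt
    obtain ⟨j, hj, hje, -⟩ := F.isConj_rep ha (by omega)
    obtain ⟨j', hj', hje', -⟩ := F.isConj_rep he (by omega)
    rw [hc] at hje
    rw [hce] at hje'
    have hr : repC (k + 2) < 192 := by
      have hr := allFrom_spec rep_chk (k + 2) (Nat.zero_le _) (by have := A.k_lt; omega)
      simp only [Bool.and_eq_true] at hr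
      exact Nat.le_of_ble_eq_true hr.1.1
    refine ⟨F.ι j * (F.ι j')⁻¹ * y, mul_mem (mul_mem
      (F.centralizer_le_normalizer A.k_lt (F.mem_centralizer.mpr ⟨j, hj, rfl⟩))
      (inv_mem (F.centralizer_le_normalizer A.k_lt (F.mem_centralizer.mpr ⟨j', hj', rfl⟩))))
      A.mem_normalizer, ?_⟩
    calc _ = F.ι j * (F.ι j')⁻¹ * (y * s * y⁻¹) * (F.ι j * (F.ι j')⁻¹)⁻¹ := by group
      _ = _ := by
        rw [A.y_s, ← hje', ← hje, F.map_conj hj' hr, F.map_conj hj hr]
        group

/-- With one fused class, the conjugates of `s` in its centralizer form the subgroup. -/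
theorem sType_mem (A : Amalgam F k i y)
    (hone : ∀ j, j < 3 → j ≠ k → ¬ IsConj s (F.ι (eK j)))
    {a : Nat} (ha : a < 192) (hc : IsConj s (F.ι a)) : inE k a = true := by
  have h0 : cls a ≠ 0 := (F.orderOf_two ha).mp (by
    obtain ⟨g, hg⟩ := isConj_iff.mp hc
    rw [← hg]; exact ((MulAut.conj g).orderOf_eq s).trans F.orderOf_s)
  have core : ∀ b, b < 192 → 2 ≤ cls b → cls b ≤ 4 → cls b ≠ k + 2 → ¬ IsConj s (F.ι b) := by
    intro b hb h2 h4 hne hcb
    obtain ⟨he, hce, -⟩ := k_facts (k := cls b - 2) (by omega)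
    exact hone (cls b - 2) (by omega) (by omega)
      (hcb.trans (F.isConj_of_cls_eq hb he (by omega) (by omega)))
  have hle := Frame.cls_le ha
  simp only [inE, Bool.or_eq_true]
  rcases Nat.lt_or_ge (cls a) 2 with h1 | h2
  · left; right; exact beq_true (by omega)
  rcases Nat.lt_or_ge 4 (cls a) with h5 | h4
  · exfalso
    have h := allFrom_spec (allFrom_spec (allFrom_spec fuse_chk k (Nat.zero_le k)
      (by have := A.k_lt; omega)) i (Nat.zero_le i) (by have := A.i_lt; omega)) (cls a) (by omega)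
      (by omega)
    obtain ⟨x, hx, hxp⟩ := anyL_spec h
    simp only [Bool.and_eq_true, Bool.not_eq_true'] at hxp
    obtain ⟨⟨hxT, hxc⟩, ⟨p2, p4⟩, pk⟩ := hxp
    have hlt := (phi_facts A.k_lt A.i_lt hx hxT).1
    refine core _ hlt (Nat.le_of_ble_eq_true p2) (Nat.le_of_ble_eq_true p4)
      (fun e => by simp [e] at pk) ?_
    rw [← A.y_T x hx hxT]
    exact (hc.trans (F.isConj_of_cls_eq ha hx (Nat.eq_of_beq_eq_true hxc).symm h0)).trans
      (isConj_iff.mpr ⟨y, rfl⟩)
  · by_cases hk : cls a = k + 2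
    · right; exact beq_true hk
    · exact absurd hc (core a ha h2 h4 hk)

variable (A : Amalgam F k i y) (hone : ∀ j, j < 3 → j ≠ k → ¬ IsConj s (F.ι (eK j)))

include hone in
/-- Conjugates of `s` commuting with a nontrivial element of the subgroup lie in it. -/
theorem closed (A : Amalgam F k i y) {e v : G} (he : e ∈ F.elemK k A.k_lt) (he1 : e ≠ 1)
    (hv : IsConj s v) (hcomm : v * e = e * v) : v ∈ F.elemK k A.k_lt := by
  obtain ⟨a, ha, hA, rfl⟩ := he
  obtain ⟨n, hn, hne⟩ := A.reach ha hA (fun e => he1 (by rw [e, F.map_zero]))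
  have hc2 : n⁻¹ * v * n * s = s * (n⁻¹ * v * n) := by
    have := comm_conj n⁻¹ hcomm
    rw [← hne] at this
    simpa [mul_assoc] using this
  obtain ⟨b, hb, hbe⟩ := F.surj _ hc2
  have hbE : inE k b = true := A.sType_mem hone hb (hv.trans (isConj_iff.mpr ⟨n⁻¹, by
    rw [hbe]; group⟩))
  have := (Subgroup.mem_normalizer_iff.mp hn (F.ι b)).mp ((F.mem_elemK A.k_lt hb).mpr hbE)
  rw [hbe] at this
  convert this using 1
  group

include hone in
/-- The centralizer of a special involution lies in the normaliser. -/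
theorem special_le [Finite G] (A : Amalgam F k i y) {a : Nat} (ha : a < 192)
    (hsp : special k a = true) : Subgroup.centralizer ({F.ι a} : Set G) ≤
      Subgroup.centralizer ({s} : Set G) := by
  have hk := A.k_lt
  have hchk := allL_spec (allFrom_spec special_chk k (Nat.zero_le k) (by omega)) ha
  simp only [Bool.and_eq_true] at hchk
  have hchk2 := imp_spec hchk.2 hsp
  rw [Bool.and_eq_true] at hchk2
  obtain ⟨x, hx, hx'⟩ := anyL_spec hchk2.1
  obtain ⟨u, hu, hu'⟩ := anyL_spec hchk2.2
  simp only [Bool.and_eq_true] at hx' hu'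
  obtain ⟨⟨⟨huE, huc⟩, hua⟩, husc⟩ := hu'
  have hsp' := hsp
  simp only [special, Bool.and_eq_true, Bool.not_eq_true'] at hsp'
  obtain ⟨⟨ha2, hak⟩, hcomm⟩ := hsp'
  have ha2' : 2 ≤ cls a := Nat.le_of_ble_eq_true ha2
  have hanE : ¬ IsConj s (F.ι a) := fun hc => by
    have := A.sType_mem hone ha hc
    simp only [inE, Bool.or_eq_true] at this
    rcases this with (h | h) | h
    · rw [Nat.eq_of_beq_eq_true h] at ha2'
      rw [show cls 0 = 0 by decide +kernel] at ha2'
      omega
    · have := Nat.eq_of_beq_eq_true h; omega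
    · rw [h] at hak; simp at hak
  set K := Subgroup.centralizer ({F.ι a} : Set G) with hK
  have memK : ∀ g : K, (g : G) * F.ι a = F.ι a * g := fun g => by
    have := Subgroup.mem_centralizer_singleton_iff.mp g.2
    first
      | exact this
      | exact this.symm
  have hsK : s ∈ K := by
    rw [hK, Subgroup.mem_centralizer_singleton_iff]
    first
      | exact (F.comm_s ha).symm
      | exact F.comm_s ha
  have hiso : H28.IsIsolatedInvolution (⟨s, hsK⟩ : K) := by
    refine ⟨by rw [Subgroup.orderOf_mk]; exact F.orderOf_s, fun g hg => ?_⟩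
    have hc : (g : G) * s * (g : G)⁻¹ * s = s * ((g : G) * s * (g : G)⁻¹) :=
      (congrArg Subtype.val hg).symm
    have hv : (g : G) * s * (g : G)⁻¹ ∈ F.elemK k hk :=
      A.closed hone (F.s_mem_elemK hk) (fun e => by
        have := F.orderOf_s; rw [e, orderOf_one] at this; omega)
        (isConj_iff.mpr ⟨_, rfl⟩) hc
    have hv1 : (g : G) * s * (g : G)⁻¹ ≠ 1 := fun e => by
      have := F.orderOf_s
      rw [conj_eq_one_iff.mp e, orderOf_one] at this
      omega
    have himg : (g : G) * F.ι x * (g : G)⁻¹ ∈ F.elemK k hk := by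
      by_cases hx0 : x = 0
      · rw [hx0, F.map_zero, mul_one, mul_inv_cancel]; exact one_mem _
      obtain ⟨n, -, hne⟩ := A.reach hx hx'.1 hx0
      refine A.closed hone hv hv1 (isConj_iff.mpr ⟨(g : G) * n, by rw [← hne]; group⟩) ?_
      exact comm_conj _ (F.comm_s hx)
    obtain ⟨z, hz, hzE, hze⟩ := himg
    have e1 : F.ι (mul z (conj a z)) = (g : G) * s * (g : G)⁻¹ := by
      rw [F.map_mul _ _ hz (conj_lt ha hz), F.map_conj ha hz, hze]
      calc _ = (g : G) * F.ι x * ((g : G)⁻¹ * F.ι a * g) * (F.ι x) *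
            ((g : G)⁻¹ * (F.ι a)⁻¹ * g) * (g : G)⁻¹ := by group
        _ = (g : G) * (F.ι x * (F.ι a * F.ι x * (F.ι a)⁻¹)) * (g : G)⁻¹ := by
          have e2 : (g : G)⁻¹ * F.ι a * g = F.ι a := by
            rw [mul_assoc, ← memK g, inv_mul_cancel_left]
          have e3 : (g : G)⁻¹ * (F.ι a)⁻¹ * g = (F.ι a)⁻¹ := by
            calc _ = ((g : G)⁻¹ * F.ι a * g)⁻¹ := by group
              _ = _ := by rw [e2]
          rw [e2, e3]; group
        _ = _ := by
          rw [← F.map_conj ha hx, ← F.map_mul _ _ hx (conj_lt ha hx),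
            Nat.eq_of_beq_eq_true hx'.2, F.map_s]
    have hz' := imp_spec (allL_spec hcomm hz) hzE
    rw [Bool.or_eq_true] at hz'
    apply Subtype.ext
    show (g : G) * s * (g : G)⁻¹ = s
    rcases hz' with h | h
    · rw [Nat.eq_of_beq_eq_true h, F.map_zero] at e1
      exact absurd e1.symm hv1
    · rw [Nat.eq_of_beq_eq_true h, F.map_s] at e1
      exact e1.symm
  have hO : Cfsg.pPrimeCore 2 K = ⊥ := by
    rw [eq_bot_iff]
    intro o ho
    haveI := H19.pPrimeCore_normal 2 K
    have oddO : ∀ x : K, x ∈ Cfsg.pPrimeCore 2 K → Odd (orderOf x) := fun x hx => by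
      refine Odd.of_dvd_nat (Nat.coprime_two_right.mp (H19.pPrimeCore_coprime (G := K) 2)) ?_
      rw [← Subgroup.orderOf_mk x hx]
      exact orderOf_dvd_natCard _
    have fpf : ∀ w, w < 192 → inE k w = true → w ≠ 0 → ∀ x : K, x ∈ Cfsg.pPrimeCore 2 K →
        (x : G) * F.ι w = F.ι w * x → commB a w = true → x = 1 := by
      intro w hw hwE hw0 x hx hxw hwa
      obtain ⟨n, -, hne⟩ := A.reach hw hwE hw0
      have tr : ∀ z, z * F.ι w = F.ι w * z → (n⁻¹ * z * n) * s = s * (n⁻¹ * z * n) := by
        intro z hz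
        have := comm_conj n⁻¹ hz
        rw [← hne] at this
        simpa [mul_assoc] using this
      obtain ⟨b, hb, hbe⟩ := F.surj _ (tr (F.ι a) ((F.commB_iff ha hw).mp hwa))
      obtain ⟨c, hc, hce⟩ := F.surj _ (tr x hxw)
      have hab : IsConj (F.ι a) (F.ι b) := isConj_iff.mpr ⟨n⁻¹, by rw [hbe, inv_inv]⟩
      have hb0 : cls b ≠ 0 := (F.orderOf_two hb).mp (by
        rw [hbe]
        have := (MulAut.conj n⁻¹).orderOf_eq (F.ι a)
        simp only [MulAut.conj_apply, inv_inv] at this
        rw [this]; exact (F.orderOf_two ha).mpr (by omega))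
      have hb2 : 2 ≤ cls b := by
        by_contra h
        rw [Frame.eq_sI hb (by omega), F.map_s] at hab
        exact hanE hab.symm
      have hcb : commB c b = true := (F.commB_iff hc hb).mpr (by
        rw [hce, hbe]
        have := comm_conj n⁻¹ (memK x)
        simpa [mul_assoc] using this)
      have h8 := Nat.eq_of_beq_eq_true (imp_spec (allL_spec (imp_spec (allL_spec cent_two_chk hb)
        (Nat.ble_eq.mpr hb2)) hc) hcb)
      have hx8 : x ^ 8 = 1 := by
        apply Subtype.ext
        rw [Subgroup.coe_pow, Subgroup.coe_one]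
        have hp : (n⁻¹ * (x : G) * n) ^ 8 = 1 := by
          rw [← hce, show (8 : ℕ) = 2 * 2 * 2 by norm_num, pow_mul, pow_mul, pow_two, pow_two,
            pow_two, ← F.map_mul _ _ hc hc, ← F.map_mul _ _ (mul_lt hc hc) (mul_lt hc hc),
            ← F.map_mul _ _ (mul_lt (mul_lt hc hc) (mul_lt hc hc))
              (mul_lt (mul_lt hc hc) (mul_lt hc hc)), h8, F.map_zero]
        have := map_pow (MulAut.conj n) (n⁻¹ * (x : G) * n) 8
        rw [hp, map_one] at this
        simpa [mul_assoc] using this.symm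
      have hox := oddO x hx
      obtain ⟨j, -, hj⟩ := (Nat.dvd_prime_pow Nat.prime_two).mp
        (orderOf_dvd_of_pow_eq_one hx8 : orderOf x ∣ 2 ^ 3)
      rw [hj] at hox
      rcases j with _ | j
      · rw [pow_zero] at hj; exact orderOf_eq_one_iff.mp hj
      · exact absurd hox (by simp [Nat.pow_succ, parity_simps])
    have inverts : ∀ w, w < 192 → inE k w = true → w ≠ 0 → commB a w = true →
        F.ι w * (o : G) * (F.ι w)⁻¹ = (o : G)⁻¹ := by
      intro w hw hwE hw0 hwa
      have hwK : F.ι w ∈ K := by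
        rw [hK, Subgroup.mem_centralizer_singleton_iff]
        first
          | exact ((F.commB_iff ha hw).mp hwa)
          | exact ((F.commB_iff ha hw).mp hwa).symm
      have hw1 : (⟨F.ι w, hwK⟩ : K) * ⟨F.ι w, hwK⟩ = 1 := by
        apply Subtype.ext
        show F.ι w * F.ι w = 1
        rw [← F.map_mul w w hw hw, (E_facts hk hw hwE).1, F.map_zero]
      set φ : Cfsg.pPrimeCore 2 K →* Cfsg.pPrimeCore 2 K :=
        { toFun := fun x => ⟨⟨F.ι w, hwK⟩ * x * (⟨F.ι w, hwK⟩ : K)⁻¹,
            Subgroup.Normal.conj_mem inferInstance _ x.2 _⟩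
          map_one' := by ext; simp
          map_mul' := fun x z => by ext; simp } with hφ
      have hff : MonoidHom.FixedPointFree φ := by
        intro x hx
        have hx' := congrArg (fun z : Cfsg.pPrimeCore 2 K => ((z : K) : G)) hx
        simp only [hφ, MonoidHom.coe_mk, OneHom.coe_mk, Subgroup.coe_mul, Subgroup.coe_inv] at hx'
        exact Subtype.ext (fpf w hw hwE hw0 _ x.2 (mul_inv_eq_iff_eq_mul.mp hx').symm hwa)
      have hinv : Function.Involutive φ := by
        intro x
        apply Subtype.ext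
        show (⟨F.ι w, hwK⟩ : K) * (⟨F.ι w, hwK⟩ * (x : K) * (⟨F.ι w, hwK⟩ : K)⁻¹) *
          (⟨F.ι w, hwK⟩ : K)⁻¹ = x
        rw [inv_eq_of_mul_eq_one_left hw1]
        simp [mul_assoc, hw1]
        rw [← mul_assoc, hw1, one_mul]
      have := congrFun (hff.coe_eq_inv_of_involutive hinv) ⟨o, ho⟩
      exact congrArg (fun z : Cfsg.pPrimeCore 2 K => ((z : K) : G)) this
    have hcu : commB a u = true := beq_true (Nat.eq_of_beq_eq_true hua).symm
    have hsE : inE k sI = true := ((F.mem_elemK hk sI_lt).mp (by rw [F.map_s]; exact F.s_mem_elemK hk))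
    have husE := ((E_facts hk hu huE).2.2.2 sI sI_lt hsE).1
    have has : commB a sI = true := allL_spec central_chk ha
    have haus : commB a (mul u sI) = true := (F.commB_iff ha (mul_lt hu sI_lt)).mpr (by
      rw [F.map_mul _ _ hu sI_lt, F.map_s, ← mul_assoc, (F.commB_iff ha hu).mp hcu, mul_assoc,
        F.comm_s ha, mul_assoc])
    have ne0 : ∀ {w}, cls w ≠ 0 → w ≠ 0 := fun {w} h e =>
      h (by rw [e]; decide +kernel)
    have i1 := inverts u hu huE (ne0 (by rw [Nat.eq_of_beq_eq_true huc]; omega)) hcu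
    have i2 := inverts _ (mul_lt hu sI_lt) husE
      (ne0 (by rw [Nat.eq_of_beq_eq_true husc]; omega)) haus
    have i3 := inverts sI sI_lt hsE (ne0 (by decide +kernel)) has
    rw [F.map_mul _ _ hu sI_lt] at i2
    rw [F.map_s] at i2 i3
    have hoo : (o : G)⁻¹ = o := by
      calc (o : G)⁻¹ = F.ι u * s * (o : G) * (F.ι u * s)⁻¹ := i2.symm
        _ = F.ι u * (s * (o : G) * s⁻¹) * (F.ι u)⁻¹ := by group
        _ = (F.ι u * (o : G) * (F.ι u)⁻¹)⁻¹ := by rw [i3]; group
        _ = _ := by rw [i1, inv_inv]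
    have ho2 : o ^ 2 = 1 := by
      apply Subtype.ext
      rw [Subgroup.coe_pow, Subgroup.coe_one, pow_two]
      nth_rw 2 [← hoo]
      exact mul_inv_cancel _
    rw [Subgroup.mem_bot]
    have hodd := oddO o ho
    rcases (Nat.dvd_prime Nat.prime_two).mp (orderOf_dvd_of_pow_eq_one ho2) with e | e
    · exact orderOf_eq_one_iff.mp e
    · rw [e] at hodd; exact absurd hodd (by decide)
  intro g hg
  have hz := H28.zStar hiso ⟨g, hg⟩
  rw [hO, Subgroup.mem_bot] at hz
  have := congrArg Subtype.val hz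
  simp only [Subgroup.coe_mul, Subgroup.coe_inv, Subgroup.coe_one] at this
  rw [Subgroup.mem_centralizer_singleton_iff]
  have h2 : s * g * s⁻¹ = g := mul_inv_eq_one.mp this
  first
    | exact (mul_inv_eq_iff_eq_mul.mp h2)
    | exact (mul_inv_eq_iff_eq_mul.mp h2).symm

include hone in
/-- The centralizer of every involution of the normaliser lies in the normaliser. -/
theorem centralizer_le [Finite G] (A : Amalgam F k i y) {w : G} (hw : orderOf w = 2)
    (hwN : w ∈ Subgroup.normalizer (F.elemK k A.k_lt : Set G)) :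
    Subgroup.centralizer ({w} : Set G) ≤ Subgroup.normalizer (F.elemK k A.k_lt : Set G) := by
  classical
  set N := Subgroup.normalizer (F.elemK k A.k_lt : Set G) with hN
  have hk := A.k_lt
  have hLN : Subgroup.centralizer ({s} : Set G) ≤ N := F.centralizer_le_normalizer hk
  have back : ∀ {v n r : G}, n ∈ N → n * r * n⁻¹ = v →
      Subgroup.centralizer ({r} : Set G) ≤ N → Subgroup.centralizer ({v} : Set G) ≤ N := by
    intro v n r hn hnr hr x hx
    rw [Subgroup.mem_centralizer_singleton_iff] at hx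
    have hxm : n⁻¹ * x * n ∈ N := hr (by
      rw [Subgroup.mem_centralizer_singleton_iff]
      have := comm_conj n⁻¹ hx
      rw [← hnr] at this
      simpa [mul_assoc] using this)
    have := N.mul_mem (N.mul_mem hn hxm) (N.inv_mem hn)
    convert this using 1
    group
  -- `w` fixes a nontrivial element of the subgroup
  obtain ⟨e, he, he1, hew⟩ : ∃ e ∈ F.elemK k hk, e ≠ 1 ∧ w * e * w⁻¹ = e := by
    by_contra hcon
    push Not at hcon
    haveI : Fintype (F.elemK k hk) := Fintype.ofFinite _
    have hw2 : w * w = 1 := by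
      have := pow_orderOf_eq_one w
      rwa [hw, pow_two] at this
    let f : Function.End (F.elemK k hk) :=
      fun x => ⟨w * x * w⁻¹, (Subgroup.mem_normalizer_iff.mp hwN _).mp x.2⟩
    have hf2 : f ^ 2 = 1 := by
      rw [pow_two]
      funext x
      apply Subtype.ext
      show w * (w * x * w⁻¹) * w⁻¹ = x
      calc _ = (w * w) * x * (w * w)⁻¹ := by group
        _ = _ := by rw [hw2]; group
    haveI := Fact.mk Nat.prime_two
    have hmod : Fintype.card (F.elemK k hk) % 2 = (Function.fixedPoints f).ncard % 2 := by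
      have h := Equiv.Perm.card_fixedPoints_modEq (f := f) (p := 2) (n := 1) (by
        rw [pow_one]; exact hf2)
      rw [← Nat.card_coe_set_eq, Nat.card_eq_fintype_card]
      exact h
    have hfix : Function.fixedPoints f = {1} := by
      ext x
      simp only [Set.mem_singleton_iff]
      constructor
      · intro hx
        by_contra h1
        exact hcon x x.2 (fun e => h1 (Subtype.ext e)) (congrArg Subtype.val hx)
      · rintro rfl
        exact Subtype.ext (by show w * 1 * w⁻¹ = 1; group)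
    rw [hfix, Set.ncard_singleton, ← Nat.card_eq_fintype_card, F.card_elemK hk] at hmod
    omega
  obtain ⟨a, ha, hA, rfl⟩ := he
  obtain ⟨n, hn, hne⟩ := A.reach ha hA (fun e => he1 (by rw [e, F.map_zero]))
  have hc : n⁻¹ * w * n * s = s * (n⁻¹ * w * n) := by
    have := comm_conj n⁻¹ (mul_inv_eq_iff_eq_mul.mp hew)
    rw [← hne] at this
    simpa [mul_assoc] using this
  obtain ⟨b, hb, hbe⟩ := F.surj _ hc
  refine back hn (r := F.ι b) (by rw [hbe]; group) ?_
  have hb0 : cls b ≠ 0 := (F.orderOf_two hb).mp (by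
    rw [hbe]
    have := (MulAut.conj n⁻¹).orderOf_eq w
    simp only [MulAut.conj_apply, inv_inv] at this
    rw [this, hw])
  by_cases hbE : inE k b = true
  · obtain ⟨m, hm, hme⟩ := A.reach hb hbE (fun e => hb0 (by rw [e]; decide +kernel))
    exact back hm hme hLN
  have hb2 : (Nat.ble 2 (cls b) && !Nat.beq (cls b) (k + 2)) = true := by
    simp only [inE, Bool.or_eq_true, not_or] at hbE
    rw [Bool.and_eq_true, Bool.not_eq_true']
    refine ⟨Nat.ble_eq.mpr ?_, beq_false fun e => hbE.2 (beq_true e)⟩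
    have : cls b ≠ 1 := fun e => hbE.1.2 (beq_true e)
    omega
  have hchk := allL_spec (allFrom_spec special_chk k (Nat.zero_le k) (by omega)) hb
  rw [Bool.and_eq_true] at hchk
  obtain ⟨c, hc', hcp⟩ := anyL_spec (imp_spec hchk.1 hb2)
  simp only [Bool.and_eq_true, Bool.not_eq_true'] at hcp
  obtain ⟨⟨hcE, hc0⟩, hcall⟩ := hcp
  have hc0' : c ≠ 0 := fun e => by simp [e] at hc0
  obtain ⟨m, hm, hme⟩ := A.reach hc' hcE hc0'
  have hbc : commB b c = true := by
    have hcc := imp_spec (allL_spec hcall hc') hcE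
    rw [Bool.or_eq_true] at hcc
    rcases hcc with h | h
    · refine (F.commB_iff hb hc').mpr ?_
      have e := congrArg F.ι (Nat.eq_of_beq_eq_true h)
      rw [F.map_mul _ _ hc' (conj_lt hb hc'), F.map_conj hb hc', F.map_zero] at e
      have hcs : F.ι c * F.ι c = 1 := by
        rw [← F.map_mul c c hc' hc', (E_facts hk hc' hcE).1, F.map_zero]
      have := (eq_inv_of_mul_eq_one_right e).trans (inv_eq_of_mul_eq_one_left hcs)
      exact mul_inv_eq_iff_eq_mul.mp this
    · exfalso
      have e := congrArg F.ι (Nat.eq_of_beq_eq_true h)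
      rw [F.map_mul _ _ hc' (conj_lt hb hc'), F.map_conj hb hc'] at e
      have := mul_eq_left.mp e
      rw [conj_eq_one_iff, ← F.map_zero] at this
      exact hc0' (F.inj _ _ hc' (by norm_num) this)
  have hcm : m⁻¹ * F.ι b * m * s = s * (m⁻¹ * F.ι b * m) := by
    have := comm_conj m⁻¹ ((F.commB_iff hb hc').mp hbc)
    rw [← hme] at this
    simpa [mul_assoc] using this
  obtain ⟨a', ha', hae'⟩ := F.surj _ hcm
  refine back hm (r := F.ι a') (by rw [hae']; group) ?_
  have hmi : m⁻¹ ∈ N := inv_mem hm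
  have ha'0 : cls a' ≠ 0 := (F.orderOf_two ha').mp (by
    rw [hae']
    have := (MulAut.conj m⁻¹).orderOf_eq (F.ι b)
    simp only [MulAut.conj_apply, inv_inv] at this
    rw [this]; exact (F.orderOf_two hb).mpr hb0)
  have ha'E : ¬ inE k a' = true := fun h => hbE (by
    rw [← F.mem_elemK hk hb]
    have := (Subgroup.mem_normalizer_iff.mp hm (F.ι a')).mp ((F.mem_elemK hk ha').mpr h)
    rw [hae'] at this
    convert this using 1
    group)
  have hsp : special k a' = true := by
    simp only [inE, Bool.or_eq_true, not_or] at ha'E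
    simp only [special, Bool.and_eq_true, Bool.not_eq_true']
    refine ⟨⟨Nat.ble_eq.mpr ?_, beq_false fun e => ha'E.2 (beq_true e)⟩,
      allFrom_of_forall fun x _ hx => ?_⟩
    · have : cls a' ≠ 1 := fun e => ha'E.1.2 (beq_true e)
      omega
    cases hxE : inE k x with
    | false => rfl
    | true =>
      have hx' : x < 192 := by omega
      obtain ⟨z, hz, hzE, hze⟩ := (Subgroup.mem_normalizer_iff.mp hm (F.ι x)).mp
        ((F.mem_elemK hk hx').mpr hxE)
      have key : F.ι (mul x (conj a' x)) = m⁻¹ * F.ι (mul z (conj b z)) * m := by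
        rw [F.map_mul _ _ hx' (conj_lt ha' hx'), F.map_conj ha' hx',
          F.map_mul _ _ hz (conj_lt hb hz), F.map_conj hb hz, hze, hae']
        group
      have hzz := imp_spec (allL_spec hcall hz) hzE
      rw [Bool.or_eq_true] at hzz
      show (Nat.beq _ 0 || Nat.beq _ sI) = true
      rw [Bool.or_eq_true]
      rcases hzz with h | h
      · left
        refine beq_true (F.inj _ _ (mul_lt hx' (conj_lt ha' hx')) (by norm_num) ?_)
        rw [key, Nat.eq_of_beq_eq_true h, F.map_zero]; group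
      · right
        refine beq_true (F.inj _ _ (mul_lt hx' (conj_lt ha' hx')) sI_lt ?_)
        rw [key, Nat.eq_of_beq_eq_true h, ← hme, F.map_s]; group
  exact (A.special_le hone ha' hsp).trans hLN

include hone in
/-- The elementary subgroup is normal. -/
theorem normal [Finite G] (A : Amalgam F k i y) : (F.elemK k A.k_lt).Normal := by
  have hk := A.k_lt
  set N := Subgroup.normalizer (F.elemK k hk : Set G) with hN
  have hsN : s ∈ N := F.centralizer_le_normalizer hk (Subgroup.mem_centralizer_singleton_iff.mpr rfl)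
  have split : ∀ a v : G, orderOf a = 2 → orderOf v = 2 →
      IsConj a v ∨ ∃ w : G, orderOf w = 2 ∧ w * a = a * w ∧ w * v = v * w := by
    intro a v ha hv
    have a2 : a * a = 1 := by have := pow_orderOf_eq_one a; rwa [ha, pow_two] at this
    have v2 : v * v = 1 := by have := pow_orderOf_eq_one v; rwa [hv, pow_two] at this
    have ainv : a⁻¹ = a := inv_eq_of_mul_eq_one_left a2
    have vinv : v⁻¹ = v := inv_eq_of_mul_eq_one_left v2
    have hca : MulAut.conj a (a * v) = (a * v)⁻¹ := by
      simp [mul_assoc, ainv, vinv, a2]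
      rw [← mul_assoc, a2, one_mul]
    have hcv : MulAut.conj v (a * v) = (a * v)⁻¹ := by
      simp [mul_assoc, ainv, vinv, v2]
    rcases Nat.even_or_odd (orderOf (a * v)) with ⟨m, hm⟩ | ⟨m, hm⟩
    · right
      have hpos : 0 < orderOf (a * v) := orderOf_pos _
      have hw2 : ((a * v) ^ m) ^ 2 = 1 := by
        rw [← pow_mul, mul_two, ← hm, pow_orderOf_eq_one]
      have hwne : (a * v) ^ m ≠ 1 := fun e => by
        have := Nat.le_of_dvd (by omega) (orderOf_dvd_of_pow_eq_one e)
        omega
      have hwi : ((a * v) ^ m)⁻¹ = (a * v) ^ m :=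
        inv_eq_of_mul_eq_one_left (by rwa [pow_two] at hw2)
      refine ⟨(a * v) ^ m, orderOf_eq_prime hw2 hwne, ?_, ?_⟩
      all_goals
        first
          | (have := map_pow (MulAut.conj a) (a * v) m
             rw [hca, inv_pow, MulAut.conj_apply, hwi] at this
             exact (mul_inv_eq_iff_eq_mul.mp this).symm)
          | (have := map_pow (MulAut.conj v) (a * v) m
             rw [hcv, inv_pow, MulAut.conj_apply, hwi] at this
             exact (mul_inv_eq_iff_eq_mul.mp this).symm)
    · left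
      refine isConj_iff.mpr ⟨(a * v) ^ m, ?_⟩
      have h1 : a * (a * v) ^ m * a⁻¹ = ((a * v) ^ m)⁻¹ := by
        have := map_pow (MulAut.conj a) (a * v) m
        rwa [hca, inv_pow, MulAut.conj_apply] at this
      have h2 : (a * v) ^ m * (a * v) ^ m = (a * v)⁻¹ :=
        eq_inv_of_mul_eq_one_left (by
          rw [← pow_add, ← pow_succ, show m + m + 1 = orderOf (a * v) by omega, pow_orderOf_eq_one])
      calc (a * v) ^ m * a * ((a * v) ^ m)⁻¹ = (a * v) ^ m * a * (a * (a * v) ^ m * a⁻¹) := by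
            rw [h1]
        _ = (a * v) ^ m * (a * a) * (a * v) ^ m * a⁻¹ := by group
        _ = (a * v)⁻¹ * a⁻¹ := by rw [a2, mul_one, h2]
        _ = v⁻¹ * (a⁻¹ * a⁻¹) := by group
        _ = v := by rw [ainv, a2, vinv, mul_one]
  -- a non-fused involution of the normaliser
  obtain ⟨b, hb, hb2, hbk⟩ : ∃ b, b < 192 ∧ 2 ≤ cls b ∧ cls b ≠ k + 2 := by
    rcases (show k = 0 ∨ k ≠ 0 by omega) with h | h
    · exact ⟨eK 1, (k_facts (by norm_num)).1, by rw [(k_facts (k := 1) (by norm_num)).2.1]; omega,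
        by rw [(k_facts (k := 1) (by norm_num)).2.1]; omega⟩
    · exact ⟨eK 0, (k_facts (by norm_num)).1, by rw [(k_facts (k := 0) (by norm_num)).2.1],
        by rw [(k_facts (k := 0) (by norm_num)).2.1]; omega⟩
  have hbnc : ¬ IsConj s (F.ι b) := fun hc => by
    have := A.sType_mem hone hb hc
    simp only [inE, Bool.or_eq_true] at this
    rcases this with (h | h) | h
    · rw [Nat.eq_of_beq_eq_true h, show cls 0 = 0 by decide +kernel] at hb2
      omega
    · have := Nat.eq_of_beq_eq_true h; omega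
    · exact hbk (Nat.eq_of_beq_eq_true h)
  have hbo : orderOf (F.ι b) = 2 := (F.orderOf_two hb).mpr (by omega)
  have hbN : F.ι b ∈ N := F.centralizer_le_normalizer hk (F.mem_centralizer.mpr ⟨b, hb, rfl⟩)
  have via : ∀ a v : G, orderOf a = 2 → a ∈ N → orderOf v = 2 → ¬ IsConj a v → v ∈ N := by
    intro a v ha haN hv hne
    obtain ⟨w, hw, hwa, hwv⟩ := (split a v ha hv).resolve_left hne
    have hwN : w ∈ N := A.centralizer_le hone ha haN (Subgroup.mem_centralizer_singleton_iff.mpr
      (by first | exact hwa | exact hwa.symm))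
    exact A.centralizer_le hone hw hwN (Subgroup.mem_centralizer_singleton_iff.mpr
      (by first | exact hwv.symm | exact hwv))
  have allN : ∀ v : G, orderOf v = 2 → v ∈ N := by
    intro v hv
    by_cases hc : IsConj s v
    · exact via (F.ι b) v hbo hbN hv (fun h => hbnc (hc.trans h.symm))
    · exact via s v F.orderOf_s hsN hv hc
  refine ⟨fun x hx g => ?_⟩
  obtain ⟨a, ha, hA, rfl⟩ := hx
  by_cases ha0 : a = 0
  · rw [ha0, F.map_zero, mul_one, mul_inv_cancel]; exact one_mem _
  obtain ⟨n, -, hne⟩ := A.reach ha hA ha0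
  have hcv : IsConj s (g * F.ι a * g⁻¹) := isConj_iff.mpr ⟨g * n, by rw [← hne]; group⟩
  have hvo : orderOf (g * F.ι a * g⁻¹) = 2 := by
    obtain ⟨c, hc⟩ := isConj_iff.mp hcv
    rw [← hc]; exact ((MulAut.conj c).orderOf_eq s).trans F.orderOf_s
  -- it fixes an element of the subgroup
  have hvN := allN _ hvo
  classical
  obtain ⟨e, he, he1, hev⟩ : ∃ e ∈ F.elemK k hk, e ≠ 1 ∧
      g * F.ι a * g⁻¹ * e = e * (g * F.ι a * g⁻¹) := by
    by_contra hcon
    push Not at hcon
    haveI : Fintype (F.elemK k hk) := Fintype.ofFinite _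
    set w := g * F.ι a * g⁻¹ with hwdef
    have hw2 : w * w = 1 := by have := pow_orderOf_eq_one w; rwa [hvo, pow_two] at this
    let f : Function.End (F.elemK k hk) :=
      fun x => ⟨w * x * w⁻¹, (Subgroup.mem_normalizer_iff.mp hvN _).mp x.2⟩
    have hf2 : f ^ 2 = 1 := by
      rw [pow_two]
      funext x
      apply Subtype.ext
      show w * (w * x * w⁻¹) * w⁻¹ = x
      calc _ = (w * w) * x * (w * w)⁻¹ := by group
        _ = _ := by rw [hw2]; group
    haveI := Fact.mk Nat.prime_two
    have hmod : Fintype.card (F.elemK k hk) % 2 = (Function.fixedPoints f).ncard % 2 := by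
      have h := Equiv.Perm.card_fixedPoints_modEq (f := f) (p := 2) (n := 1) (by
        rw [pow_one]; exact hf2)
      rw [← Nat.card_coe_set_eq, Nat.card_eq_fintype_card]
      exact h
    have hfix : Function.fixedPoints f = {1} := by
      ext x
      simp only [Set.mem_singleton_iff]
      constructor
      · intro hx
        by_contra h1
        exact hcon x x.2 (fun e => h1 (Subtype.ext e))
          (mul_inv_eq_iff_eq_mul.mp (congrArg Subtype.val hx))
      · rintro rfl
        exact Subtype.ext (by show w * 1 * w⁻¹ = 1; group)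
    rw [hfix, Set.ncard_singleton, ← Nat.card_eq_fintype_card, F.card_elemK hk] at hmod
    omega
  exact A.closed hone he he1 hcv hev

end Amalgam

end Cfsg.Agent.H80.Alt
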