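import Cfsg.Agent.H80.Alt.Relators
import Cfsg.Agent.H80.Alt.NormalCase

/-! Two fused classes give generators satisfying the relators of the large enumeration. -/

set_option autoImplicit false
set_option maxRecDepth 8000
set_option maxHeartbeats 1000000

namespace Cfsg.Agent.H80.Alt

open Cfsg.Agent.H16 Cfsg.Agent.H68.J1
open Cfsg.Agent.H68.J1.Cert (ev)

/-- action of `m * y` on the elementary subgroup -/
noncomputable def qmap (k i m x : Nat) : Nat := conj m (phi k i x)

theorem cube_chk : (allL (fun x => imp (inE 0 x)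
      (Nat.beq (qmap 0 caseA cubeA.1 (qmap 0 caseA cubeA.1 (qmap 0 caseA cubeA.1 x))) x &&
        imp (Nat.beq (qmap 0 caseA cubeA.1 x) x) (Nat.beq x 0 || Nat.beq x cubeA.2))) &&
    allL (fun x => imp (inE 1 x)
      (Nat.beq (qmap 1 caseB cubeB.1 (qmap 1 caseB cubeB.1 (qmap 1 caseB cubeB.1 x))) x &&
        imp (Nat.beq (qmap 1 caseB cubeB.1 x) x) (Nat.beq x 0 || Nat.beq x cubeB.2))) &&
    Nat.ble (Nat.succ cubeA.1) 192 && Nat.ble (Nat.succ cubeA.2) 192 &&
    Nat.ble (Nat.succ cubeB.1) 192 && Nat.ble (Nat.succ cubeB.2) 192 &&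
    !Nat.beq cubeA.2 0 && !Nat.beq cubeB.2 0 &&
    Nat.beq (bCases.getD goodCert 0) caseB && Nat.ble (Nat.succ gA) 192 &&
    Nat.ble (Nat.succ gB) 192) = true := by
  decide +kernel

theorem lookup_chk : allFrom (fun j => imp (goodB 0 caseA j) (anyB 11 fun i =>
    Nat.beq (bCases.getD i 0) j)) 16 0 = true := by
  decide +kernel

theorem lookup_cube_chk : (Nat.beq (bCases.getD 1 0) caseB && Nat.beq (bCases.getD 2 0) caseB &&
    Nat.beq (bCases.getD 3 0) caseB && Nat.beq (bCases.getD 4 0) caseB) = true := by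
  decide +kernel

namespace Amalgam

variable {G : Type*} [Group G] {s : G} {F : Frame s} {k i : Nat} {y : G}

/-- The cube of an element of order three modulo the elementary subgroup. -/
theorem cube_mem (A : Amalgam F k i y) {m fx : Nat} (hm : m < 192)
    (hq : ∀ x, x < 192 → inE k x = true → qmap k i m (qmap k i m (qmap k i m x)) = x ∧
      (qmap k i m x = x → x = 0 ∨ x = fx)) :
    F.ι m * y * (F.ι m * y) * (F.ι m * y) = 1 ∨
      F.ι m * y * (F.ι m * y) * (F.ι m * y) = F.ι fx := by
  have hk := A.k_lt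
  set w := F.ι m * y with hw
  have act : ∀ x, x < 192 → inE k x = true → w * F.ι x * w⁻¹ = F.ι (qmap k i m x) ∧
      qmap k i m x < 192 ∧ inE k (qmap k i m x) = true := by
    intro x hx hE
    have hT := (E_facts hk hx hE).2.1
    obtain ⟨h1, -, h3, -⟩ := phi_facts hk A.i_lt hx hT
    refine ⟨?_, conj_lt hm h1, (E_facts hk h1 (h3 hE)).2.2.1 m hm⟩
    rw [qmap, F.map_conj hm h1, ← A.y_T x hx hT, hw]
    group
  have hfix : ∀ x, x < 192 → inE k x = true →
      w * w * w * F.ι x = F.ι x * (w * w * w) := by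
    intro x hx hE
    obtain ⟨e1, l1, E1⟩ := act x hx hE
    obtain ⟨e2, l2, E2⟩ := act _ l1 E1
    obtain ⟨e3, -, -⟩ := act _ l2 E2
    refine mul_inv_eq_iff_eq_mul.mp ?_
    calc w * w * w * F.ι x * (w * w * w)⁻¹ = w * (w * (w * F.ι x * w⁻¹) * w⁻¹) * w⁻¹ := by group
      _ = _ := by rw [e1, e2, e3, (hq x hx hE).1]
  have hsE : inE k sI = true := ((F.mem_elemK hk sI_lt).mp (by
    rw [F.map_s]; exact F.s_mem_elemK hk))
  obtain ⟨d, hd, hde⟩ := F.surj (w * w * w) (by
    have := hfix sI sI_lt hsE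
    rwa [F.map_s] at this)
  have hdE : inE k d = true := by
    have h := allFrom_spec E_chk k (Nat.zero_le k) (by omega)
    simp only [Bool.and_eq_true] at h
    refine imp_spec (allL_spec h.1.2 hd) (allFrom_of_forall fun x _ hx => ?_)
    cases hE : inE k x with
    | false => rfl
    | true => exact (F.commB_iff hd (by omega)).mpr (by rw [hde]; exact hfix x (by omega) hE)
  obtain ⟨e1, l1, -⟩ := act d hd hdE
  have hqd : qmap k i m d = d := F.inj _ _ l1 hd (by rw [← e1, hde]; group)
  rcases (hq d hd hdE).2 hqd with h | h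
  · left; rw [← hde, h, F.map_zero]
  · right; rw [← hde, h]

/-- Generators satisfying the relators of the large enumeration. -/
theorem exists_generators [Finite G] {j : Nat} {z : G} (A : Amalgam F 0 caseA y)
    (B : Amalgam F 1 j z) (hyz : y * z = z * y) :
    ∃ f : Nat → G, (∀ l, f (H68.J1.inv l) = (f l)⁻¹) ∧
      (∀ k, k < (relWords goodCert).length → ev f ((relWords goodCert).getD k [9]) = 1) ∧
      Subgroup.centralizer ({s} : Set G) ≤ Subgroup.closure {x | ∃ l < 8, f l = x} ∧
      f 0 = F.ι gA ∧ f 2 = F.ι gB := by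
  classical
  have hg := good (p := 0) (by norm_num) A B
  have hc := cube_chk
  simp only [Bool.and_eq_true, Bool.not_eq_true'] at hc
  obtain ⟨⟨⟨⟨⟨⟨⟨⟨⟨⟨hqA, hqB⟩, hA1⟩, hA2⟩, hB1⟩, hB2⟩, hA0⟩, hB0⟩, -⟩, hgA⟩, hgB⟩ := hc
  have gAlt : gA < 192 := Nat.le_of_ble_eq_true hgA
  have gBlt : gB < 192 := Nat.le_of_ble_eq_true hgB
  set f := lett (F.ι gA) (F.ι gB) y z with hfdef
  have hf : ∀ l, f (H68.J1.inv l) = (f l)⁻¹ := lett_inv _ _ y z
  have hl : ∀ {x : Nat}, x < 192 → ev f (wd x) = F.ι x := fun hx => ev_wd hx y z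
  have e1 : ∀ l, ev f [l] = f l := fun l => mul_one _
  have conjEv : ∀ (Y k i : Nat) (v : G), f Y = v → f (Y + 1) = v⁻¹ → Amalgam F k i v →
      ∀ x, x < 192 → inT k x = true → ev f (conjRel Y k i x) = 1 := by
    intro Y k i v hY hY' V x hx hT
    have hlt := (phi_facts V.k_lt V.i_lt hx hT).1
    rw [conjRel, H68.J1.Cert.ev_append, H68.J1.Cert.ev_append, H68.J1.Cert.ev_append, e1, hl hx,
      e1, ev_invW f hf, hl hlt, hY, hY', ← V.y_T x hx hT]
    group
  have swapEv : ∀ (Y k i : Nat) (v : G), f Y = v → Amalgam F k i v →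
      ev f (swapRel Y k i) = 1 := by
    intro Y k i v hY V
    obtain ⟨-, -, -, -, hhh, -⟩ := k_facts V.k_lt
    have htl : tK k i < 192 := by
      have hT := (T_facts V.k_lt).1
      exact (phi_facts V.k_lt V.i_lt (gens_lt V.k_lt).1 hT).2.2.2.1
    rw [swapRel, H68.J1.Cert.ev_append, H68.J1.Cert.ev_append, H68.J1.Cert.ev_append,
      H68.J1.Cert.ev_append, e1, hl hhh, ev_invW f hf, hl htl, hY, ← V.y_hh]
    group
  obtain ⟨X0, Y0, Z0, -⟩ := T_facts (k := 0) (by norm_num)
  obtain ⟨X1, Y1, Z1, -⟩ := T_facts (k := 1) (by norm_num)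
  obtain ⟨lX0, lY0, lZ0⟩ := gens_lt (k := 0) (by norm_num)
  obtain ⟨lX1, lY1, lZ1⟩ := gens_lt (k := 1) (by norm_num)
  have hsh := base_shape_chk
  simp only [Bool.and_eq_true] at hsh
  obtain ⟨⟨⟨-, hlen⟩, hwords⟩, -⟩ := hsh
  have hlen' : lRels.length = 5 := Nat.eq_of_beq_eq_true hlen
  have hbase : ∀ k, k < 16 → ev f ((baseRels j).getD k [9]) = 1 := by
    intro k hk
    rcases (show k < 5 ∨ 5 ≤ k by omega) with h | h
    · rw [baseRels, List.getD_eq_getElem _ _ (by rw [List.length_append, hlen']; omega),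
        List.getElem_append_left (by omega), ← List.getD_eq_getElem _ [] (by omega)]
      have hw := allFrom_spec hwords k (Nat.zero_le k) (by omega)
      simp only [Bool.and_eq_true] at hw
      rw [(ev_small _ hw.2.1).2, List.cons.inj (natListEq_eq hw.2.2) |>.1, F.map_zero]
    · obtain ⟨k, rfl⟩ := Nat.exists_eq_add_of_le h
      rw [baseRels, List.getD_append_right _ _ _ _ (by omega), hlen',
        Nat.add_sub_cancel_left]
      have hk11 : k < 11 := by omega
      interval_cases k
      · show y * (y * (y * 1)) = 1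
        rw [mul_one, ← mul_assoc, A.yy']
      · show z * (z * (z * 1)) = 1
        rw [mul_one, ← mul_assoc, B.yy']
      · show y * (z * (y⁻¹ * (z⁻¹ * 1))) = 1
        rw [← mul_assoc, hyz]
        group
      · exact conjEv 4 0 caseA y rfl rfl A _ lX0 X0
      · exact conjEv 4 0 caseA y rfl rfl A _ lY0 Y0
      · exact conjEv 4 0 caseA y rfl rfl A _ lZ0 Z0
      · exact conjEv 6 1 j z rfl rfl B _ lX1 X1
      · exact conjEv 6 1 j z rfl rfl B _ lY1 Y1
      · exact conjEv 6 1 j z rfl rfl B _ lZ1 Z1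
      · exact swapEv 4 0 caseA y rfl A
      · exact swapEv 6 1 j z rfl B
  have hblen : (baseRels j).length = 16 := by
    rw [baseRels, List.length_append, hlen']; rfl
  -- find the matching certificate
  obtain ⟨i, hi, hij, hrels⟩ : ∃ i, i < 11 ∧ bCases.getD i 0 = j ∧
      ∀ k, k < (relWords i).length → ev f ((relWords i).getD k [9]) = 1 := by
    by_cases hjB : j = caseB
    · subst hjB
      have cubeEv : ∀ (Y m fx : Nat) (v : G), f Y = v → m < 192 → fx < 192 →
          F.ι m * v * (F.ι m * v) * (F.ι m * v) = F.ι fx →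
          ev f (cubeRel Y m fx) = 1 := by
        intro Y m fx v hY hm hfx he
        rw [cubeRel, H68.J1.Cert.ev_append, H68.J1.Cert.ev_append, H68.J1.Cert.ev_append,
          H68.J1.Cert.ev_append, hl hm, e1, hY, ev_invW f hf, he]
        by_cases h0 : fx = 0
        · rw [if_pos h0, h0, F.map_zero]
          show (1 : G) * 1⁻¹ = 1
          group
        · rw [if_neg h0, hl hfx, mul_inv_cancel]
      have hlA := Nat.le_of_ble_eq_true hA2
      have hlB := Nat.le_of_ble_eq_true hB2
      obtain ⟨xa, hxa, hxe, hxlt⟩ : ∃ xa, (xa = 0 ∨ xa = cubeA.2) ∧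
          F.ι cubeA.1 * y * (F.ι cubeA.1 * y) * (F.ι cubeA.1 * y) = F.ι xa ∧ xa < 192 := by
        rcases A.cube_mem (fx := cubeA.2) (Nat.le_of_ble_eq_true hA1) (fun x hx hE => by
          have := imp_spec (allL_spec hqA hx) hE
          rw [Bool.and_eq_true] at this
          refine ⟨Nat.eq_of_beq_eq_true this.1, fun e => ?_⟩
          have := imp_spec this.2 (beq_true e)
          rw [Bool.or_eq_true] at this
          exact this.imp Nat.eq_of_beq_eq_true Nat.eq_of_beq_eq_true) with h | h
        · exact ⟨0, Or.inl rfl, by rw [h, F.map_zero], by norm_num⟩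
        · exact ⟨_, Or.inr rfl, h, hlA⟩
      obtain ⟨xb, hxb, hxbe, hxblt⟩ : ∃ xb, (xb = 0 ∨ xb = cubeB.2) ∧
          F.ι cubeB.1 * z * (F.ι cubeB.1 * z) * (F.ι cubeB.1 * z) = F.ι xb ∧ xb < 192 := by
        rcases B.cube_mem (fx := cubeB.2) (Nat.le_of_ble_eq_true hB1) (fun x hx hE => by
          have := imp_spec (allL_spec hqB hx) hE
          rw [Bool.and_eq_true] at this
          refine ⟨Nat.eq_of_beq_eq_true this.1, fun e => ?_⟩
          have := imp_spec this.2 (beq_true e)
          rw [Bool.or_eq_true] at this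
          exact this.imp Nat.eq_of_beq_eq_true Nat.eq_of_beq_eq_true) with h | h
        · exact ⟨0, Or.inl rfl, by rw [h, F.map_zero], by norm_num⟩
        · exact ⟨_, Or.inr rfl, h, hlB⟩
      obtain ⟨i, hi1, hi4, hia, hib⟩ : ∃ i, 1 ≤ i ∧ i ≤ 4 ∧ (if i ≤ 2 then 0 else cubeA.2) = xa ∧
          (if i % 2 = 1 then 0 else cubeB.2) = xb := by
        rcases hxa with rfl | rfl <;> rcases hxb with rfl | rfl
        · exact ⟨1, le_rfl, by norm_num, rfl, rfl⟩
        · exact ⟨2, by norm_num, by norm_num, rfl, rfl⟩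
        · exact ⟨3, by norm_num, by norm_num, rfl, rfl⟩
        · exact ⟨4, by norm_num, by norm_num, rfl, rfl⟩
      have hij : bCases.getD i 0 = caseB := by
        have h := lookup_cube_chk
        simp only [Bool.and_eq_true] at h
        interval_cases i
        · exact Nat.eq_of_beq_eq_true h.1.1.1
        · exact Nat.eq_of_beq_eq_true h.1.1.2
        · exact Nat.eq_of_beq_eq_true h.1.2
        · exact Nat.eq_of_beq_eq_true h.2
      refine ⟨i, by omega, hij, fun k hk => ?_⟩
      rw [relWords, hij, if_pos rfl, List.length_append, hblen] at hk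
      rw [relWords, hij, if_pos rfl, hia, hib]
      rcases Nat.lt_or_ge k 16 with h | h
      · rw [List.getD_append _ _ _ _ (by omega)]; exact hbase k h
      · rw [List.getD_append_right _ _ _ _ (by omega), hblen]
        rcases (show k = 16 ∨ k = 17 by simp at hk; omega) with rfl | rfl
        · exact cubeEv 4 _ xa y rfl (Nat.le_of_ble_eq_true hA1) hxlt hxe
        · exact cubeEv 6 _ xb z rfl (Nat.le_of_ble_eq_true hB1) hxblt hxbe
    · obtain ⟨i, hi, hij⟩ := anyB_spec (imp_spec (allFrom_spec lookup_chk j (Nat.zero_le j)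
        (by have := B.i_lt; omega)) hg)
      have hij' : bCases.getD i 0 = j := Nat.eq_of_beq_eq_true hij
      refine ⟨i, hi, hij', fun k hk => ?_⟩
      rw [relWords, hij', if_neg hjB, List.append_nil] at hk ⊢
      exact hbase k (hblen ▸ hk)
  set H := Subgroup.closure {x | ∃ l < 8, f l = x}
  have hmem : ∀ l, l < 8 → f l ∈ H := fun l hl => Subgroup.subset_closure ⟨l, hl, rfl⟩
  have hevmem : ∀ w : List Nat, ev f w ∈ H := by
    intro w
    induction w with
    | nil => exact H.one_mem
    | cons l w ih =>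
      refine H.mul_mem ?_ ih
      match l with
      | 0 => exact hmem 0 (by norm_num)
      | 1 => exact hmem 1 (by norm_num)
      | 2 => exact hmem 2 (by norm_num)
      | 3 => exact hmem 3 (by norm_num)
      | 4 => exact hmem 4 (by norm_num)
      | 5 => exact hmem 5 (by norm_num)
      | 6 => exact hmem 6 (by norm_num)
      | 7 => exact hmem 7 (by norm_num)
      | n + 8 => exact H.one_mem
  have hLH : Subgroup.centralizer ({s} : Set G) ≤ H := by
    intro x hx
    obtain ⟨d, hd, rfl⟩ := F.mem_centralizer.mp hx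
    exact hl hd ▸ hevmem _
  have hgood : i = goodCert := by
    by_contra hne
    have hcard := card_le_of_relations f hf hi hrels
    rw [if_neg hne, one_mul] at hcard
    have hCL : Subgroup.closure ({f 0, f 2} : Set G) ≤ Subgroup.centralizer ({s} : Set G) := by
      rw [Subgroup.closure_le]
      rintro w (rfl | rfl)
      · exact F.mem_centralizer.mpr ⟨gA, gAlt, rfl⟩
      · exact F.mem_centralizer.mpr ⟨gB, gBlt, rfl⟩
    have hle : Subgroup.closure ({f 0, f 2} : Set G) ≤ H := by
      rw [Subgroup.closure_le]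
      rintro w (rfl | rfl) <;> exact hmem _ (by norm_num)
    have heq := Subgroup.eq_of_le_of_card_ge hle hcard
    have hy : y ∈ Subgroup.centralizer ({s} : Set G) := hCL (heq ▸ hmem 4 (by norm_num))
    obtain ⟨he, hce, -⟩ := k_facts (k := 0) (by norm_num)
    have hys := A.y_s
    obtain ⟨d, hd, rfl⟩ := F.mem_centralizer.mp hy
    rw [F.comm_s hd, mul_inv_cancel_right] at hys
    have := F.inj _ _ sI_lt he (F.map_s.trans hys)
    rw [← this, show cls sI = 1 by decide +kernel] at hce
    omega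
  subst hgood
  exact ⟨f, hf, hrels, hLH, rfl, rfl⟩

end Amalgam

end Cfsg.Agent.H80.Alt
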