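import Cfsg.Agent.H80.Alt.Model

/-! The involution centralizer of the alternating group of eight letters is the table group. -/

set_option autoImplicit false
set_option maxRecDepth 20000
set_option maxHeartbeats 1000000

namespace Cfsg.Agent.H80.Alt

open Cfsg.Agent.H16 Cfsg.Agent.H68.J1
open Cfsg.Agent.H68.J1.Cert (ev)

theorem model_step_chk : (sameWord (wd 0) [] &&
    allFrom (fun l => allL fun a => Nat.ble (Nat.succ (letVal l)) 192 &&
      sameWord (wd (mul (letVal l) a)) (l :: wd a)) 4 0) = true := by
  decide +kernel

theorem zero_mul_chk : allL (fun b => Nat.beq (mul 0 b) b && Nat.beq (mul b 0) b) = true := by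
  decide +kernel

theorem model_kernel_chk : allL (fun a => Nat.beq a 0 || !sameWord (wd a) []) = true := by
  decide +kernel

theorem inv_zero_chk : allL (fun a => allL fun b =>
    imp (Nat.beq (mul a (inv b)) 0) (Nat.beq a b)) = true := by
  decide +kernel

/-- code of the conjugate of the involution by a word -/
noncomputable def conjCode (w : List Nat) : Nat :=
  ((List.range 8).map fun i => (evFun (w ++ wd sI ++ invW w) (Fin.ofNat 8 i)).val).foldl
    (fun acc x => 8 * acc + x) 0

theorem conjWords_chk : (conjWords.all fun w => lettersBelow 8 (w ++ wd sI ++ invW w)) = true ∧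
    conjWords.length = 105 ∧ (conjWords.map conjCode).Nodup := by
  refine ⟨?_, ?_, ?_⟩ <;> decide +kernel

theorem sameWord_of_eq {u v : List Nat} (hu : lettersBelow 8 u = true)
    (hv : lettersBelow 8 v = true) (h : ev modelLet u = ev modelLet v) : sameWord u v = true := by
  have he : ∀ x, evFun u x = evFun v x := fun x => by
    rw [← ev_apply u (lettersBelow_mem hu), ← ev_apply v (lettersBelow_mem hv), h]
  simp only [sameWord, hu, hv, he, Bool.true_and]
  generalize ((List.range 8).map fun i => (evFun v (Fin.ofNat 8 i)).val) = L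
  induction L with
  | nil => rfl
  | cons a L ih => show (Nat.beq a a && natListEq L L) = true; rw [Nat.beq_refl, ih]; rfl

/-- The centralizer of the model involution is the table group. -/
theorem exists_model_frame :
    ∃ F : Frame (ev modelLet (wd sI)), ∀ a, a < 192 → F.ι a = ev modelLet (wd a) := by
  let ι : Nat → A8 := fun a => ev modelLet (wd a)
  have hlet8 : ∀ a, a < 192 → lettersBelow 8 (wd a) = true := by
    have : allL (fun a => lettersBelow 8 (wd a)) = true := by decide +kernel
    exact fun a ha => allL_spec this ha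
  have hc := model_step_chk
  rw [Bool.and_eq_true] at hc
  have hz : ∀ b, b < 192 → mul 0 b = b ∧ mul b 0 = b := fun b hb => by
    have := allL_spec zero_mul_chk hb
    rw [Bool.and_eq_true] at this
    exact ⟨Nat.eq_of_beq_eq_true this.1, Nat.eq_of_beq_eq_true this.2⟩
  have h0 : ι 0 = 1 := sameWord_spec hc.1
  have hword : ∀ w : List Nat, (∀ l ∈ w, l < 4) → evL w < 192 ∧
      ∀ b, b < 192 → ι (mul (evL w) b) = ev modelLet w * ι b := by
    intro w
    induction w with
    | nil =>
      intro _
      exact ⟨Nat.zero_lt_succ _, fun b hb => by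
        show ι (mul 0 b) = 1 * ι b
        rw [(hz b hb).1, one_mul]⟩
    | cons l w ih =>
      intro h
      have hl : l < 4 := h l (List.mem_cons_self ..)
      obtain ⟨i1, i2⟩ := ih fun m hm => h m (List.mem_cons_of_mem _ hm)
      have hstep : ∀ a, a < 192 → letVal l < 192 ∧
          ι (mul (letVal l) a) = modelLet l * ι a := by
        intro a ha
        have := allL_spec (allFrom_spec hc.2 l (Nat.zero_le l) (by omega)) ha
        rw [Bool.and_eq_true] at this
        exact ⟨Nat.le_of_ble_eq_true this.1, sameWord_spec this.2⟩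
      have hev : evL (l :: w) = mul (letVal l) (evL w) := rfl
      refine ⟨hev ▸ mul_lt (hstep 0 (by norm_num)).1 i1, fun b hb => ?_⟩
      show ι (mul (evL (l :: w)) b) = modelLet l * ev modelLet w * ι b
      rw [hev, ← Nat.eq_of_beq_eq_true (allL_spec (allL_spec (allFrom_spec letter_assoc_chk l
          (Nat.zero_le l) (by omega)) i1) hb), (hstep _ (mul_lt i1 hb)).2, i2 b hb, mul_assoc]
  have hmul : ∀ a b, a < 192 → b < 192 → ι (mul a b) = ι a * ι b := by
    intro a b ha hb
    have h := allL_spec letters_chk ha
    rw [Bool.and_eq_true] at h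
    have h2 := (hword _ (lettersBelow_mem h.1)).2 b hb
    rwa [Nat.eq_of_beq_eq_true h.2] at h2
  have hinj : ∀ a b, a < 192 → b < 192 → ι a = ι b → a = b := by
    intro a b ha hb h
    have hb' := inv_lt hb
    have h1 : ι (mul a (inv b)) = 1 := by
      rw [hmul a _ ha hb', h, ← hmul b _ hb hb', (inv_facts hb).2.1, h0]
    have h2 := allL_spec model_kernel_chk (mul_lt ha hb')
    rw [Bool.or_eq_true] at h2
    rcases h2 with h2 | h2
    · exact Nat.eq_of_beq_eq_true (imp_spec (allL_spec (allL_spec inv_zero_chk ha) hb) h2)
    · rw [sameWord_of_eq (v := []) (hlet8 _ (mul_lt ha hb')) rfl h1] at h2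
      exact absurd h2 (by decide)
  set u₀ := ι sI with hu₀
  have hcomm : ∀ a, a < 192 → ι a * u₀ = u₀ * ι a := by
    intro a ha
    rw [hu₀, ← hmul _ _ ha sI_lt, ← hmul _ _ sI_lt ha,
      Nat.eq_of_beq_eq_true (allL_spec central_chk ha)]
  set C := Subgroup.centralizer ({u₀} : Set A8)
  obtain ⟨hl8, hlen, hnd⟩ := conjWords_chk
  have hidx : 105 ≤ C.index := by
    rw [Subgroup.index]
    let q : Fin conjWords.length → A8 ⧸ C := fun i => QuotientGroup.mk (ev modelLet conjWords[i])
    have hq : Function.Injective q := by
      intro i j hij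
      have hm := QuotientGroup.eq.mp hij
      rw [Subgroup.mem_centralizer_singleton_iff] at hm
      set g := ev modelLet conjWords[i]
      set g' := ev modelLet conjWords[j]
      have hm' : g⁻¹ * g' * u₀ = u₀ * (g⁻¹ * g') := by
        first
          | exact hm
          | exact hm.symm
      have heq : g * u₀ * g⁻¹ = g' * u₀ * g'⁻¹ := by
        calc g * u₀ * g⁻¹
            = g * (u₀ * (g⁻¹ * g')) * g'⁻¹ := by group
          _ = g * (g⁻¹ * g' * u₀) * g'⁻¹ := by rw [hm']
          _ = _ := by group
      have hev : ∀ w : List Nat, ev modelLet (w ++ wd sI ++ invW w) =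
          ev modelLet w * u₀ * (ev modelLet w)⁻¹ := fun w => by
        rw [invW, Cert.ev_append, Cert.ev_append, Cert.ev_inv_reverse modelLet modelLet_inv]
      have key : ∀ w ∈ conjWords, ∀ x, evFun (w ++ wd sI ++ invW w) x =
          ((ev modelLet w * u₀ * (ev modelLet w)⁻¹ : A8) : P8) x := fun w hw x => by
        rw [← ev_apply _ (lettersBelow_mem (List.all_eq_true.mp hl8 w hw)), hev]
      have hcode : conjCode conjWords[i] = conjCode conjWords[j] := by
        have he : ∀ x, evFun (conjWords[i] ++ wd sI ++ invW conjWords[i]) x =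
            evFun (conjWords[j] ++ wd sI ++ invW conjWords[j]) x := fun x =>
          (key _ (List.getElem_mem _) x).trans ((congrArg (fun z : A8 => (z : P8) x) heq).trans
            (key _ (List.getElem_mem _) x).symm)
        simp only [conjCode, he]
      have hi : i.val < (conjWords.map conjCode).length := by simp
      have hj : j.val < (conjWords.map conjCode).length := by simp
      exact Fin.ext ((hnd.getElem_inj_iff (hi := hi) (hj := hj)).mp (by simpa using hcode))
    have := Nat.card_le_card_of_injective q hq
    rwa [Nat.card_fin, hlen] at this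
  have h8 : Nat.card A8 = 20160 := by
    rw [nat_card_alternatingGroup, Nat.card_fin]
    rfl
  have hC : Nat.card C ≤ 192 := by
    have h1 := C.card_mul_index
    rw [h8] at h1
    by_contra hlt
    have : 193 * 105 ≤ Nat.card C * C.index := Nat.mul_le_mul (by omega) hidx
    omega
  have hsurj : ∀ x, x * u₀ = u₀ * x → ∃ a, a < 192 ∧ ι a = x := by
    intro x hx
    let q : Fin 192 → C := fun a => ⟨ι a, Subgroup.mem_centralizer_singleton_iff.mpr (by
      first
        | exact hcomm a a.2
        | exact (hcomm a a.2).symm)⟩
    have hqi : Function.Injective q := fun a b h =>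
      Fin.ext (hinj _ _ a.2 b.2 (congrArg Subtype.val h))
    have hqs : Function.Surjective q :=
      ((Nat.bijective_iff_injective_and_card q).mpr ⟨hqi, by
        have := Nat.card_le_card_of_injective q hqi
        rw [Nat.card_fin] at this ⊢
        omega⟩).2
    obtain ⟨a, ha⟩ := hqs ⟨x, Subgroup.mem_centralizer_singleton_iff.mpr (by
      first
        | exact hx
        | exact hx.symm)⟩
    exact ⟨a, a.2, congrArg Subtype.val ha⟩
  exact ⟨⟨ι, hmul, hinj, hsurj, rfl⟩, fun a _ => rfl⟩

/-- The centre of the table group. -/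
theorem centre_chk : allL (fun a => Nat.beq a 0 || Nat.beq a sI ||
    anyL (fun b => !commB a b)) = true := by
  decide +kernel

/-- A frame is carried by an isomorphism of centralizers. -/
theorem exists_frame_of_iso {X G : Type*} [Group X] [Group G] {u : X} (F : Frame u) {t : G}
    (ht : orderOf t = 2)
    (e : ↥(Subgroup.centralizer ({t} : Set G)) ≃* ↥(Subgroup.centralizer ({u} : Set X))) :
    Nonempty (Frame t) := by
  classical
  have hmem : ∀ a, a < 192 → F.ι a ∈ Subgroup.centralizer ({u} : Set X) := fun a ha =>
    F.mem_centralizer.mpr ⟨a, ha, rfl⟩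
  let tt : ↥(Subgroup.centralizer ({t} : Set G)) :=
    ⟨t, Subgroup.mem_centralizer_singleton_iff.mpr rfl⟩
  obtain ⟨a, ha, hae⟩ := F.mem_centralizer.mp (e tt).2
  have htc : ∀ z : ↥(Subgroup.centralizer ({t} : Set G)), tt * z = z * tt := fun z => by
    apply Subtype.ext
    have := Subgroup.mem_centralizer_singleton_iff.mp z.2
    first
      | exact this
      | exact this.symm
  have haS : a = sI := by
    have h := allL_spec centre_chk ha
    simp only [Bool.or_eq_true] at h
    rcases h with (h | h) | h
    · exfalso
      rw [Nat.eq_of_beq_eq_true h, F.map_zero] at hae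
      have : tt = 1 := e.injective (by rw [map_one]; exact Subtype.ext hae.symm)
      have : t = 1 := congrArg Subtype.val this
      rw [this, orderOf_one] at ht
      omega
    · exact Nat.eq_of_beq_eq_true h
    · exfalso
      obtain ⟨b, hb, hb'⟩ := anyL_spec h
      rw [Bool.not_eq_true'] at hb'
      have hc := congrArg e (htc (e.symm ⟨F.ι b, hmem b hb⟩))
      rw [map_mul, map_mul, e.apply_symm_apply] at hc
      have hc' := congrArg Subtype.val hc
      simp only [Subgroup.coe_mul] at hc'
      rw [← hae] at hc'
      rw [(F.commB_iff ha hb).mpr hc'] at hb'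
      exact absurd hb' (by simp)
  subst haS
  let ι : Nat → G := fun a =>
    if h : a < 192 then ((e.symm ⟨F.ι a, hmem a h⟩ : ↥(Subgroup.centralizer ({t} : Set G))) : G)
    else 1
  refine ⟨⟨ι, fun a b ha hb => ?_, fun a b ha hb h => ?_, fun x hx => ?_, ?_⟩⟩
  · simp only [ι, dif_pos ha, dif_pos hb, dif_pos (mul_lt ha hb)]
    rw [← Subgroup.coe_mul, ← map_mul]
    congr 2
    exact Subtype.ext (F.map_mul a b ha hb)
  · simp only [ι, dif_pos ha, dif_pos hb] at h
    exact F.inj a b ha hb (congrArg Subtype.val (e.symm.injective (Subtype.ext h)))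
  · let xx : ↥(Subgroup.centralizer ({t} : Set G)) :=
      ⟨x, Subgroup.mem_centralizer_singleton_iff.mpr (by
        first
          | exact hx
          | exact hx.symm)⟩
    obtain ⟨b, hb, hbe⟩ := F.mem_centralizer.mp (e xx).2
    refine ⟨b, hb, ?_⟩
    simp only [ι, dif_pos hb]
    rw [show (⟨F.ι b, hmem b hb⟩ : ↥(Subgroup.centralizer ({u} : Set X))) = e xx from
      Subtype.ext hbe, e.symm_apply_apply]
  · simp only [ι, dif_pos sI_lt]
    rw [show (⟨F.ι sI, hmem sI sI_lt⟩ : ↥(Subgroup.centralizer ({u} : Set X))) = e tt from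
      Subtype.ext hae, e.symm_apply_apply]

/-- A group whose involution centralizer is that of a fixed point free involution has a frame. -/
theorem exists_frame_of_alt {G : Type*} [Group G] {t : G} (ht : orderOf t = 2) {u : A8}
    (hu : (u : P8) = s8)
    (e : ↥(Subgroup.centralizer ({t} : Set G)) ≃* ↥(Subgroup.centralizer ({u} : Set A8))) :
    Nonempty (Frame t) := by
  have hu' : u = ev modelLet (wd sI) :=
    Subtype.ext (hu.trans (ev_eq_of s8_chk.1.1 s8_chk.1.2).symm)
  subst hu'
  exact exists_frame_of_iso exists_model_frame.choose ht e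

end Cfsg.Agent.H80.Alt
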