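import Cfsg.Agent.H53.RudvalisLinear
import Cfsg.Agent.H54.RankFour.Quotients

/-!
The quotient by a self-centralizing normal elementary subgroup of order eight whose involutions
are one class with centralizers of order 192.
-/

set_option autoImplicit false

namespace Cfsg.Agent.H80.Alt

theorem card_conj_mul {G : Type*} [Group G] [Finite G] (x : G) :
    Nat.card {g : G // IsConj x g} * Nat.card (Subgroup.centralizer ({x} : Set G)) = Nat.card G := by
  have h : Nat.card (MulAction.stabilizer (ConjAct G) x) = Nat.card (Subgroup.centralizer {x}) := by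
    rw [ConjAct.stabilizer_eq_centralizer]; rfl
  have h2 : Nat.card {g : G // IsConj x g} = Nat.card (MulAction.orbit (ConjAct G) x) :=
    Nat.card_congr (Equiv.subtypeEquivRight fun g => by
      rw [ConjAct.mem_orbit_conjAct, isConj_comm])
  rw [h2, Nat.card_coe_set_eq, ← MulAction.index_stabilizer, ← h, Subgroup.index_mul_card]
  rfl

theorem nonempty_quotient_psl {G : Type*} [Group G] [Finite G] (N : Subgroup G) [hN : N.Normal]
    (hcomm : ∀ a ∈ N, ∀ b ∈ N, a * b = b * a) (hsq : ∀ a ∈ N, a ^ 2 = 1) (h8 : Nat.card N = 8)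
    {s : G} (hs : s ∈ N) (hs1 : s ≠ 1)
    (hL : Nat.card (Subgroup.centralizer ({s} : Set G)) = 192)
    (htr : ∀ a ∈ N, a ≠ 1 → IsConj s a)
    (hself : ∀ x : G, (∀ a ∈ N, x * a = a * x) → x ∈ N) :
    Nonempty (G ⧸ N ≃* Matrix.ProjectiveSpecialLinearGroup (Fin 3) (ZMod 2)) := by
  classical
  have h7 : Nat.card {g : G // IsConj s g} = 7 := by
    have hset : {g : G | IsConj s g} = (N : Set G) \ {1} := by
      ext g
      simp only [Set.mem_ofPred_eq, Set.mem_sdiff, SetLike.mem_coe, Set.mem_singleton_iff]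
      constructor
      · intro hc
        obtain ⟨c, rfl⟩ := isConj_iff.mp hc
        exact ⟨hN.conj_mem s hs c, fun e => hs1 (conj_eq_one_iff.mp e)⟩
      · exact fun h => htr g h.1 h.2
    rw [show Nat.card {g : G // IsConj s g} = Nat.card ({g : G | IsConj s g} : Set G) from rfl,
      hset, Nat.card_coe_set_eq, Set.ncard_sdiff_singleton_of_mem N.one_mem,
      ← Nat.card_coe_set_eq]
    show Nat.card N - 1 = 7
    omega
  have hG : Nat.card G = 1344 := by rw [← card_conj_mul s, h7, hL]
  letI : CommGroup N :=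
    { (inferInstance : Group N) with mul_comm := fun a b => Subtype.ext (hcomm a a.2 b b.2) }
  haveI := Fact.mk Nat.prime_two
  obtain ⟨e⟩ := H53.Rudvalis.nonempty_mulEquiv_GL (D := N) (p := 2) (n := 3)
    (fun v => Subtype.ext (by rw [Subgroup.coe_pow, hsq v v.2]; rfl)) (by rw [h8]; norm_num)
  let ψ : G →* MulAut N := MulAut.conjNormal
  have hker : ψ.ker = N := by
    ext x
    rw [MonoidHom.mem_ker]
    constructor
    · intro hx
      refine hself x fun a ha => mul_inv_eq_iff_eq_mul.mp ?_
      exact congrArg Subtype.val (DFunLike.congr_fun hx (⟨a, ha⟩ : N))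
    · intro hx
      refine MulEquiv.ext fun a => Subtype.ext ?_
      show x * (a : G) * x⁻¹ = a
      rw [hcomm x hx a a.2]
      group
  have hcardQ : Nat.card (G ⧸ N) = 168 := by
    have := Subgroup.card_eq_card_quotient_mul_card_subgroup N
    rw [hG, h8] at this
    omega
  have hcardA : Nat.card (MulAut N) = 168 := by
    rw [Nat.card_congr e.toEquiv, H50.AltEight.gl_three_two.2]
  let φ : G ⧸ N →* MulAut N := QuotientGroup.lift N ψ hker.ge
  have hinj : Function.Injective φ := by
    rw [← MonoidHom.ker_eq_bot_iff, Subgroup.eq_bot_iff_forall]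
    intro q hq
    obtain ⟨x, rfl⟩ := QuotientGroup.mk_surjective q
    rw [QuotientGroup.eq_one_iff, ← hker, MonoidHom.mem_ker]
    exact hq
  haveI : Finite (MulAut N) := Nat.finite_of_card_ne_zero (by rw [hcardA]; norm_num)
  have hbij : Function.Bijective φ :=
    (Nat.bijective_iff_injective_and_card φ).mpr ⟨hinj, hcardQ.trans hcardA.symm⟩
  obtain ⟨f⟩ := H54.RankFour.gl_three_two_psl
  exact ⟨((MulEquiv.ofBijective φ hbij).trans e).trans f⟩

end Cfsg.Agent.H80.Alt
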