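import Cfsg.Agent.H80.Alt.Core
import Cfsg.Agent.H80.Alt.ModelCent
import Cfsg.Agent.H80.Alt.NormalCase
import Cfsg.Agent.H80.Alt.QuotientPSL

/-! Groups in which the centre of a centralizer of this type fuses. -/

set_option autoImplicit false
set_option maxRecDepth 8000

namespace Cfsg.Agent.H80.Alt

open Cfsg.Agent.H16 Cfsg.Agent.H68.J1
open Cfsg.Agent.H68.J1.Cert (ev)

theorem outer_chk : allL (fun a => imp (Nat.beq (cls a) 5 || Nat.beq (cls a) 6)
    (anyL fun h => !Nat.beq (mul a (conj h a)) 0 &&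
      Nat.beq (mul (mul (mul a (conj h a)) (mul a (conj h a))) (mul a (conj h a))) 0)) = true := by
  decide +kernel

theorem cls_t_chk : cls (eK 2) = cls tI := by decide +kernel

namespace Frame

variable {G : Type*} [Group G] {s : G} (F : Frame s)

theorem cls_of_fused {a : Nat} (ha : a < 192) (hc : IsConj s (F.ι a)) : cls a ≠ 0 :=
  (F.orderOf_two ha).mp (by
    obtain ⟨g, hg⟩ := isConj_iff.mp hc
    rw [← hg]; exact ((MulAut.conj g).orderOf_eq s).trans F.orderOf_s)

/-- A conjugate of the centre inside the core belongs to one of the three inner classes. -/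
theorem exists_fused_class {L Q : Subgroup G} (hL : L = Subgroup.centralizer ({s} : Set G))
    (hQ : Q = (Cfsg.pCore 2 L).map L.subtype) (h32 : Nat.card Q = 32) {g : G}
    (hg : g * s * g⁻¹ ∈ Q) (hne : g * s * g⁻¹ ≠ s) : ∃ k, k < 3 ∧ IsConj s (F.ι (eK k)) := by
  obtain ⟨a, ha, hae⟩ := F.mem_centralizer.mp (hL ▸ core_le hQ hg)
  have hc : IsConj s (F.ι a) := isConj_iff.mpr ⟨g, hae.symm⟩
  have h0 := F.cls_of_fused ha hc
  have h1 : cls a ≠ 1 := fun e => hne (by rw [← hae, Frame.eq_sI ha e, F.map_s])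
  have h56 : ¬ (cls a = 5 ∨ cls a = 6) := by
    intro h
    obtain ⟨h', hh', hx⟩ := anyL_spec (imp_spec (allL_spec outer_chk ha)
      (by rcases h with e | e <;> rw [e] <;> rfl))
    simp only [Bool.and_eq_true, Bool.not_eq_true'] at hx
    have hm := mul_lt ha (conj_lt hh' ha)
    have hmem : F.ι (mul a (conj h' a)) ∈ Q := by
      rw [F.map_mul _ _ ha (conj_lt hh' ha), F.map_conj hh' ha]
      rw [← hae] at hg
      exact Q.mul_mem hg (conj_mem_core hQ (hL ▸ F.mem_centralizer.mpr ⟨h', hh', rfl⟩) hg)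
    have h3 : F.ι (mul a (conj h' a)) * F.ι (mul a (conj h' a)) * F.ι (mul a (conj h' a)) = 1 := by
      rw [← F.map_mul _ _ hm hm, ← F.map_mul _ _ (mul_lt hm hm) hm, Nat.eq_of_beq_eq_true hx.2,
        F.map_zero]
    have h4 := eq_one_of_cube h32 hmem h3
    rw [← F.map_zero] at h4
    rw [F.inj _ _ hm (by norm_num) h4] at hx
    simp at hx
  have hle := Frame.cls_le ha
  obtain ⟨he, hce, -⟩ := k_facts (k := cls a - 2) (by omega)
  exact ⟨cls a - 2, by omega, hc.trans (F.isConj_of_cls_eq ha he (by omega) h0)⟩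

include F in
theorem card_centralizer : Nat.card (Subgroup.centralizer ({s} : Set G)) = 192 := by
  refine ((Nat.card_congr (Equiv.ofBijective (fun a : Fin 192 =>
    (⟨F.ι a, F.mem_centralizer.mpr ⟨a, a.2, rfl⟩⟩ : ↥(Subgroup.centralizer ({s} : Set G))))
    ⟨fun a b h => Fin.ext (F.inj _ _ a.2 b.2 (congrArg Subtype.val h)), ?_⟩)).symm).trans
    (Nat.card_fin 192)
  rintro ⟨x, hx⟩
  obtain ⟨a, ha, hae⟩ := F.mem_centralizer.mp hx
  exact ⟨⟨a, ha⟩, Subtype.ext hae⟩

/-- One fused class gives a normal subgroup of order eight. -/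
theorem normal_case [Finite G] {k : Nat} (hk : k < 3) (hc : IsConj s (F.ι (eK k)))
    (hone : ∀ j, j < 3 → j ≠ k → ¬ IsConj s (F.ι (eK j))) :
    ∃ (N : Subgroup G) (_ : N.Normal), IsMulCommutative N ∧ (∀ n ∈ N, n ^ 2 = 1) ∧
      Nat.card N = 8 ∧
      Nonempty (G ⧸ N ≃* Matrix.ProjectiveSpecialLinearGroup (Fin 3) (ZMod 2)) := by
  obtain ⟨y, h3, hs, he⟩ := F.exists_cycle hk hc
  obtain ⟨i, A⟩ := F.exists_amalgam hk h3 hs he
  haveI hN : (F.elemK k hk).Normal := A.normal hone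
  have hs1 : s ≠ 1 := fun e => by
    have := F.orderOf_s
    rw [e, orderOf_one] at this
    omega
  refine ⟨F.elemK k hk, hN,
    ⟨⟨fun a b => Subtype.ext (F.elemK_comm hk a a.2 b b.2)⟩⟩, F.elemK_sq hk, F.card_elemK hk,
    nonempty_quotient_psl _ (F.elemK_comm hk) (F.elemK_sq hk) (F.card_elemK hk)
      (F.s_mem_elemK hk) hs1 F.card_centralizer ?_ ?_⟩
  · rintro _ ⟨a, ha, hA, rfl⟩ ha1
    obtain ⟨n, -, hn⟩ := A.reach ha hA (fun e => ha1 (by rw [e, F.map_zero]))
    exact isConj_iff.mpr ⟨n, hn⟩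
  · intro x hx
    obtain ⟨a, ha, rfl⟩ := F.surj x (hx s (F.s_mem_elemK hk))
    have hall : allL (fun z => imp (inE k z) (commB a z)) = true := by
      refine allFrom_of_forall fun z _ hz => ?_
      cases hE : inE k z with
      | false => rfl
      | true =>
        have hz' := (F.commB_iff ha (b := z) (by omega)).mpr (hx _ ⟨z, by omega, hE, rfl⟩)
        simp [imp, hz']
    have h := allFrom_spec E_chk k (Nat.zero_le k) (by omega)
    simp only [Bool.and_eq_true] at h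
    exact ⟨a, ha, imp_spec (allL_spec h.1.2 ha) hall, rfl⟩

/-- The image of the alternating group when two classes fuse. -/
theorem pair_case [Finite G] {k l : Nat} (hk : k < l) (hl : l < 3)
    (hck : IsConj s (F.ι (eK k))) (hcl : IsConj s (F.ι (eK l))) :
    ∃ φ : A8 →* G, Function.Injective φ ∧ ∃ u v : A8, (u : P8) = s8 ∧ (v : P8) = t8 ∧
      (∀ x : G, x * φ u = φ u * x → x ∈ φ.range) ∧ ¬ IsConj (φ u) (φ v) := by
  obtain ⟨F₁, c0, c1, c2⟩ := F.exists_first_two hk hl hck hcl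
  obtain ⟨F₂, j, y, z, A, B, hyz, hn⟩ := F₁.exists_canonical_pair c0 c1 c2
  obtain ⟨f, hf, hrel, hgen, h0, h2⟩ := Amalgam.exists_generators A B hyz
  obtain ⟨φ, hinj, hsu, htv, hrange⟩ := exists_embedding F₂ f hf hrel hgen h0 h2
  refine ⟨φ, hinj, ev modelLet (wd sI), ev modelLet (wd tI), ev_eq_of s8_chk.1.1 s8_chk.1.2,
    ev_eq_of s8_chk.2.1.1 s8_chk.2.1.2, fun x hx => ?_, fun hc => ?_⟩
  · rw [hsu] at hx
    exact hrange (F₂.mem_centralizer.mpr (F₂.surj x hx))
  · rw [hsu, htv] at hc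
    exact hn (hc.trans (F₂.isConj_of_cls_eq s8_chk.2.2.1 (k_facts (by norm_num)).1
      cls_t_chk.symm (by rw [s8_chk.2.2.2]; norm_num)))

end Frame

end Cfsg.Agent.H80.Alt
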