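import Cfsg.Agent.H80.Alt.Generators
import Cfsg.Agent.H80.Alt.ModelData
import Mathlib.GroupTheory.SpecificGroups.Alternating

/-! The permutations of eight letters realise the relators. -/

set_option autoImplicit false
set_option maxRecDepth 20000
set_option maxHeartbeats 1000000

namespace Cfsg.Agent.H80.Alt

open Cfsg.Agent.H16 Cfsg.Agent.H68.J1
open Cfsg.Agent.H68.J1.Cert (ev)

/-- permutations of eight letters -/
abbrev P8 := Equiv.Perm (Fin 8)

/-- the alternating group of degree eight -/
abbrev A8 := alternatingGroup (Fin 8)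

/-- image of a letter as a function -/
def imgFun (l : Nat) (x : Fin 8) : Fin 8 :=
  ⟨((modelImg.getD l [0, 1, 2, 3, 4, 5, 6, 7]).getD x.val 0) % 8, Nat.mod_lt _ (by norm_num)⟩

theorem imgFun_chk : ∀ l : Fin 8, ∀ x : Fin 8,
    imgFun (H68.J1.inv l.val) (imgFun l.val x) = x := by
  decide +kernel

/-- letters as permutations -/
def permLet (l : Nat) : P8 :=
  if h : l < 8 then
    { toFun := imgFun l
      invFun := imgFun (H68.J1.inv l)
      left_inv := fun x => imgFun_chk ⟨l, h⟩ x
      right_inv := fun x => by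
        have hl : H68.J1.inv l < 8 := by
          have : ∀ m, m < 8 → H68.J1.inv m < 8 := by decide
          exact this l h
        have h2 : H68.J1.inv (H68.J1.inv l) = l := by
          show (l ^^^ 1) ^^^ 1 = l
          rw [Nat.xor_assoc, Nat.xor_self, Nat.xor_zero]
        have := imgFun_chk ⟨H68.J1.inv l, hl⟩ x
        rwa [h2] at this }
  else 1

theorem permLet_sign : ∀ l : Fin 8, Equiv.Perm.sign (permLet l.val) = 1 := by decide +kernel

/-- letters in the alternating group -/
def modelLet (l : Nat) : A8 :=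
  if h : Equiv.Perm.sign (permLet l) = 1 then ⟨permLet l, Equiv.Perm.mem_alternatingGroup.mpr h⟩
  else 1

theorem permLet_of_ge {l : Nat} (h : 8 ≤ l) : permLet l = 1 := by
  rw [permLet, dif_neg (by omega)]

theorem coe_modelLet (l : Nat) : ((modelLet l : A8) : P8) = permLet l := by
  have h : Equiv.Perm.sign (permLet l) = 1 := by
    rcases lt_or_ge l 8 with h | h
    · exact permLet_sign ⟨l, h⟩
    · rw [permLet_of_ge h, map_one]
  rw [modelLet, dif_pos h]

theorem modelLet_inv : ∀ l, modelLet (H68.J1.inv l) = (modelLet l)⁻¹ := by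
  intro l
  apply Subtype.ext
  rw [Subgroup.coe_inv, coe_modelLet, coe_modelLet]
  rcases lt_or_ge l 8 with h | h
  · have hl : H68.J1.inv l < 8 := by
      have : ∀ m, m < 8 → H68.J1.inv m < 8 := by decide
      exact this l h
    rw [eq_inv_iff_mul_eq_one]
    ext x
    have := imgFun_chk ⟨l, h⟩ x
    simp only [permLet, dif_pos h, dif_pos hl, Equiv.Perm.coe_mul, Function.comp_apply,
      Equiv.coe_fn_mk, Equiv.Perm.coe_one, id_eq]
    exact congrArg Fin.val this
  · rw [permLet_of_ge h, permLet_of_ge (inv_ge h), inv_one]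

/-- value of a word on a point -/
def evFun (w : List Nat) (x : Fin 8) : Fin 8 :=
  List.rec (motive := fun _ => Fin 8) x (fun l _ ih => imgFun l ih) w

theorem ev_apply : ∀ (w : List Nat), (∀ l ∈ w, l < 8) → ∀ x : Fin 8,
    ((ev modelLet w : A8) : P8) x = evFun w x
  | [], _, x => rfl
  | l :: w, h, x => by
    show (((modelLet l : A8) : P8) * ((ev modelLet w : A8) : P8)) x = imgFun l (evFun w x)
    rw [Equiv.Perm.coe_mul, Function.comp_apply, ev_apply w (fun m hm => h m (List.mem_cons_of_mem _ hm)),
      coe_modelLet, permLet, dif_pos (h l (List.mem_cons_self ..))]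
    rfl

/-- two words have the same value -/
noncomputable def sameWord (u v : List Nat) : Bool :=
  lettersBelow 8 u && lettersBelow 8 v &&
    natListEq ((List.range 8).map fun i => (evFun u (Fin.ofNat 8 i)).val)
      ((List.range 8).map fun i => (evFun v (Fin.ofNat 8 i)).val)

theorem sameWord_spec {u v : List Nat} (h : sameWord u v = true) :
    ev modelLet u = ev modelLet v := by
  simp only [sameWord, Bool.and_eq_true] at h
  obtain ⟨⟨hu, hv⟩, he⟩ := h
  have e := natListEq_eq he
  rw [List.map_inj_left] at e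
  apply Subtype.ext
  apply Equiv.ext
  intro x
  rw [ev_apply u (lettersBelow_mem hu), ev_apply v (lettersBelow_mem hv)]
  have := e x.val (List.mem_range.mpr x.isLt)
  rw [show Fin.ofNat 8 x.val = x from Fin.ext (Nat.mod_eq_of_lt x.isLt)] at this
  exact Fin.ext this

theorem model_rels_chk : allFrom (fun k => sameWord ((relWords goodCert).getD k [9]) [])
    (relWords goodCert).length 0 = true := by
  decide +kernel

/-- the fixed point free involution -/
def s8 : P8 := Equiv.swap 0 1 * Equiv.swap 2 3 * Equiv.swap 4 5 * Equiv.swap 6 7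

/-- an involution with four fixed points -/
def t8 : P8 := Equiv.swap 0 1 * Equiv.swap 2 3

theorem cycle_chk : ∀ a b c : Fin 8, a ≠ b → a ≠ c → b ≠ c →
    (lettersBelow 8 (cycleWords.get (64 * a.val + 8 * b.val + c.val)) = true ∧
    ∀ x : Fin 8, evFun (cycleWords.get (64 * a.val + 8 * b.val + c.val)) x =
      (Equiv.swap a b * Equiv.swap a c) x) := by
  decide +kernel

theorem closure_modelLet : Subgroup.closure {x | ∃ l < 8, modelLet l = x} = ⊤ := by
  set H := Subgroup.closure {x | ∃ l < 8, modelLet l = x}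
  have hev : ∀ w : List Nat, (∀ l ∈ w, l < 8) → ev modelLet w ∈ H := by
    intro w
    induction w with
    | nil => intro _; exact H.one_mem
    | cons l w ih =>
      intro h
      exact H.mul_mem (Subgroup.subset_closure ⟨l, h l (List.mem_cons_self ..), rfl⟩)
        (ih fun m hm => h m (List.mem_cons_of_mem _ hm))
  have hle : alternatingGroup (Fin 8) ≤ H.map (alternatingGroup (Fin 8)).subtype := by
    refine le_trans (le_of_eq Equiv.Perm.closure_three_cycles_eq_alternating.symm) ?_
    rw [Subgroup.closure_le]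
    intro σ hσ
    obtain ⟨a, b, c, hab, hac, hbc, rfl⟩ : ∃ a b c : Fin 8, a ≠ b ∧ a ≠ c ∧ b ≠ c ∧
        σ = Equiv.swap a b * Equiv.swap a c := by
      obtain ⟨a, ha⟩ : σ.support.Nonempty := Finset.card_pos.mp (by
        rw [Equiv.Perm.IsThreeCycle.card_support hσ]; norm_num)
      have h3 : orderOf σ = 3 := Equiv.Perm.IsThreeCycle.orderOf hσ
      have hne : σ a ≠ a := Equiv.Perm.mem_support.mp ha
      have hcyc : σ.IsCycle := Equiv.Perm.IsThreeCycle.isCycle hσ
      have h4 : σ (σ (σ a)) = a := by
        have := DFunLike.congr_fun (pow_orderOf_eq_one σ) a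
        rwa [h3, pow_succ, pow_two] at this
      have hne2 : σ (σ a) ≠ a := fun e => by
        rw [e] at h4
        exact hne h4
      refine ⟨a, σ (σ a), σ a, Ne.symm hne2, Ne.symm hne, fun e => hne (σ.injective e), ?_⟩
      have hsupp : ∀ x, σ x ≠ x → x = a ∨ x = σ a ∨ x = σ (σ a) := by
        intro x hx
        obtain ⟨i, hi⟩ := hcyc.exists_pow_eq hne hx
        rw [← hi, ← pow_mod_orderOf, h3]
        rcases (show i % 3 = 0 ∨ i % 3 = 1 ∨ i % 3 = 2 by omega) with e | e | e <;> rw [e]
        · exact Or.inl rfl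
        · exact Or.inr (Or.inl rfl)
        · exact Or.inr (Or.inr rfl)
      ext x
      congr 1
      rw [Equiv.Perm.coe_mul, Function.comp_apply]
      by_cases hxa : x = a
      · subst hxa
        rw [Equiv.swap_apply_left,
          Equiv.swap_apply_of_ne_of_ne hne (fun e => hne (σ.injective e).symm)]
      by_cases hxb : x = σ a
      · subst hxb
        rw [Equiv.swap_apply_right, Equiv.swap_apply_left]
      rw [Equiv.swap_apply_of_ne_of_ne hxa hxb]
      by_cases hxc : x = σ (σ a)
      · subst hxc
        rw [Equiv.swap_apply_right, h4]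
      rw [Equiv.swap_apply_of_ne_of_ne hxa hxc]
      by_contra hx
      rcases hsupp x hx with e | e | e
      · exact hxa e
      · exact hxb e
      · exact hxc e
    obtain ⟨hl, he⟩ := cycle_chk a b c hab hac hbc
    refine ⟨ev modelLet _, hev _ (lettersBelow_mem hl), Equiv.ext fun x => ?_⟩
    show ((ev modelLet _ : A8) : P8) x = _
    rw [ev_apply _ (lettersBelow_mem hl), he x]
  rw [eq_top_iff]
  intro x _
  obtain ⟨z, hz, hze⟩ := hle x.2
  rwa [← Subtype.ext hze]

/-- A word value as a permutation, for comparison. -/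
theorem ev_eq_of {w : List Nat} {σ : P8} (hl : lettersBelow 8 w = true)
    (h : ∀ x : Fin 8, evFun w x = σ x) : ((ev modelLet w : A8) : P8) = σ :=
  Equiv.ext fun x => by rw [ev_apply _ (lettersBelow_mem hl), h x]

theorem s8_chk : (lettersBelow 8 (wd sI) = true ∧ ∀ x : Fin 8, evFun (wd sI) x = s8 x) ∧
    (lettersBelow 8 (wd tI) = true ∧ ∀ x : Fin 8, evFun (wd tI) x = t8 x) ∧
    tI < 192 ∧ cls tI = 4 := by
  decide +kernel

/-- The generators give an embedding of the alternating group. -/
theorem exists_embedding {G : Type*} [Group G] [Finite G] {s : G} (F : Frame s) (f : Nat → G)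
    (hf : ∀ l, f (H68.J1.inv l) = (f l)⁻¹)
    (hrel : ∀ k, k < (relWords goodCert).length → ev f ((relWords goodCert).getD k [9]) = 1)
    (hL : Subgroup.centralizer ({s} : Set G) ≤ Subgroup.closure {x | ∃ l < 8, f l = x})
    (h0 : f 0 = F.ι gA) (h2 : f 2 = F.ι gB) :
    ∃ φ : A8 →* G, Function.Injective φ ∧
      φ (ev modelLet (wd sI)) = s ∧ φ (ev modelLet (wd tI)) = F.ι tI ∧
      Subgroup.centralizer ({s} : Set G) ≤ φ.range := by
  let p : Nat → G × A8 := fun l => (f l, modelLet l)
  have hp : ∀ l, p (H68.J1.inv l) = (p l)⁻¹ := fun l => Prod.ext (hf l) (modelLet_inv l)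
  have hev1 : ∀ w, (ev p w).1 = ev f w := fun w => map_ev (MonoidHom.fst G A8) p w
  have hev2 : ∀ w, (ev p w).2 = ev modelLet w := fun w => map_ev (MonoidHom.snd G A8) p w
  have hprel : ∀ k, k < (relWords goodCert).length → ev p ((relWords goodCert).getD k [9]) = 1 :=
    fun k hk => Prod.ext (by rw [hev1]; exact hrel k hk) (by
      rw [hev2, sameWord_spec (allFrom_spec model_rels_chk k (Nat.zero_le k) (by omega))]; rfl)
  set Γ := Subgroup.closure {x | ∃ l < 8, p l = x}
  have hsh := base_shape_chk
  simp only [Bool.and_eq_true] at hsh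
  obtain ⟨⟨⟨-, hlen⟩, hwords⟩, -⟩ := hsh
  have hlen' : lRels.length = 5 := Nat.eq_of_beq_eq_true hlen
  have hbase : Nat.card (Subgroup.closure ({p 0, p 2} : Set (G × A8))) ≤ 192 := by
    refine card_base_le _ _ fun k hk => ?_
    have hw := allFrom_spec hwords k (Nat.zero_le k) (by omega)
    simp only [Bool.and_eq_true] at hw
    have hlet : ∀ l, l < 4 → lett (p 0) (p 2) 1 1 l = p l := by
      intro l hl
      interval_cases l
      · rfl
      · exact (hp 0).symm
      · rfl
      · exact (hp 2).symm
    rw [ev_congr hlet _ (lettersBelow_mem hw.2.1)]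
    have hkey : (relWords goodCert).getD k [9] = lRels.getD k [] := by
      rw [relWords, List.getD_append _ _ _ _ (by
          rw [baseRels, List.length_append, hlen']; omega),
        baseRels, List.getD_append _ _ _ _ (by omega), List.getD_eq_getElem _ _ (by omega),
        List.getD_eq_getElem _ _ (by omega)]
    rw [← hkey]
    refine hprel k ?_
    rw [relWords, baseRels, List.length_append, List.length_append, hlen']
    omega
  have hcard : Nat.card Γ ≤ 20160 := by
    refine (card_le_of_relations p hp (show goodCert < 11 by decide) hprel).trans ?_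
    rw [if_pos rfl]
    exact (Nat.mul_le_mul_left _ hbase).trans (by norm_num)
  let π : Γ →* A8 := (MonoidHom.snd G A8).comp Γ.subtype
  have hπ : Function.Surjective π := by
    rw [← MonoidHom.range_eq_top, eq_top_iff, ← closure_modelLet, Subgroup.closure_le]
    rintro x ⟨l, hl, rfl⟩
    exact ⟨⟨p l, Subgroup.subset_closure ⟨l, hl, rfl⟩⟩, rfl⟩
  have h8 : Nat.card A8 = 20160 := by
    rw [nat_card_alternatingGroup, Nat.card_fin]
    rfl
  have hge := Nat.card_le_card_of_surjective π hπ
  have hbij : Function.Bijective π :=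
    (Nat.bijective_iff_surjective_and_card π).mpr ⟨hπ, by omega⟩
  let φ : A8 →* G :=
    ((MonoidHom.fst G A8).comp Γ.subtype).comp (MulEquiv.ofBijective π hbij).symm.toMonoidHom
  have hφl : ∀ l, l < 8 → φ (modelLet l) = f l := by
    intro l hl
    have : (MulEquiv.ofBijective π hbij).symm (modelLet l) =
        ⟨p l, Subgroup.subset_closure ⟨l, hl, rfl⟩⟩ :=
      (MulEquiv.ofBijective π hbij).symm_apply_eq.mpr rfl
    show ((MulEquiv.ofBijective π hbij).symm (modelLet l) : G × A8).1 = f l
    rw [this]
  have hlet : ∀ l, l < 4 → φ (modelLet l) = lett (F.ι gA) (F.ι gB) 1 1 l := by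
    intro l hl
    rw [hφl l (by omega)]
    interval_cases l
    · exact h0
    · show f (H68.J1.inv 0) = _
      rw [hf, h0]; rfl
    · exact h2
    · show f (H68.J1.inv 2) = _
      rw [hf, h2]; rfl
  have hword : ∀ a, a < 192 → φ (ev modelLet (wd a)) = F.ι a := by
    intro a ha
    have h := allL_spec letters_chk ha
    rw [Bool.and_eq_true] at h
    rw [map_ev, ev_congr hlet _ (lettersBelow_mem h.1), Amalgam.ev_wd ha]
  have hrange : Subgroup.centralizer ({s} : Set G) ≤ φ.range := by
    refine hL.trans ((Subgroup.closure_le _).mpr ?_)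
    rintro x ⟨l, hl, rfl⟩
    exact ⟨modelLet l, hφl l hl⟩
  have hsφ : φ (ev modelLet (wd sI)) = s := by rw [hword sI sI_lt, F.map_s]
  haveI : IsSimpleGroup A8 := alternatingGroup.isSimpleGroup (by simp)
  have hφi : Function.Injective φ := by
    rw [← MonoidHom.ker_eq_bot_iff]
    refine (φ.normal_ker.eq_bot_or_eq_top).resolve_right fun htop => ?_
    have hk : ∀ x, φ x = 1 := fun x => by rw [← MonoidHom.mem_ker, htop]; trivial
    have := F.orderOf_s
    rw [← hsφ, hk, orderOf_one] at this
    omega
  exact ⟨φ, hφi, hsφ, hword tI s8_chk.2.2.1, hrange⟩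

end Cfsg.Agent.H80.Alt
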