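import Cfsg.Agent.H80.Alt.Amalgam

/-! Two fused classes: consistency, a commuting pair of elements of order three, normalisation. -/

set_option autoImplicit false
set_option maxHeartbeats 1000000

namespace Cfsg.Agent.H80.Alt

open Cfsg.Agent.H16

/-- first class of a pair -/
def pairFst (p : Nat) : Nat := if p = 2 then 1 else 0

/-- second class of a pair -/
def pairSnd (p : Nat) : Nat := if p = 0 then 1 else 2

/-- the pair of cases is consistent -/
noncomputable def goodB (p i j : Nat) : Bool :=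
  Nat.beq (bitField (goodMasks.getD p 0) (16 * i + j) 1) 1

/-- the element of index `q` of the elementary subgroup of order sixteen -/
noncomputable def a16 (q : Nat) : Nat := a16List.getD q 0

/-- the composite of five automorphisms -/
noncomputable def comp5 (k l i j a : Nat) : Nat :=
  phi k i (phi l j (phi k i (phi l j (phi k i a))))

theorem A16_chk : allFrom (fun k => allFrom (fun i => allL fun a => imp (inA a)
    (inT k a && inA (phi k i a))) 16 0) 3 0 = true := by
  decide +kernel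

theorem a16_chk : (allFrom (fun q => inA (a16 q) && Nat.ble (Nat.succ (a16 q)) 192) 16 0 &&
    inA sI && allL (fun x => imp (allFrom (fun q => commB x (a16 q)) 16 0) (inA x)) &&
    allL (fun a => imp (inA a) (allL fun b => imp (inA b) (inA (mul a b))))) = true := by
  decide +kernel

theorem bad_chk : allFrom (fun p => allFrom (fun i => allFrom (fun j =>
    goodB p i j || (Nat.beq (comp5 (pairFst p) (pairSnd p) i j sI) sI &&
      allL (fun l => anyB 16 fun q =>
        !Nat.beq (comp5 (pairFst p) (pairSnd p) i j (a16 q)) (conj l (a16 q))))) 16 0) 16 0) 3 0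
      = true := by
  decide +kernel

theorem triple_chk : allFrom (fun i => allFrom (fun j => allFrom (fun m =>
    !(goodB 0 i j && goodB 1 i m && goodB 2 j m)) 16 0) 16 0) 16 0 = true := by
  decide +kernel

theorem good_comm_chk : allFrom (fun i => allFrom (fun j => imp (goodB 0 i j)
    (allFrom (fun q => Nat.beq (phi 0 i (phi 1 j (a16 q))) (phi 1 j (phi 0 i (a16 q)))) 16 0)) 16 0)
    16 0 = true := by
  decide +kernel

theorem adjust_chk : (allFrom (fun i => allL fun c => imp (inA c) (anyL fun a => inA a &&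
      Nat.beq (mul (phi 0 i a) c) a)) 16 0 &&
    allFrom (fun j => allL fun a => imp (inA a)
      (Nat.beq (mul (mul a (phi 1 j a)) (phi 1 j (phi 1 j a))) 0 &&
        Nat.beq (conj a (eK 1)) (eK 1) && Nat.beq (conj a (esK 1)) (esK 1))) 16 0) = true := by
  decide +kernel

/-- conjugation by `u` carries case `i` of the first class to the canonical case -/
noncomputable def normWit (i u : Nat) : Bool :=
  inT 0 u &&
    allT 0 (fun x => Nat.beq (conj u (phi 0 i (conj (inv u) x))) (phi 0 caseA x)) &&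
    Nat.beq (mul (mul (mul u (phi 0 i (mul (inv u) (conj (hhK 0) u)))) (tK 0 i))
      (conj (hhK 0) (inv u))) (tK 0 caseA)

/-- the case can be normalised -/
noncomputable def normable (i : Nat) : Bool := anyL fun u => normWit i u

theorem norm_chk : allFrom (fun i => normable i || allFrom (fun i' => normable i' ||
    anyL (fun x => inT 0 x && !Nat.beq (phi 0 i' x) (alphaInv 3 (phi 0 i (alpha 3 x))))) 16 0) 16 0
    = true := by
  decide +kernel

namespace Amalgam

variable {G : Type*} [Group G] {s : G} {F : Frame s}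

theorem yy' {k i : Nat} {y : G} (A : Amalgam F k i y) : y * y * y = 1 := by
  rw [← A.y_cube, pow_succ, pow_two]

theorem A16_T {k i : Nat} (hk : k < 3) (hi : i < 16) {a : Nat} (ha : a < 192) (hA : inA a = true) :
    inT k a = true ∧ inA (phi k i a) = true ∧ phi k i a < 192 := by
  have h := imp_spec (allL_spec (allFrom_spec (allFrom_spec A16_chk k (Nat.zero_le k) (by omega)) i
    (Nat.zero_le i) (by omega)) ha) hA
  rw [Bool.and_eq_true] at h
  exact ⟨h.1, h.2, (phi_facts hk hi ha h.1).1⟩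

theorem a16_mem {q : Nat} (hq : q < 16) : a16 q < 192 ∧ inA (a16 q) = true := by
  have h := a16_chk
  simp only [Bool.and_eq_true] at h
  have := allFrom_spec h.1.1.1 q (Nat.zero_le q) (by omega)
  rw [Bool.and_eq_true] at this
  exact ⟨Nat.le_of_ble_eq_true this.2, this.1⟩

theorem conj_y {k i : Nat} {y : G} (A : Amalgam F k i y) {a : Nat} (ha : a < 192)
    (hA : inA a = true) :
    y * F.ι a * y⁻¹ = F.ι (phi k i a) ∧ phi k i a < 192 ∧ inA (phi k i a) = true := by
  obtain ⟨h1, h2, h3⟩ := A16_T A.k_lt A.i_lt ha hA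
  exact ⟨A.y_T a ha h1, h3, h2⟩

/-- Cases of two fused classes form a consistent pair. -/
theorem good {p i j : Nat} (hp : p < 3) {y z : G} (A : Amalgam F (pairFst p) i y)
    (B : Amalgam F (pairSnd p) j z) : goodB p i j = true := by
  have h := allFrom_spec (allFrom_spec (allFrom_spec bad_chk p (Nat.zero_le p) (by omega)) i
    (Nat.zero_le i) (by have := A.i_lt; omega)) j (Nat.zero_le j) (by have := B.i_lt; omega)
  simp only [Bool.or_eq_true, Bool.and_eq_true] at h
  refine h.resolve_right fun ⟨hfix, hall⟩ => ?_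
  have key : ∀ a, a < 192 → inA a = true →
      y * z * y * z * y * F.ι a * (y * z * y * z * y)⁻¹ =
        F.ι (comp5 (pairFst p) (pairSnd p) i j a) := by
    intro a ha hA
    obtain ⟨e1, l1, a1⟩ := A.conj_y ha hA
    obtain ⟨e2, l2, a2⟩ := B.conj_y l1 a1
    obtain ⟨e3, l3, a3⟩ := A.conj_y l2 a2
    obtain ⟨e4, l4, a4⟩ := B.conj_y l3 a3
    obtain ⟨e5, -, -⟩ := A.conj_y l4 a4
    calc _ = y * (z * (y * (z * (y * F.ι a * y⁻¹) * z⁻¹) * y⁻¹) * z⁻¹) * y⁻¹ := by group
      _ = _ := by rw [e1, e2, e3, e4, e5, comp5]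
  have hs := a16_chk
  simp only [Bool.and_eq_true] at hs
  have hg := key sI sI_lt hs.1.1.2
  rw [Nat.eq_of_beq_eq_true hfix, F.map_s] at hg
  obtain ⟨l, hl, hle⟩ := F.surj _ (mul_inv_eq_iff_eq_mul.mp hg)
  obtain ⟨q, hq, hq'⟩ := anyB_spec (allL_spec hall hl)
  obtain ⟨hql, hqA⟩ := a16_mem hq
  have e := key _ hql hqA
  rw [← hle, ← F.map_conj hl hql] at e
  have hlt : comp5 (pairFst p) (pairSnd p) i j (a16 q) < 192 := by
    obtain ⟨-, l1, a1⟩ := A.conj_y hql hqA
    obtain ⟨-, l2, a2⟩ := B.conj_y l1 a1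
    obtain ⟨-, l3, a3⟩ := A.conj_y l2 a2
    obtain ⟨-, l4, a4⟩ := B.conj_y l3 a3
    exact (A.conj_y l4 a4).2.1
  simp [F.inj _ _ (conj_lt hl hql) hlt e] at hq'

/-- Three classes are not fused together. -/
theorem not_three {i j m : Nat} {y z w : G} (A : Amalgam F 0 i y) (B : Amalgam F 1 j z)
    (C : Amalgam F 2 m w) : False := by
  have h1 := good (p := 0) (by norm_num) A B
  have h2 := good (p := 1) (by norm_num) A C
  have h3 := good (p := 2) (by norm_num) B C
  have h := allFrom_spec (allFrom_spec (allFrom_spec triple_chk i (Nat.zero_le i)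
    (by have := A.i_lt; omega)) j (Nat.zero_le j) (by have := B.i_lt; omega)) m (Nat.zero_le m)
    (by have := C.i_lt; omega)
  simp [h1, h2, h3] at h

/-- The second element can be chosen commuting with the first. -/
theorem exists_commuting [Finite G] {i j : Nat} {y z : G} (A : Amalgam F 0 i y)
    (B : Amalgam F 1 j z) : ∃ j', ∃ z' : G, Amalgam F 1 j' z' ∧ y * z' = z' * y := by
  have hg := good (p := 0) (by norm_num) A B
  have hcomm := imp_spec (allFrom_spec (allFrom_spec good_comm_chk i (Nat.zero_le i)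
    (by have := A.i_lt; omega)) j (Nat.zero_le j) (by have := B.i_lt; omega)) hg
  set c := y * z * y⁻¹ * z⁻¹ with hc
  have hs := a16_chk
  simp only [Bool.and_eq_true] at hs
  have cfix : ∀ q, q < 16 → c * F.ι (a16 q) = F.ι (a16 q) * c := by
    intro q hq
    obtain ⟨hql, hqA⟩ := a16_mem hq
    obtain ⟨e1, l1, a1⟩ := A.conj_y hql hqA
    obtain ⟨e2, l2, a2⟩ := B.conj_y l1 a1
    obtain ⟨f1, m1, b1⟩ := B.conj_y hql hqA
    obtain ⟨f2, m2, b2⟩ := A.conj_y m1 b1
    have e : phi 0 i (phi 1 j (a16 q)) = phi 1 j (phi 0 i (a16 q)) :=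
      Nat.eq_of_beq_eq_true (allFrom_spec hcomm q (Nat.zero_le q) (by omega))
    have hyz : y * z * F.ι (a16 q) * (y * z)⁻¹ = z * y * F.ι (a16 q) * (z * y)⁻¹ := by
      calc _ = y * (z * F.ι (a16 q) * z⁻¹) * y⁻¹ := by group
        _ = F.ι (phi 1 j (phi 0 i (a16 q))) := by rw [f1, f2, e]
        _ = z * (y * F.ι (a16 q) * y⁻¹) * z⁻¹ := by rw [e1, e2]
        _ = _ := by group
    have hinv : (z * y)⁻¹ * (y * z) * F.ι (a16 q) = F.ι (a16 q) * ((z * y)⁻¹ * (y * z)) := by
      calc _ = (z * y)⁻¹ * (y * z * F.ι (a16 q) * (y * z)⁻¹) * (y * z) := by group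
        _ = _ := by rw [hyz]; group
    -- move the commutator to the other side
    obtain ⟨d, hd, hde⟩ : ∃ d, d < 192 ∧ F.ι d = (z * y)⁻¹ * (y * z) := by
      refine F.surj _ ?_
      have hsq : ∀ q', q' < 16 → (z * y)⁻¹ * (y * z) * F.ι (a16 q') =
          F.ι (a16 q') * ((z * y)⁻¹ * (y * z)) := by
        intro q' hq'
        obtain ⟨hql', hqA'⟩ := a16_mem hq'
        obtain ⟨e1', l1', a1'⟩ := A.conj_y hql' hqA'
        obtain ⟨e2', -, -⟩ := B.conj_y l1' a1'
        obtain ⟨f1', m1', b1'⟩ := B.conj_y hql' hqA'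
        obtain ⟨f2', -, -⟩ := A.conj_y m1' b1'
        have e' : phi 0 i (phi 1 j (a16 q')) = phi 1 j (phi 0 i (a16 q')) :=
          Nat.eq_of_beq_eq_true (allFrom_spec hcomm q' (Nat.zero_le q') (by omega))
        have hyz' : y * z * F.ι (a16 q') * (y * z)⁻¹ = z * y * F.ι (a16 q') * (z * y)⁻¹ := by
          calc _ = y * (z * F.ι (a16 q') * z⁻¹) * y⁻¹ := by group
            _ = F.ι (phi 1 j (phi 0 i (a16 q'))) := by rw [f1', f2', e']
            _ = z * (y * F.ι (a16 q') * y⁻¹) * z⁻¹ := by rw [e1', e2']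
            _ = _ := by group
        calc _ = (z * y)⁻¹ * (y * z * F.ι (a16 q') * (y * z)⁻¹) * (y * z) := by group
          _ = _ := by rw [hyz']; group
      obtain ⟨q', hq', hq'e⟩ := anyB_spec (show anyB 16 (fun q => Nat.beq (a16 q) sI) = true by
        decide +kernel)
      have := hsq q' hq'
      rwa [Nat.eq_of_beq_eq_true hq'e, F.map_s] at this
    have hdA : inA d = true := by
      refine imp_spec (allL_spec hs.1.2 hd) (allFrom_of_forall fun q' _ hq' => ?_)
      obtain ⟨hql', hqA'⟩ := a16_mem (show q' < 16 by omega)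
      refine (F.commB_iff hd hql').mpr ?_
      rw [hde]
      obtain ⟨e1', l1', a1'⟩ := A.conj_y hql' hqA'
      obtain ⟨e2', -, -⟩ := B.conj_y l1' a1'
      obtain ⟨f1', m1', b1'⟩ := B.conj_y hql' hqA'
      obtain ⟨f2', -, -⟩ := A.conj_y m1' b1'
      have e' : phi 0 i (phi 1 j (a16 q')) = phi 1 j (phi 0 i (a16 q')) :=
        Nat.eq_of_beq_eq_true (allFrom_spec hcomm q' (Nat.zero_le q') (by omega))
      have hyz' : y * z * F.ι (a16 q') * (y * z)⁻¹ = z * y * F.ι (a16 q') * (z * y)⁻¹ := by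
        calc _ = y * (z * F.ι (a16 q') * z⁻¹) * y⁻¹ := by group
          _ = F.ι (phi 1 j (phi 0 i (a16 q'))) := by rw [f1', f2', e']
          _ = z * (y * F.ι (a16 q') * y⁻¹) * z⁻¹ := by rw [e1', e2']
          _ = _ := by group
      calc _ = (z * y)⁻¹ * (y * z * F.ι (a16 q') * (y * z)⁻¹) * (y * z) := by group
        _ = _ := by rw [hyz']; group
    -- the commutator is a conjugate of it
    obtain ⟨g1, gl1, gA1⟩ := A.conj_y hd hdA
    obtain ⟨g2, gl2, gA2⟩ := B.conj_y gl1 gA1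
    have hcd : c = F.ι (phi 1 j (phi 0 i d)) := by
      rw [← g2, ← g1, hde, hc]; group
    rw [hcd]
    exact (F.commB_iff gl2 hql).mp
      ((F.commB_iff gl2 hql).mpr (by
        have hh := imp_spec (allL_spec (imp_spec (allL_spec (show allL (fun a => imp (inA a)
          (allL fun b => imp (inA b) (commB a b))) = true by decide +kernel) gl2) gA2) hql) hqA
        exact (F.commB_iff gl2 hql).mp hh))
  obtain ⟨q₀, hq₀, hq₀e⟩ := anyB_spec (show anyB 16 (fun q => Nat.beq (a16 q) sI) = true by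
    decide +kernel)
  have hcs : c * s = s * c := by
    have := cfix q₀ hq₀
    rwa [Nat.eq_of_beq_eq_true hq₀e, F.map_s] at this
  obtain ⟨x, hx, hxe⟩ := F.surj _ hcs
  have hxA : inA x = true := imp_spec (allL_spec hs.1.2 hx) (allFrom_of_forall fun q _ hq => by
    refine (F.commB_iff hx (a16_mem (show q < 16 by omega)).1).mpr ?_
    rw [hxe]; exact cfix q (by omega))
  have hadj := adjust_chk
  rw [Bool.and_eq_true] at hadj
  obtain ⟨a, ha, ha'⟩ := anyL_spec (imp_spec (allL_spec (allFrom_spec hadj.1 i (Nat.zero_le i)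
    (by have := A.i_lt; omega)) hx) hxA)
  rw [Bool.and_eq_true] at ha'
  obtain ⟨haA, hae⟩ := ha'
  obtain ⟨e1, l1, a1⟩ := A.conj_y ha haA
  have hyz : y * (F.ι a * z) = F.ι a * z * y := by
    have e := congrArg F.ι (Nat.eq_of_beq_eq_true hae)
    rw [F.map_mul _ _ l1 hx, ← e1, hxe, hc] at e
    calc y * (F.ι a * z) = y * F.ι a * y⁻¹ * (y * z * y⁻¹ * z⁻¹) * z * y := by group
      _ = _ := by rw [e]
  have h2 := imp_spec (allL_spec (allFrom_spec hadj.2 j (Nat.zero_le j)
    (by have := B.i_lt; omega)) ha) haA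
  simp only [Bool.and_eq_true] at h2
  obtain ⟨⟨hN, hfe⟩, hfes⟩ := h2
  obtain ⟨f1, m1, b1⟩ := B.conj_y ha haA
  obtain ⟨f2, m2, b2⟩ := B.conj_y m1 b1
  have hcube : (F.ι a * z) ^ 3 = 1 := by
    have e := congrArg F.ι (Nat.eq_of_beq_eq_true hN)
    rw [F.map_mul _ _ (mul_lt ha m1) m2, F.map_mul _ _ ha m1, F.map_zero, ← f2, ← f1] at e
    calc (F.ι a * z) ^ 3 = F.ι a * (z * F.ι a * z⁻¹) * (z * (z * F.ι a * z⁻¹) * z⁻¹) *
          (z * z * z) := by rw [pow_succ, pow_two]; group
      _ = 1 := by rw [B.yy', mul_one, e]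
  obtain ⟨he, -, -, hes, -⟩ := k_facts (k := 1) (by norm_num)
  have hs' : F.ι a * z * s * (F.ι a * z)⁻¹ = F.ι (eK 1) := by
    calc _ = F.ι a * (z * s * z⁻¹) * (F.ι a)⁻¹ := by group
      _ = _ := by rw [B.y_s, ← F.map_conj ha he, Nat.eq_of_beq_eq_true hfe]
  have he' : F.ι a * z * F.ι (eK 1) * (F.ι a * z)⁻¹ = F.ι (esK 1) := by
    calc _ = F.ι a * (z * F.ι (eK 1) * z⁻¹) * (F.ι a)⁻¹ := by group
      _ = _ := by rw [B.y_e, ← F.map_conj ha hes, Nat.eq_of_beq_eq_true hfes]
  obtain ⟨j', B'⟩ := F.exists_amalgam (by norm_num) hcube hs' he'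
  exact ⟨j', _, B', hyz⟩

/-- A normalisable case gives the canonical case. -/
theorem canonical {i : Nat} {y : G} (A : Amalgam F 0 i y) (h : normable i = true) :
    ∃ y', Amalgam F 0 caseA y' := by
  obtain ⟨u, hu, hw⟩ := anyL_spec h
  simp only [normWit, Bool.and_eq_true] at hw
  obtain ⟨⟨huT, hphi⟩, ht⟩ := hw
  obtain ⟨he, -, -, hes, hhh, hh2, hhe, -⟩ := k_facts (k := 0) (by norm_num)
  obtain ⟨-, -, -, -, -, hTall⟩ := T_facts (k := 0) (by norm_num)
  have hiu := (hTall u hu huT).2.2.2.1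
  have hiuL := inv_lt hu
  have hue : F.ι u * F.ι (eK 0) = F.ι (eK 0) * F.ι u := (F.inT_iff (by norm_num) hu).mp huT
  have hus := F.comm_s hu
  refine ⟨F.ι u * y * (F.ι u)⁻¹, by norm_num, by decide, ?_, ?_, ?_, ?_, ?_⟩
  · rw [conj_pow, A.y_cube, mul_one, mul_inv_cancel]
  · calc _ = F.ι u * (y * ((F.ι u)⁻¹ * (s * F.ι u)) * y⁻¹) * (F.ι u)⁻¹ := by group
      _ = F.ι u * (y * s * y⁻¹) * (F.ι u)⁻¹ := by rw [← hus]; group
      _ = _ := by rw [A.y_s, hue]; group
  · calc _ = F.ι u * (y * ((F.ι u)⁻¹ * (F.ι (eK 0) * F.ι u)) * y⁻¹) * (F.ι u)⁻¹ := by group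
      _ = F.ι u * (y * F.ι (eK 0) * y⁻¹) * (F.ι u)⁻¹ := by rw [← hue]; group
      _ = _ := by rw [A.y_e, ← F.map_conj hu hes, (hTall u hu huT).2.2.2.2.1]
  · intro x hx hxT
    have hcT : inT 0 (conj (inv u) x) = true := by
      rw [F.inT_iff (by norm_num) (conj_lt hiuL hx), F.map_conj hiuL hx]
      have h1 := (F.inT_iff (k := 0) (by norm_num) hiuL).mp hiu
      have h2 := (F.inT_iff (k := 0) (by norm_num) hx).mp hxT
      have h3 := comm_conj (F.ι (inv u)) h2
      rwa [show F.ι (inv u) * F.ι (eK 0) * (F.ι (inv u))⁻¹ = F.ι (eK 0) by rw [h1]; group] at h3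
    have hlt := (phi_facts (k := 0) (by norm_num) A.i_lt (conj_lt hiuL hx) hcT).1
    rw [← Nat.eq_of_beq_eq_true (allT_spec hphi hx hxT), F.map_conj hu hlt,
      ← A.y_T _ (conj_lt hiuL hx) hcT, F.map_conj hiuL hx, F.map_inv hu]
    group
  · have hcT : inT 0 (mul (inv u) (conj (hhK 0) u)) = true :=
      (hTall _ hiuL hiu).2.2.2.2.2 _ (conj_lt hhh hu) (hTall u hu huT).2.2.1
    have hw1 : mul (inv u) (conj (hhK 0) u) < 192 := mul_lt hiuL (conj_lt hhh hu)
    obtain ⟨hphl, -, -, htl, -⟩ := phi_facts (k := 0) (by norm_num) A.i_lt hw1 hcT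
    rw [← Nat.eq_of_beq_eq_true ht, F.map_mul _ _ (mul_lt (mul_lt hu hphl) htl) (conj_lt hhh hiuL),
      F.map_mul _ _ (mul_lt hu hphl) htl, F.map_mul _ _ hu hphl, ← A.y_T _ hw1 hcT,
      F.map_mul _ _ hiuL (conj_lt hhh hu), F.map_conj hhh hu, F.map_conj hhh hiuL,
      F.map_inv hu, ← A.y_hh]
    have hττ : F.ι (hhK 0) * F.ι (hhK 0) = 1 := by
      rw [← F.map_mul _ _ hhh hhh, hh2, F.map_zero]
    rw [show (F.ι (hhK 0))⁻¹ = F.ι (hhK 0) from inv_eq_of_mul_eq_one_left hττ]
    simp only [mul_assoc]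
    have r1 : ∀ z, F.ι (hhK 0) * (F.ι (hhK 0) * z) = z := fun z => by
      rw [← mul_assoc, hττ, one_mul]
    simp only [r1, inv_mul_cancel_left]

end Amalgam

end Cfsg.Agent.H80.Alt
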