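import Cfsg.Agent.H80.Alt.Pairs

/-! Relabelling the table group, and the normalised pair of fused classes. -/

set_option autoImplicit false
set_option maxHeartbeats 1000000

namespace Cfsg.Agent.H80.Alt

open Cfsg.Agent.H16

theorem alpha_chk : allFrom (fun r => allL (fun x => Nat.ble (Nat.succ (alpha r x)) 192 &&
      Nat.ble (Nat.succ (alphaInv r x)) 192 && Nat.beq (alpha r (alphaInv r x)) x &&
      Nat.beq (alphaInv r (alpha r x)) x &&
      allFrom (fun l => Nat.beq (alpha r (mul (letVal l) x))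
        (mul (alpha r (letVal l)) (alpha r x))) 4 0) &&
    Nat.beq (alpha r sI) sI && Nat.beq (alpha r 0) 0 &&
    allFrom (fun l => Nat.ble (Nat.succ (letVal l)) 192) 4 0) 4 0 = true := by
  decide +kernel

theorem alpha_perm_chk : (Nat.beq (alpha 1 (eK 0)) (eK 0) && Nat.beq (alpha 1 (eK 1)) (eK 2) &&
    Nat.beq (cls (alpha 1 (eK 2))) 3 && Nat.beq (alpha 2 (eK 0)) (eK 1) &&
    Nat.beq (alpha 2 (eK 1)) (eK 2) && Nat.beq (cls (alpha 2 (eK 2))) 2 &&
    Nat.beq (alpha 3 (eK 0)) (eK 0) && Nat.beq (alpha 3 (eK 1)) (eK 1) &&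
    Nat.beq (alpha 3 (esK 0)) (esK 0) && Nat.beq (cls (alpha 3 (eK 2))) 4) = true := by
  decide +kernel

namespace Frame

variable {G : Type*} [Group G] {s : G} (F : Frame s)

/-- The frame in other coordinates. -/
theorem exists_relabel {r : Nat} (hr : r < 4) :
    ∃ F' : Frame s, ∀ a, a < 192 → F'.ι a = F.ι (alpha r a) := by
  have h := allFrom_spec alpha_chk r (Nat.zero_le r) (by omega)
  simp only [Bool.and_eq_true] at h
  obtain ⟨⟨⟨hall, hs⟩, h0⟩, hlet⟩ := h
  have P : ∀ x, x < 192 → alpha r x < 192 ∧ alphaInv r x < 192 ∧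
      alpha r (alphaInv r x) = x ∧ alphaInv r (alpha r x) = x ∧
      ∀ l, l < 4 → alpha r (mul (letVal l) x) = mul (alpha r (letVal l)) (alpha r x) := by
    intro x hx
    have := allL_spec hall hx
    simp only [Bool.and_eq_true] at this
    obtain ⟨⟨⟨⟨p1, p2⟩, p3⟩, p4⟩, p5⟩ := this
    exact ⟨Nat.le_of_ble_eq_true p1, Nat.le_of_ble_eq_true p2, Nat.eq_of_beq_eq_true p3,
      Nat.eq_of_beq_eq_true p4, fun l hl =>
        Nat.eq_of_beq_eq_true (allFrom_spec p5 l (Nat.zero_le l) (by omega))⟩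
  have key : ∀ w : List Nat, List.rec (motive := fun _ => Bool) true
      (fun l _ ih => Nat.ble (Nat.succ l) 4 && ih) w = true → evL w < 192 ∧
      ∀ b, b < 192 → F.ι (alpha r (mul (evL w) b)) = F.ι (alpha r (evL w)) * F.ι (alpha r b) := by
    intro w
    induction w with
    | nil =>
      intro _
      refine ⟨by decide, fun b hb => ?_⟩
      show F.ι (alpha r (mul 0 b)) = F.ι (alpha r 0) * _
      rw [(inv_facts hb).2.2.1, Nat.eq_of_beq_eq_true h0, F.map_zero, one_mul]
    | cons l w ih =>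
      intro hw
      simp only [Bool.and_eq_true] at hw
      have hl : l < 4 := Nat.le_of_ble_eq_true hw.1
      obtain ⟨i1, i2⟩ := ih hw.2
      have hlv : letVal l < 192 :=
        Nat.le_of_ble_eq_true (allFrom_spec hlet l (Nat.zero_le l) (by omega))
      have hev : evL (l :: w) = mul (letVal l) (evL w) := rfl
      refine ⟨hev ▸ mul_lt hlv i1, fun b hb => ?_⟩
      rw [hev, ← Nat.eq_of_beq_eq_true (allL_spec (allL_spec (allFrom_spec letter_assoc_chk l
        (Nat.zero_le l) (by omega)) i1) hb), (P _ (mul_lt i1 hb)).2.2.2.2 l hl,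
        F.map_mul _ _ (P _ hlv).1 (P _ (mul_lt i1 hb)).1, i2 b hb, (P _ i1).2.2.2.2 l hl,
        F.map_mul _ _ (P _ hlv).1 (P _ i1).1, mul_assoc]
  refine ⟨⟨fun a => F.ι (alpha r a), fun a b ha hb => ?_, fun a b ha hb e => ?_, fun x hx => ?_, ?_⟩,
    fun a _ => rfl⟩
  · have h := allL_spec wordL_chk ha
    rw [Bool.and_eq_true] at h
    have e := (key _ h.2).2 b hb
    rwa [Nat.eq_of_beq_eq_true h.1] at e
  · rw [← (P a ha).2.2.2.1, ← (P b hb).2.2.2.1, F.inj _ _ (P a ha).1 (P b hb).1 e]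
  · obtain ⟨c, hc, hce⟩ := F.surj x hx
    exact ⟨alphaInv r c, (P c hc).2.1, by rw [(P c hc).2.2.1, hce]⟩
  · show F.ι (alpha r sI) = s
    rw [Nat.eq_of_beq_eq_true hs, F.map_s]

/-- Three classes are never fused. -/
theorem not_all_fused [Finite G] (h0 : IsConj s (F.ι (eK 0))) (h1 : IsConj s (F.ι (eK 1)))
    (h2 : IsConj s (F.ι (eK 2))) : False := by
  obtain ⟨y, a1, a2, a3⟩ := F.exists_cycle (by norm_num) h0
  obtain ⟨i, A⟩ := F.exists_amalgam (by norm_num) a1 a2 a3
  obtain ⟨z, b1, b2, b3⟩ := F.exists_cycle (by norm_num) h1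
  obtain ⟨j, B⟩ := F.exists_amalgam (by norm_num) b1 b2 b3
  obtain ⟨w, c1, c2, c3⟩ := F.exists_cycle (by norm_num) h2
  obtain ⟨m, C⟩ := F.exists_amalgam (by norm_num) c1 c2 c3
  exact Amalgam.not_three A B C

/-- Two fused classes become the first two in suitable coordinates. -/
theorem exists_first_two [Finite G] {k l : Nat} (hk : k < l) (hl : l < 3)
    (hck : IsConj s (F.ι (eK k))) (hcl : IsConj s (F.ι (eK l))) :
    ∃ F' : Frame s, IsConj s (F'.ι (eK 0)) ∧ IsConj s (F'.ι (eK 1)) ∧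
      ¬ IsConj s (F'.ι (eK 2)) := by
  have h := alpha_perm_chk
  simp only [Bool.and_eq_true] at h
  obtain ⟨⟨⟨⟨⟨⟨⟨⟨⟨a10, a11⟩, a12⟩, a20⟩, a21⟩, a22⟩, -⟩, -⟩, -⟩, -⟩ := h
  rcases (show (k = 0 ∧ l = 1) ∨ (k = 0 ∧ l = 2) ∨ (k = 1 ∧ l = 2) by omega) with
    ⟨rfl, rfl⟩ | ⟨rfl, rfl⟩ | ⟨rfl, rfl⟩
  · exact ⟨F, hck, hcl, fun h => F.not_all_fused hck hcl h⟩
  all_goals
    first
      | (obtain ⟨F', hF'⟩ := F.exists_relabel (r := 1) (by norm_num)
         have e2 : alpha 1 (eK 2) < 192 := by decide +kernel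
         rw [← Nat.eq_of_beq_eq_true a10] at hck
         rw [← Nat.eq_of_beq_eq_true a11] at hcl
         refine ⟨F', ?_, ?_, fun h => ?_⟩
         · rw [hF' _ (k_facts (by norm_num)).1]; exact hck
         · rw [hF' _ (k_facts (by norm_num)).1]; exact hcl
         rw [hF' _ (k_facts (by norm_num)).1] at h
         rw [Nat.eq_of_beq_eq_true a10] at hck
         rw [Nat.eq_of_beq_eq_true a11] at hcl
         exact F.not_all_fused hck (h.trans (F.isConj_of_cls_eq e2 (k_facts (by norm_num)).1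
           ((Nat.eq_of_beq_eq_true a12).trans (k_facts (k := 1) (by norm_num)).2.1.symm)
           (by rw [Nat.eq_of_beq_eq_true a12]; norm_num))) hcl)
      | (obtain ⟨F', hF'⟩ := F.exists_relabel (r := 2) (by norm_num)
         have e2 : alpha 2 (eK 2) < 192 := by decide +kernel
         rw [← Nat.eq_of_beq_eq_true a20] at hck
         rw [← Nat.eq_of_beq_eq_true a21] at hcl
         refine ⟨F', ?_, ?_, fun h => ?_⟩
         · rw [hF' _ (k_facts (by norm_num)).1]; exact hck
         · rw [hF' _ (k_facts (by norm_num)).1]; exact hcl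
         rw [hF' _ (k_facts (by norm_num)).1] at h
         rw [Nat.eq_of_beq_eq_true a20] at hck
         rw [Nat.eq_of_beq_eq_true a21] at hcl
         exact F.not_all_fused (h.trans (F.isConj_of_cls_eq e2 (k_facts (by norm_num)).1
           ((Nat.eq_of_beq_eq_true a22).trans (k_facts (k := 0) (by norm_num)).2.1.symm)
           (by rw [Nat.eq_of_beq_eq_true a22]; norm_num))) hck hcl)

/-- The canonical pair. -/
theorem exists_canonical_pair [Finite G] (h0 : IsConj s (F.ι (eK 0)))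
    (h1 : IsConj s (F.ι (eK 1))) (h2 : ¬ IsConj s (F.ι (eK 2))) :
    ∃ (F' : Frame s) (j : Nat) (y z : G), Amalgam F' 0 caseA y ∧ Amalgam F' 1 j z ∧
      y * z = z * y ∧ ¬ IsConj s (F'.ι (eK 2)) := by
  obtain ⟨F', y, A, hz, hn⟩ : ∃ (F' : Frame s) (y : G), Amalgam F' 0 caseA y ∧
      IsConj s (F'.ι (eK 1)) ∧ ¬ IsConj s (F'.ι (eK 2)) := by
    obtain ⟨y, a1, a2, a3⟩ := F.exists_cycle (by norm_num) h0
    obtain ⟨i, A⟩ := F.exists_amalgam (by norm_num) a1 a2 a3
    cases hn : normable i with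
    | true =>
      obtain ⟨y', A'⟩ := A.canonical hn
      exact ⟨F, y', A', h1, h2⟩
    | false =>
      have hp := alpha_perm_chk
      simp only [Bool.and_eq_true] at hp
      obtain ⟨⟨⟨⟨-, p0⟩, p1⟩, p3⟩, p2⟩ := hp
      obtain ⟨F', hF'⟩ := F.exists_relabel (r := 3) (by norm_num)
      obtain ⟨e0, -, -, es0, -⟩ := k_facts (k := 0) (by norm_num)
      obtain ⟨i', A'⟩ := F'.exists_amalgam (k := 0) (by norm_num) a1
        (by rw [hF' _ e0, Nat.eq_of_beq_eq_true p0, a2])
        (by rw [hF' _ e0, hF' _ es0, Nat.eq_of_beq_eq_true p0, Nat.eq_of_beq_eq_true p3, a3])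
      have hn' : normable i' = true := by
        have h := allFrom_spec norm_chk i (Nat.zero_le i) (by have := A.i_lt; omega)
        rw [hn, Bool.false_or] at h
        have h' := allFrom_spec h i' (Nat.zero_le i') (by have := A'.i_lt; omega)
        rw [Bool.or_eq_true] at h'
        refine h'.resolve_right fun hx => ?_
        obtain ⟨x, hxl, hx'⟩ := anyL_spec hx
        simp only [Bool.and_eq_true, Bool.not_eq_true'] at hx'
        obtain ⟨hxT, hxne⟩ := hx'
        have hchk := allFrom_spec alpha_chk 3 (by norm_num) (by norm_num)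
        simp only [Bool.and_eq_true] at hchk
        have P : ∀ z, z < 192 → alpha 3 z < 192 ∧ alphaInv 3 (alpha 3 z) = z := fun z hz => by
          have := allL_spec hchk.1.1.1 hz
          simp only [Bool.and_eq_true] at this
          exact ⟨Nat.le_of_ble_eq_true this.1.1.1.1, Nat.eq_of_beq_eq_true this.1.2⟩
        have hlt' := (phi_facts (k := 0) (by norm_num) A'.i_lt hxl hxT).1
        have haT : inT 0 (alpha 3 x) = true := by
          rw [F.inT_iff (by norm_num) (P x hxl).1]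
          have := (F'.inT_iff (k := 0) (by norm_num) hxl).mp hxT
          rwa [hF' x hxl, hF' _ e0, Nat.eq_of_beq_eq_true p0] at this
        have hlt := (phi_facts (k := 0) (by norm_num) A.i_lt (P x hxl).1 haT).1
        have e : alpha 3 (phi 0 i' x) = phi 0 i (alpha 3 x) :=
          F.inj _ _ (P _ hlt').1 hlt (by
            rw [← hF' _ hlt', ← A'.y_T x hxl hxT, hF' x hxl, A.y_T _ (P x hxl).1 haT])
        rw [← e, (P _ hlt').2] at hxne
        simp at hxne
      obtain ⟨y', A''⟩ := A'.canonical hn'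
      refine ⟨F', y', A'', ?_, fun h => ?_⟩
      · rw [hF' _ (k_facts (by norm_num)).1, Nat.eq_of_beq_eq_true p1]; exact h1
      · rw [hF' _ (k_facts (by norm_num)).1] at h
        exact h2 (h.trans (F.isConj_of_cls_eq (by decide +kernel) (k_facts (by norm_num)).1
          ((Nat.eq_of_beq_eq_true p2).trans (k_facts (k := 2) (by norm_num)).2.1.symm)
          (by rw [Nat.eq_of_beq_eq_true p2]; norm_num)))
  obtain ⟨z, b1, b2, b3⟩ := F'.exists_cycle (by norm_num) hz
  obtain ⟨j, B⟩ := F'.exists_amalgam (by norm_num) b1 b2 b3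
  obtain ⟨j', z', B', hc⟩ := A.exists_commuting B
  exact ⟨F', j', y, z', A, B', hc, hn⟩

end Frame

end Cfsg.Agent.H80.Alt
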