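import Cfsg.Agent.H80.Alt.Relabel
import Cfsg.Agent.H80.Alt.CertChecks

/-! The relators, and the bounds given by the coset enumerations. -/

set_option autoImplicit false
set_option maxRecDepth 8000
set_option maxHeartbeats 1000000

namespace Cfsg.Agent.H80.Alt

open Cfsg.Agent.H16 Cfsg.Agent.H68.J1
open Cfsg.Agent.H68.J1.Cert (ev)

/-- word of a table element -/
noncomputable def wd (x : Nat) : List Nat := lWords.get x

/-- inverse word -/
def invW (w : List Nat) : List Nat := (w.map H68.J1.inv).reverse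

/-- conjugation relator -/
noncomputable def conjRel (Y k i x : Nat) : List Nat :=
  [Y] ++ wd x ++ [Y + 1] ++ invW (wd (phi k i x))

/-- relator of the exchanging involution -/
noncomputable def swapRel (Y k i : Nat) : List Nat :=
  [Y] ++ wd (hhK k) ++ [Y] ++ wd (hhK k) ++ invW (wd (tK k i))

/-- cube relator -/
noncomputable def cubeRel (Y m fx : Nat) : List Nat :=
  (wd m ++ [Y]) ++ (wd m ++ [Y]) ++ (wd m ++ [Y]) ++ invW (if fx = 0 then [] else wd fx)

/-- the relators common to all cases -/
noncomputable def baseRels (j : Nat) : List (List Nat) :=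
  lRels ++ [[4, 4, 4], [6, 6, 6], [4, 6, 5, 7],
    conjRel 4 0 caseA (gXK 0), conjRel 4 0 caseA (gYK 0), conjRel 4 0 caseA (gZK 0),
    conjRel 6 1 j (gXK 1), conjRel 6 1 j (gYK 1), conjRel 6 1 j (gZK 1),
    swapRel 4 0 caseA, swapRel 6 1 j]

/-- the relators of certificate `i` -/
noncomputable def relWords (i : Nat) : List (List Nat) :=
  baseRels (bCases.getD i 0) ++
    if bCases.getD i 0 = caseB then
      [cubeRel 4 cubeA.1 (if i ≤ 2 then 0 else cubeA.2),
        cubeRel 6 cubeB.1 (if i % 2 = 1 then 0 else cubeB.2)]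
    else []

/-- certificate `i` -/
def certAt : Nat → Cert
  | 0 => cert0
  | 1 => cert1
  | 2 => cert2
  | 3 => cert3
  | 4 => cert4
  | 5 => cert5
  | 6 => cert6
  | 7 => cert7
  | 8 => cert8
  | 9 => cert9
  | _ => cert10

theorem certAt_valid : ∀ i, i < 11 → (certAt i).Valid
  | 0, _ => cert0_valid
  | 1, _ => cert1_valid
  | 2, _ => cert2_valid
  | 3, _ => cert3_valid
  | 4, _ => cert4_valid
  | 5, _ => cert5_valid
  | 6, _ => cert6_valid
  | 7, _ => cert7_valid
  | 8, _ => cert8_valid
  | 9, _ => cert9_valid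
  | 10, _ => cert10_valid
  | n + 11, h => absurd h (by omega)

/-- all letters are below a bound -/
noncomputable def lettersBelow (b : Nat) (w : List Nat) : Bool :=
  List.rec (motive := fun _ => Bool) true (fun l _ ih => Nat.ble (Nat.succ l) b && ih) w

theorem cert_shape_chk : allFrom (fun i =>
    Nat.beq (certAt i).nrel (relWords i).length &&
      Nat.beq (certAt i).nsub ((certAt i).nrel + 2) &&
      Nat.beq (certAt i).n (Bool.rec 1 105 (Nat.beq i goodCert)) &&
      allFrom (fun k => natListEq ((certAt i).words.get k) ((relWords i).getD k [9]) &&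
        lettersBelow 8 ((certAt i).words.get k)) (certAt i).nrel 0 &&
      natListEq ((certAt i).words.get (certAt i).nrel) [0] &&
      natListEq ((certAt i).words.get ((certAt i).nrel + 1)) [2] &&
      allFrom (fun k => natListEq ((certAt i).words.get k) [] ||
        !allFrom (fun l => !natListEq ((certAt i).words.get k) [l, H68.J1.inv l]) 8 0)
        ((certAt i).nw - (certAt i).nsub) (certAt i).nsub &&
      Nat.ble (certAt i).nsub (certAt i).nw) 11 0 = true := by
  decide +kernel

theorem base_shape_chk : (Nat.beq certL.nrel 7 && Nat.beq certL.nsub 7 && Nat.beq certL.nw 16 &&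
    Nat.beq certL.n 192 && Nat.beq lRels.length 5 &&
    allFrom (fun k => natListEq (certL.words.get k) ((lRels ++ [[4], [6]]).getD k [9]) &&
      (lettersBelow 4 (lRels.getD k []) && natListEq [evL (lRels.getD k [])] [0])) 7 0 &&
    allFrom (fun k => natListEq (certL.words.get k) [] ||
      !allFrom (fun l => !natListEq (certL.words.get k) [l, H68.J1.inv l]) 8 0) 9 7) = true := by
  decide +kernel

theorem letters_chk : allL (fun a => lettersBelow 4 (wd a) && Nat.beq (evL (wd a)) a) = true := by
  decide +kernel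

theorem lettersBelow_mem {b : Nat} : ∀ {w : List Nat}, lettersBelow b w = true → ∀ l ∈ w, l < b
  | [], _, l, hl => by simp at hl
  | m :: w, h, l, hl => by
    have h' : (Nat.ble (Nat.succ m) b && lettersBelow b w) = true := h
    rw [Bool.and_eq_true] at h'
    rcases List.mem_cons.mp hl with rfl | hl
    · exact Nat.le_of_ble_eq_true h'.1
    · exact lettersBelow_mem h'.2 l hl

/-- letters from four generators -/
def lett {G : Type*} [Group G] (a b y z : G) (l : Nat) : G :=
  match l with
  | 0 => a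
  | 1 => a⁻¹
  | 2 => b
  | 3 => b⁻¹
  | 4 => y
  | 5 => y⁻¹
  | 6 => z
  | 7 => z⁻¹
  | _ => 1

theorem inv_ge {l : Nat} (h : 8 ≤ l) : 8 ≤ H68.J1.inv l := by
  by_contra hc
  push Not at hc
  have h1 : H68.J1.inv (H68.J1.inv l) = l := by
    show (l ^^^ 1) ^^^ 1 = l
    rw [Nat.xor_assoc, Nat.xor_self, Nat.xor_zero]
  have hs : ∀ m, m < 8 → H68.J1.inv m < 8 := by decide
  have := hs _ hc
  omega

theorem lett_inv {G : Type*} [Group G] (a b y z : G) :
    ∀ l, lett a b y z (H68.J1.inv l) = (lett a b y z l)⁻¹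
  | 0 => rfl
  | 1 => by show a = a⁻¹⁻¹; rw [inv_inv]
  | 2 => rfl
  | 3 => by show b = b⁻¹⁻¹; rw [inv_inv]
  | 4 => rfl
  | 5 => by show y = y⁻¹⁻¹; rw [inv_inv]
  | 6 => rfl
  | 7 => by show z = z⁻¹⁻¹; rw [inv_inv]
  | n + 8 => by
    obtain ⟨m, hm⟩ := Nat.exists_eq_add_of_le (inv_ge (l := n + 8) (by omega))
    rw [hm, Nat.add_comm 8 m]
    exact inv_one.symm

theorem ev_invW {G : Type*} [Group G] (f : Nat → G)
    (hf : ∀ l, f (H68.J1.inv l) = (f l)⁻¹) (w : List Nat) : ev f (invW w) = (ev f w)⁻¹ :=
  H68.J1.Cert.ev_inv_reverse f hf w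

theorem map_ev {G H : Type*} [Group G] [Group H] (φ : G →* H) (f : Nat → G) :
    ∀ w : List Nat, φ (ev f w) = ev (fun l => φ (f l)) w
  | [] => φ.map_one
  | l :: w => by simp [H68.J1.Cert.ev, map_ev φ f w]

theorem ev_congr {X : Type*} [Group X] {f g : Nat → X} {b : Nat} (h : ∀ l, l < b → f l = g l) :
    ∀ w : List Nat, (∀ l ∈ w, l < b) → ev f w = ev g w
  | [], _ => rfl
  | l :: w, hw => by
    show f l * ev f w = g l * ev g w
    rw [h l (hw l (List.mem_cons_self ..)),
      ev_congr h w fun m hm => hw m (List.mem_cons_of_mem _ hm)]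

theorem trivial_word {G : Type*} [Group G] (f : Nat → G) (hf : ∀ l, f (H68.J1.inv l) = (f l)⁻¹)
    {w : List Nat}
    (h : (natListEq w [] || !allFrom (fun l => !natListEq w [l, H68.J1.inv l]) 8 0) = true) :
    ev f w = 1 := by
  rw [Bool.or_eq_true, Bool.not_eq_true'] at h
  rcases h with h | h
  · rw [natListEq_eq h]; rfl
  · obtain ⟨l, hl⟩ : ∃ l, natListEq w [l, H68.J1.inv l] = true := by
      by_contra hc
      push Not at hc
      rw [allFrom_of_forall (p := fun l => !natListEq w [l, H68.J1.inv l])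
        (fun l _ _ => by simpa using hc l)] at h
      simp at h
    rw [natListEq_eq hl]
    simp [H68.J1.Cert.ev, hf]

/-- The generated group is bounded by the enumeration. -/
theorem card_le_of_relations {X : Type*} [Group X] [Finite X] (f : Nat → X)
    (hf : ∀ l, f (H68.J1.inv l) = (f l)⁻¹) {i : Nat} (hi : i < 11)
    (hrel : ∀ k, k < (relWords i).length → ev f ((relWords i).getD k [9]) = 1) :
    Nat.card (Subgroup.closure {x | ∃ l < 8, f l = x}) ≤
      (if i = goodCert then 105 else 1) *
        Nat.card (Subgroup.closure ({f 0, f 2} : Set X)) := by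
  classical
  have hc := allFrom_spec cert_shape_chk i (Nat.zero_le i) (by omega)
  simp only [Bool.and_eq_true] at hc
  obtain ⟨⟨⟨⟨⟨⟨⟨hr, hs⟩, hn⟩, hw⟩, h0⟩, h2⟩, htriv⟩, hle⟩ := hc
  have hr' : (certAt i).nrel = (relWords i).length := Nat.eq_of_beq_eq_true hr
  have hs' : (certAt i).nsub = (certAt i).nrel + 2 := Nat.eq_of_beq_eq_true hs
  have hn' : (certAt i).n = if i = goodCert then 105 else 1 := by
    rw [Nat.eq_of_beq_eq_true hn]
    by_cases h : i = goodCert
    · rw [if_pos h, beq_true h]
    · rw [if_neg h, beq_false h]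
  have hle' : (certAt i).nsub ≤ (certAt i).nw := Nat.le_of_ble_eq_true hle
  set H := Subgroup.closure {x | ∃ l < 8, f l = x}
  set C := Subgroup.closure ({f 0, f 2} : Set X)
  have hmem : ∀ l, l < 8 → f l ∈ H := fun l hl => Subgroup.subset_closure ⟨l, hl, rfl⟩
  have hCH : C ≤ H := by
    rw [Subgroup.closure_le]
    rintro x (rfl | rfl) <;> exact hmem _ (by norm_num)
  let f' : Nat → H := fun l => if h : f l ∈ H then ⟨f l, h⟩ else 1
  have hf' : ∀ l, f' (H68.J1.inv l) = (f' l)⁻¹ := by
    intro l
    by_cases h : f l ∈ H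
    · simp only [f', dif_pos h, dif_pos (show f (H68.J1.inv l) ∈ H by rw [hf]; exact inv_mem h)]
      exact Subtype.ext (hf l)
    · simp only [f', dif_neg h, dif_neg (show f (H68.J1.inv l) ∉ H by rw [hf, inv_mem_iff]; exact h),
        inv_one]
  have hlow : ∀ w : List Nat, (∀ l ∈ w, l < 8) → ((ev f' w : H) : X) = ev f w := by
    intro w
    induction w with
    | nil => intro _; rfl
    | cons l w ih =>
      intro h
      simp only [H68.J1.Cert.ev, Subgroup.coe_mul]
      rw [ih fun m hm => h m (List.mem_cons_of_mem _ hm)]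
      simp [f', dif_pos (hmem l (h l (List.mem_cons_self ..)))]
  have hrel' : ∀ k, k < (certAt i).nrel → ev f' ((certAt i).words.get k) = 1 := by
    intro k hk
    have hwk := allFrom_spec hw k (Nat.zero_le k) (by omega)
    rw [Bool.and_eq_true] at hwk
    apply Subtype.ext
    rw [hlow _ (lettersBelow_mem hwk.2), natListEq_eq hwk.1, hrel k (by omega)]
    rfl
  have hgen : Subgroup.closure {x : H | ∃ l < 8, f' l = x} = ⊤ := by
    rw [eq_top_iff, ← Subgroup.closure_closure_coe_preimage (k := {x | ∃ l < 8, f l = x})]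
    refine Subgroup.closure_mono ?_
    rintro x ⟨l, hl, hle⟩
    exact ⟨l, hl, by simp only [f', dif_pos (hmem l hl)]; exact Subtype.ext hle⟩
  have hb := ((certAt_valid i hi).index_le (s := f') (C := C.subgroupOf H) hgen hf' hrel' ?_ ?_).2
  · rw [← Subgroup.card_mul_index (C.subgroupOf H),
      Nat.card_congr (Subgroup.subgroupOfEquivOfLe hCH).toEquiv, mul_comm, ← hn']
    exact Nat.mul_le_mul_right _ hb
  · intro k hk
    by_cases hk15 : k < (certAt i).nrel
    · rw [hrel' k hk15]; exact one_mem _
    · rcases (show k = (certAt i).nrel ∨ k = (certAt i).nrel + 1 by omega) with rfl | rfl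
      · rw [natListEq_eq h0, Subgroup.mem_subgroupOf, hlow _ (by simp)]
        simp [H68.J1.Cert.ev]
        exact Subgroup.subset_closure (by simp)
      · rw [natListEq_eq h2, Subgroup.mem_subgroupOf, hlow _ (by simp)]
        simp [H68.J1.Cert.ev]
        exact Subgroup.subset_closure (by simp)
  · intro k hk1 hk2
    exact trivial_word f' hf' (allFrom_spec htriv k hk1 (by omega))

/-- The first two generators generate a group of order at most 192. -/
theorem card_base_le {X : Type*} [Group X] [Finite X] (a b : X)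
    (hrel : ∀ k, k < 5 → ev (lett a b 1 1) (lRels.getD k []) = 1) :
    Nat.card (Subgroup.closure ({a, b} : Set X)) ≤ 192 := by
  set H := Subgroup.closure ({a, b} : Set X)
  let f : Nat → H :=
    lett ⟨a, Subgroup.subset_closure (by simp)⟩ ⟨b, Subgroup.subset_closure (by simp)⟩ 1 1
  have hff : ∀ l, H.subtype (f l) = lett a b 1 1 l := by
    intro l
    match l with
    | 0 | 1 | 2 | 3 | 4 | 5 | 6 | 7 => simp [f, lett]
    | n + 8 => simp [f, lett]
  have hev : ∀ w, H.subtype (ev f w) = ev (lett a b 1 1) w := fun w => by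
    rw [map_ev]; exact congrArg (fun s => ev s w) (funext hff)
  have hgen : Subgroup.closure {x : H | ∃ l < 8, f l = x} = ⊤ := by
    rw [eq_top_iff, ← Subgroup.closure_closure_coe_preimage (k := ({a, b} : Set X))]
    refine Subgroup.closure_mono ?_
    rintro ⟨x, hx⟩ (h | h) <;> simp only at h <;> subst h
    · exact ⟨0, by norm_num, rfl⟩
    · exact ⟨2, by norm_num, rfl⟩
  have hb := base_shape_chk
  simp only [Bool.and_eq_true] at hb
  obtain ⟨⟨⟨⟨⟨⟨hr, hs⟩, hw⟩, hn⟩, hlen⟩, hwords⟩, htriv⟩ := hb
  have hr' : certL.nrel = 7 := Nat.eq_of_beq_eq_true hr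
  have hs' : certL.nsub = 7 := Nat.eq_of_beq_eq_true hs
  have hw' : certL.nw = 16 := Nat.eq_of_beq_eq_true hw
  have hlen' : lRels.length = 5 := Nat.eq_of_beq_eq_true hlen
  have hf := lett_inv (G := H) ⟨a, Subgroup.subset_closure (by simp)⟩
    ⟨b, Subgroup.subset_closure (by simp)⟩ 1 1
  have hrel' : ∀ k, k < 7 → ev f (certL.words.get k) = 1 := by
    intro k hk
    apply H.subtype_injective
    have hwk := allFrom_spec hwords k (Nat.zero_le k) (by omega)
    rw [Bool.and_eq_true] at hwk
    rw [hev, natListEq_eq hwk.1, map_one]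
    rcases (show k < 5 ∨ k = 5 ∨ k = 6 by omega) with h | rfl | rfl
    · rw [List.getD_eq_getElem _ _ (by rw [List.length_append, hlen']; omega),
        List.getElem_append_left (by omega), ← List.getD_eq_getElem _ [] (by omega)]
      exact hrel k h
    · show lett a b 1 1 4 * 1 = 1
      exact mul_one _
    · show lett a b 1 1 6 * 1 = 1
      exact mul_one _
  have h := (certL_valid.index_le (s := f) (C := (⊥ : Subgroup H)) hgen hf
    (fun k hk => hrel' k (by omega)) (fun k hk => by rw [hrel' k (by omega)]; exact one_mem _)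
    (fun k h1 h2 => trivial_word f hf (allFrom_spec htriv k (by omega) (by omega)))).2
  rw [Subgroup.index_bot, Nat.eq_of_beq_eq_true hn] at h
  exact h

namespace Amalgam

variable {G : Type*} [Group G] {s : G} {F : Frame s}

theorem ev_small {y z : G} : ∀ w : List Nat, lettersBelow 4 w = true →
    evL w < 192 ∧ ev (lett (F.ι gA) (F.ι gB) y z) w = F.ι (evL w) := by
  intro w
  induction w with
  | nil => intro _; exact ⟨by decide, F.map_zero.symm⟩
  | cons l w ih =>
    intro h
    have h' : (Nat.ble (Nat.succ l) 4 && lettersBelow 4 w) = true := h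
    rw [Bool.and_eq_true] at h'
    obtain ⟨e1, e2⟩ := ih h'.2
    have hl : l < 4 := Nat.le_of_ble_eq_true h'.1
    have hA : gA < 192 := by decide
    have hB : gB < 192 := by decide
    interval_cases l
    · exact ⟨mul_lt hA e1, by
        show F.ι gA * ev _ w = F.ι (mul gA (evL w))
        rw [F.map_mul _ _ hA e1, e2]⟩
    · exact ⟨mul_lt (inv_lt hA) e1, by
        show (F.ι gA)⁻¹ * ev _ w = F.ι (mul (inv gA) (evL w))
        rw [F.map_mul _ _ (inv_lt hA) e1, F.map_inv hA, e2]⟩
    · exact ⟨mul_lt hB e1, by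
        show F.ι gB * ev _ w = F.ι (mul gB (evL w))
        rw [F.map_mul _ _ hB e1, e2]⟩
    · exact ⟨mul_lt (inv_lt hB) e1, by
        show (F.ι gB)⁻¹ * ev _ w = F.ι (mul (inv gB) (evL w))
        rw [F.map_mul _ _ (inv_lt hB) e1, F.map_inv hB, e2]⟩

theorem ev_wd {a : Nat} (ha : a < 192) (y z : G) :
    ev (lett (F.ι gA) (F.ι gB) y z) (wd a) = F.ι a := by
  have h := allL_spec letters_chk ha
  rw [Bool.and_eq_true] at h
  rw [(ev_small _ h.1).2, Nat.eq_of_beq_eq_true h.2]

end Amalgam

end Cfsg.Agent.H80.Alt
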